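import Cfsg.Agent.S4441
import Cfsg.Agent.Lib.Helper20.M11Defs
import Cfsg.Agent.Lib.Helper20.M11G12
import Cfsg.Agent.Lib.Helper9.M11Cnt

/-! Block method kit (general order): degrees data `BaseN`, S4441 with values (`bridge2`),
values of the non-exceptional characters on all `p`-singular elements. -/

set_option autoImplicit false
set_option linter.unusedSectionVars false
set_option linter.unusedVariables false
set_option linter.style.haveILetI false

open Cfsg Cfsg.Agent.Lib.Helper20.M11 Cfsg.Agent.Lib.Helper82 Cfsg.Agent.Lib.Helper9.M11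

namespace Cfsg.Agent.Lib.Helper20.BlkKit

/-- degrees `d` of the irreducible characters of a perfect-like group of order `N`. -/
structure BaseN {ι : Type*} [Fintype ι] (N : ℕ) (d : ι → ℕ) (i₀ : ι) : Prop where
  dvd : ∀ i, d i ∣ N
  sq : ∑ i, d i ^ 2 = N
  one : d i₀ = 1
  uniq : ∀ i, d i = 1 → i = i₀

section
variable {ι : Type*} [Fintype ι] [DecidableEq ι] {N : ℕ} {d : ι → ℕ} {i₀ : ι}

theorem BaseN.sum_sq_le (hb : BaseN N d i₀) (S : Finset ι) : ∑ i ∈ S, d i ^ 2 ≤ N := by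
  rw [← hb.sq]
  exact Finset.sum_le_sum_of_subset (Finset.subset_univ S)

theorem BaseN.sq_le (hb : BaseN N d i₀) (i : ι) : d i ^ 2 ≤ N := by
  have h := BaseN.sum_sq_le hb {i}
  rwa [Finset.sum_singleton] at h

theorem BaseN.cnt_one_le (hb : BaseN N d i₀) (S : Finset ι) : cnt d S 1 ≤ 1 := by
  rw [cnt]
  calc (S.filter (fun i => d i = 1)).card ≤ ({i₀} : Finset ι).card := by
        apply Finset.card_le_card
        intro i hi
        rw [Finset.mem_singleton]
        exact hb.uniq i (Finset.mem_filter.mp hi).2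
    _ = 1 := Finset.card_singleton _

end

theorem baseN_of_simple {G : Type*} [Group G] [Finite G] [IsSimpleGroup G]
    [Fintype (IrrCharacter G)] (hG : ¬ (Nat.card G).Prime) :
    BaseN (Nat.card G) (fun χ : IrrCharacter G => charDegree (χ : G → ℂ))
      (Cfsg.Agent.Lib.Helper80.trivIrr G) := by
  refine ⟨?_, ?_, ?_, ?_⟩
  · intro χ
    exact isIrr_charDegree_dvd_card χ.2
  · exact sum_sq_charDegree
  · simp [charDegree, Cfsg.Agent.Lib.Helper80.trivIrr]
  · intro χ hχ
    have hχ' : charDegree (χ : G → ℂ) = 1 := hχ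
    have h1 : (χ : G → ℂ) 1 = 1 := by
      rw [isChar_one_eq (isIrr_isChar χ.2), hχ']; simp
    have hmul := isChar_linear_mul (isIrr_isChar χ.2) h1
    let K : Subgroup G :=
      { carrier := {g | (χ : G → ℂ) g = 1}
        one_mem' := h1
        mul_mem' := by
          intro a b ha hb
          show (χ : G → ℂ) (a * b) = 1
          rw [hmul, ha, hb, one_mul]
        inv_mem' := by
          intro a ha
          show (χ : G → ℂ) a⁻¹ = 1
          have := hmul a a⁻¹
          rw [mul_inv_cancel, h1, ha, one_mul] at this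
          exact this.symm }
    have hKn : K.Normal := by
      constructor
      intro n hn g
      show (χ : G → ℂ) (g * n * g⁻¹) = 1
      have h2 : (χ : G → ℂ) n = 1 := hn
      have h3 := hmul g g⁻¹
      rw [mul_inv_cancel, h1] at h3
      rw [hmul, hmul, h2, mul_one, ← h3]
    have hcomm : ∀ a b : G, a * b * a⁻¹ * b⁻¹ ∈ K := by
      intro a b
      show (χ : G → ℂ) (a * b * a⁻¹ * b⁻¹) = 1
      have h3 := hmul a a⁻¹
      rw [mul_inv_cancel, h1] at h3
      have h4 := hmul b b⁻¹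
      rw [mul_inv_cancel, h1] at h4
      rw [hmul, hmul, hmul]
      calc (χ : G → ℂ) a * (χ : G → ℂ) b * (χ : G → ℂ) a⁻¹ * (χ : G → ℂ) b⁻¹
          = ((χ : G → ℂ) a * (χ : G → ℂ) a⁻¹) * ((χ : G → ℂ) b * (χ : G → ℂ) b⁻¹) := by ring
        _ = 1 := by rw [← h3, ← h4, one_mul]
    rcases hKn.eq_bot_or_eq_top with h | h
    · exfalso
      have hab : ∀ a b : G, a * b = b * a := by
        intro a b
        have := hcomm a b
        rw [h, Subgroup.mem_bot] at this
        calc a * b = (a * b * a⁻¹ * b⁻¹) * (b * a) := by group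
          _ = b * a := by rw [this, one_mul]
      letI : CommGroup G := { (inferInstance : Group G) with mul_comm := hab }
      exact hG (IsSimpleGroup.prime_card (α := G))
    · apply Subtype.ext
      funext g
      have : g ∈ K := by rw [h]; trivial
      exact this

/-- every `p`-singular element is conjugate to `x * y`, `x ∈ P ∖ 1`, `y ∈ C(P)` `p`-regular. -/
theorem exists_conj_decomp {G : Type*} [Group G] [Finite G] (p : ℕ) [hp : Fact p.Prime]
    (P : Sylow p G) (hP : Nat.card P = p) (g : G) (hg : p ∣ orderOf g) :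
    ∃ h x y : G, x ∈ (P : Subgroup G) ∧ x ≠ 1 ∧
      y ∈ Subgroup.centralizer ((P : Subgroup G) : Set G) ∧ ¬ p ∣ orderOf y ∧
      h * g * h⁻¹ = x * y := by
  obtain ⟨m, hm⟩ := hg
  have hfac : (Nat.card G).factorization p = 1 := by
    have h1 := P.card_eq_multiplicity
    rw [hP] at h1
    have h2 : p ^ 1 = p ^ (Nat.card G).factorization p := by rw [pow_one]; exact h1
    exact (Nat.pow_right_injective hp.out.two_le h2).symm
  have hpm : ¬ p ∣ m := by
    rintro ⟨k, rfl⟩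
    have h1 : p ^ 2 ∣ Nat.card G := by
      have : p ^ 2 ∣ orderOf g := ⟨k, by rw [hm]; ring⟩
      exact this.trans (orderOf_dvd_natCard g)
    have h2 := (hp.out.pow_dvd_iff_le_factorization Nat.card_pos.ne').1 h1
    omega
  have hcop : Nat.Coprime m p := (Nat.Coprime.symm ((hp.out.coprime_iff_not_dvd).2 hpm))
  -- Bezout
  have hbez : (m : ℤ) * Nat.gcdA m p + (p : ℤ) * Nat.gcdB m p = 1 := by
    have := Nat.gcd_eq_gcd_ab m p
    rw [hcop] at this
    exact_mod_cast this.symm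
  set a := Nat.gcdA m p
  set b := Nat.gcdB m p
  set x₀ := g ^ ((m : ℤ) * a) with hx₀
  set y₀ := g ^ ((p : ℤ) * b) with hy₀
  have hxy : x₀ * y₀ = g := by
    rw [hx₀, hy₀, ← zpow_add, hbez, zpow_one]
  have hcomm : Commute x₀ y₀ := by
    rw [hx₀, hy₀]
    exact (Commute.refl g).zpow_zpow _ _
  have hx₀p : x₀ ^ p = 1 := by
    rw [hx₀, ← zpow_natCast, ← zpow_mul]
    have : (m : ℤ) * a * (p : ℤ) = ((orderOf g : ℕ) : ℤ) * a := by rw [hm]; push_cast; ring
    rw [this, zpow_mul, zpow_natCast, pow_orderOf_eq_one, one_zpow]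
  have hy₀m : y₀ ^ m = 1 := by
    rw [hy₀, ← zpow_natCast, ← zpow_mul]
    have : (p : ℤ) * b * (m : ℤ) = ((orderOf g : ℕ) : ℤ) * b := by rw [hm]; push_cast; ring
    rw [this, zpow_mul, zpow_natCast, pow_orderOf_eq_one, one_zpow]
  have hm0 : m ≠ 0 := by
    rintro rfl
    have := orderOf_pos g
    omega
  have hx₀1 : x₀ ≠ 1 := by
    intro h
    rw [h, one_mul] at hxy
    rw [hxy] at hy₀m
    have h1 := orderOf_dvd_of_pow_eq_one hy₀m
    rw [hm] at h1
    have h2 : p * m ≤ m := Nat.le_of_dvd (Nat.pos_of_ne_zero hm0) h1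
    have h3 := hp.out.two_le
    nlinarith [Nat.pos_of_ne_zero hm0]
  have hox : orderOf x₀ = p := orderOf_eq_prime hx₀p hx₀1
  have hoy : ¬ p ∣ orderOf y₀ := fun h => hpm (h.trans (orderOf_dvd_of_pow_eq_one hy₀m))
  have hpg : IsPGroup p (Subgroup.zpowers x₀) := by
    apply IsPGroup.of_card (n := 1)
    rw [Nat.card_zpowers, hox, pow_one]
  obtain ⟨Q, hQ⟩ := hpg.exists_le_sylow
  have hcQ : Nat.card Q = p := by
    rw [Sylow.card_eq_multiplicity, ← Sylow.card_eq_multiplicity P]; exact hP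
  have hzQ : Subgroup.zpowers x₀ = (Q : Subgroup G) := by
    apply Subgroup.eq_of_le_of_card_ge hQ
    rw [Nat.card_zpowers, hox]; exact hcQ.le
  obtain ⟨h, hh⟩ := MulAction.exists_smul_eq G Q P
  have hmemP : ∀ z : G, z ∈ (P : Subgroup G) ↔ h⁻¹ * z * h ∈ Subgroup.zpowers x₀ := by
    intro z
    rw [hzQ, ← hh, Sylow.coe_subgroup_smul, Subgroup.mem_pointwise_smul_iff_inv_smul_mem]
    simp [MulAut.smul_def, mul_assoc]
  refine ⟨h, h * x₀ * h⁻¹, h * y₀ * h⁻¹, ?_, ?_, ?_, ?_, ?_⟩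
  · rw [hmemP]
    have : h⁻¹ * (h * x₀ * h⁻¹) * h = x₀ := by group
    rw [this]
    exact Subgroup.mem_zpowers x₀
  · intro h1
    apply hx₀1
    have h2 : h * x₀ * h⁻¹ = h * 1 * h⁻¹ := by rw [h1]; group
    exact mul_left_cancel (mul_right_cancel h2)
  · rw [Subgroup.mem_centralizer_iff]
    intro z hz
    obtain ⟨k, hk⟩ := Subgroup.mem_zpowers_iff.1 ((hmemP z).1 hz)
    have hz2 : z = h * x₀ ^ k * h⁻¹ := by rw [hk]; group
    have hc : x₀ ^ k * y₀ = y₀ * x₀ ^ k := (hcomm.zpow_left k).eq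
    rw [hz2]
    calc h * x₀ ^ k * h⁻¹ * (h * y₀ * h⁻¹) = h * (x₀ ^ k * y₀) * h⁻¹ := by group
      _ = h * (y₀ * x₀ ^ k) * h⁻¹ := by rw [hc]
      _ = h * y₀ * h⁻¹ * (h * x₀ ^ k * h⁻¹) := by group
  · have hord : orderOf (h * y₀ * h⁻¹) = orderOf y₀ := by
      have := orderOf_injective (MulAut.conj h).toMonoidHom (MulAut.conj h).injective y₀
      simpa [MulAut.conj_apply] using this
    rw [hord]; exact hoy
  · rw [← hxy]; group

theorem bridge2 {G : Type*} [Group G] [Fintype G] [Fintype (IrrCharacter G)]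
    [DecidableEq (IrrCharacter G)] (p : ℕ) [Fact p.Prime] (M : Ideal AlgInt)
    (hM : IsPModular p M) (hodd : p ≠ 2) (P : Sylow p G) (hP : Nat.card P = p) (e : ℕ)
    (he : (Subgroup.centralizer ((P : Subgroup G) : Set G)).relIndex
      (Subgroup.normalizer ((P : Subgroup G) : Set G)) = e) :
    ∃ (X Y : Finset (IrrCharacter G)) (s : IrrCharacter G → ℤ) (ε : ℤ),
      (∀ χ, χ ∈ principalBlock M G ↔ χ ∈ X ∪ Y) ∧
      Shadow (fun χ : IrrCharacter G => charDegree (χ : G → ℂ)) p e X Y s ε ∧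
      (∀ χ ∈ X, ∀ x : G, x ∈ (P : Subgroup G) → x ≠ 1 → ∀ y : G,
        y ∈ Subgroup.centralizer ((P : Subgroup G) : Set G) → ¬ p ∣ orderOf y →
        (χ : G → ℂ) (x * y) = (s χ : ℂ)) ∧
      (∀ χ ∈ X, ∀ g : G, p ∣ orderOf g → (χ : G → ℂ) g = (s χ : ℂ)) ∧
      (∀ θ ∈ Y, ∀ g : G, ¬ p ∣ orderOf g →
        (ε : ℂ) * (θ : G → ℂ) g = ∑ χ ∈ X, (s χ : ℂ) * (χ : G → ℂ) g) := by
  classical
  obtain ⟨X, Y, hB, hdisj, hcX, hcY, s, ε, hX, hε, hY1, hY2, hY3⟩ :=
    Cfsg.Agent.S4441.result p M hM hodd P hP e he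
  have hp1 : ¬ p ∣ orderOf (1 : G) := by
    rw [orderOf_one]
    exact (Fact.out : p.Prime).one_lt.ne' ∘ Nat.dvd_one.1
  have hdeg : ∀ χ : IrrCharacter G, (χ : G → ℂ) 1 = (charDegree (χ : G → ℂ) : ℂ) :=
    fun χ => isChar_one_eq (isIrr_isChar χ.2)
  have h2 : (Set.toFinite X).toFinset = X.toFinset := by
    ext; simp
  refine ⟨X.toFinset, Y.toFinset, s, ε, ?_, ?_, ?_, ?_, ?_⟩
  · intro χ
    rw [hB]
    simp
  · refine ⟨?_, ?_, ?_, ?_, ?_, hε, ?_, ?_, ?_⟩
    · rw [Set.disjoint_toFinset]; exact hdisj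
    · rw [Set.toFinset_card, ← Nat.card_eq_fintype_card]; exact hcX
    · rw [Set.toFinset_card, ← Nat.card_eq_fintype_card]; exact hcY
    · intro i hi; exact (hX i (Set.mem_toFinset.1 hi)).1
    · intro i hi; exact (hX i (Set.mem_toFinset.1 hi)).2.1
    · intro i hi; exact hY1 i (Set.mem_toFinset.1 hi)
    · intro i hi j hj
      have h := hY2 i (Set.mem_toFinset.1 hi) j (Set.mem_toFinset.1 hj) 1 hp1
      rw [hdeg, hdeg] at h
      exact_mod_cast h
    · intro i hi
      have h := hY3 i (Set.mem_toFinset.1 hi) 1 hp1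
      rw [finsum_mem_eq_finite_toFinset_sum _ (Set.toFinite X)] at h
      simp only [hdeg] at h
      rw [h2] at h
      exact_mod_cast h
  · intro χ hχ
    exact (hX χ (Set.mem_toFinset.1 hχ)).2.2
  · intro χ hχ g hg
    obtain ⟨h, x, y, hx, hx1, hy, hyp, hxy⟩ := exists_conj_decomp p P hP g hg
    have hcl := Cfsg.Agent.Lib.Helper20.isClassFunction_of_isCharacter (isIrr_isChar χ.2)
    have h3 : (χ : G → ℂ) (h * g * h⁻¹) = (χ : G → ℂ) g := hcl g h
    rw [← h3, hxy]
    exact (hX χ (Set.mem_toFinset.1 hχ)).2.2 x hx hx1 y hy hyp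
  · intro θ hθ g hg
    have h := hY3 θ (Set.mem_toFinset.1 hθ) g hg
    rw [finsum_mem_eq_finite_toFinset_sum _ (Set.toFinite X), h2] at h
    exact h

end Cfsg.Agent.Lib.Helper20.BlkKit
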