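import Cfsg.Agent.S4539
import Cfsg.Agent.S4669
import Cfsg.Agent.S4733
import Cfsg.Agent.Lib.Helper21.ExtFirstMain
import Cfsg.Agent.Lib.Helper21.DefectCard

set_option autoImplicit false
set_option linter.unusedSectionVars false
set_option linter.style.haveILetI false
open Cfsg

namespace Cfsg.Agent.Lib.Helper20

/-- The `p`-regular rank of a nonempty set of irreducible characters is positive. -/
theorem one_le_blockRank_of_mem {G : Type*} [Group G] [Finite G] (p : ℕ) [Fact p.Prime]
    {B : Set (IrrCharacter G)} {χ : IrrCharacter G} (hχ : χ ∈ B) : 1 ≤ blockRank p B := by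
  classical
  by_contra hcon
  have h0 : blockRank p B = 0 := by omega
  unfold blockRank at h0
  rw [Submodule.finrank_eq_zero] at h0
  have h1 : pRegularPart p (χ : G → ℂ) ∈
      Submodule.span ℂ ((fun χ : IrrCharacter G => pRegularPart p (χ : G → ℂ)) '' B) :=
    Submodule.subset_span ⟨χ, hχ, rfl⟩
  rw [h0, Submodule.mem_bot] at h1
  have h2 := congrFun h1 1
  have h3 : IsPRegular p (1 : G) := by
    unfold IsPRegular
    simp [(Fact.out : p.Prime).one_lt.ne']
  simp only [pRegularPart, if_pos h3, Pi.zero_apply] at h2
  exact Cfsg.Agent.Lib.Helper81.irr_one_ne_zero χ.2 h2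

/-- Rung D of the Brandt ladder: a block with defect group of order two has exactly two
irreducible characters. -/
theorem card_block_eq_two_of_card_defectGroup {G : Type*} [Group G] [Finite G] (p : ℕ)
    [Fact p.Prime] (M : Ideal AlgInt) (hM : IsPModular p M) (B : Set (IrrCharacter G))
    (hB : IsPBlock M B) (D : Subgroup G) (hD : IsDefectGroup p M B D) (h2 : Nat.card D = 2) :
    Nat.card B = 2 := by
  classical
  haveI : Fintype G := Fintype.ofFinite G
  have hp : p.Prime := Fact.out
  have hc := Cfsg.Agent.Lib.Helper21.card_defectGroup hM B hB D hD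
  rw [h2] at hc
  -- the generator
  obtain ⟨z', hz', hzu⟩ := (Nat.card_eq_two_iff' (1 : D)).1 h2
  obtain ⟨z, hzD⟩ := z'
  have hD2 : ∀ d ∈ D, d = 1 ∨ d = z := by
    intro d hd
    by_cases h : d = 1
    · exact Or.inl h
    · right
      have := hzu ⟨d, hd⟩ (by intro h'; exact h (congrArg Subtype.val h'))
      exact congrArg Subtype.val this
  have hzc : ∀ d ∈ D, d * z = z * d := by
    intro d hd
    rcases hD2 d hd with rfl | rfl <;> simp
  set H := Subgroup.centralizer ({z} : Set G) with hH
  have hmemH : ∀ h : G, h ∈ H ↔ z * h = h * z := by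
    intro h
    rw [hH, Subgroup.mem_centralizer_iff]
    simp
  have hPH : D ≤ H := by
    intro d hd
    rw [hmemH]
    exact (hzc d hd).symm
  have hCH : Subgroup.centralizer (D : Set G) ≤ H := by
    intro c hc'
    rw [hmemH]
    exact Subgroup.mem_centralizer_iff.1 hc' z hzD
  have hHN : H ≤ Subgroup.normalizer (D : Set G) := by
    intro h hh
    rw [hmemH] at hh
    have hconj : h * z * h⁻¹ = z := by rw [← hh]; group
    rw [Subgroup.mem_normalizer_iff]
    intro d
    constructor
    · intro hd
      rcases hD2 d hd with rfl | rfl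
      · simp
      · rw [hconj]; exact hzD
    · intro hd
      rcases hD2 _ hd with h' | h'
      · have : d = 1 := by
          have := congrArg (fun x => h⁻¹ * x * h) h'
          simpa [mul_assoc] using this
        rw [this]; exact D.one_mem
      · have : d = z := by
          rw [← hconj] at h'
          have := congrArg (fun x => h⁻¹ * x * h) h'
          simpa [mul_assoc] using this
        rw [this]; exact hzD
  obtain ⟨b, hbD, hb⟩ := Cfsg.Agent.Lib.Helper21.exists_block_of_defectGroup hM hPH hCH hHN B hB hD
  haveI : Fintype H := Fintype.ofFinite _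
  have hl : blockRank p b = 1 := by
    apply Cfsg.Agent.S4669.result p M hM b hb.1 _ hbD
    intro x hx
    rw [Subgroup.mem_subgroupOf] at hx
    rw [Subgroup.mem_center_iff]
    intro g
    apply Subtype.ext
    have hg := (hmemH g.1).1 g.2
    rcases hD2 _ hx with h | h
    · simp [h]
    · simp only [Subgroup.coe_mul, h]
      exact hg.symm
  have hle := Cfsg.Agent.S4539.result p M hM B hB D hD z hzD hzc b hb hbD (by omega)
  rw [← hc] at hle
  obtain ⟨h1, h2', h3⟩ := Cfsg.Agent.S4733.result p M hM B hB
  obtain ⟨χ, hχ⟩ := Cfsg.Agent.Lib.Helper81.isPBlock_nonempty hM hB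
  have hl1 := one_le_blockRank_of_mem p hχ
  have hd0 : blockDefect p B ≠ 0 := by
    intro h
    rw [h] at hc
    simp at hc
  by_contra hne
  have hk1 : Nat.card B = 1 := by omega
  exact hd0 (h3.2 (by omega))

end Cfsg.Agent.Lib.Helper20
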