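import Cfsg.Agent.Lib.Helper20.PCBlock3
import Cfsg.Agent.Lib.Helper81.Integrality
import Cfsg.Agent.Lib.Helper82.Central

set_option autoImplicit false
set_option linter.unusedSectionVars false
set_option linter.style.haveILetI false

/-!
# Characters of central defect (Laradji)
-/

namespace Cfsg.Agent.Lib.Helper20

open Cfsg Cfsg.Agent.Lib.Helper81 Cfsg.Agent.Lib.Helper19 Cfsg.Agent.Lib.Helper21
open scoped ComplexConjugate

variable {G : Type*} [Group G] [Fintype G] {p : ℕ} [Fact p.Prime] {M : Ideal AlgInt}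
  {D : Subgroup G}

theorem sup_centralizer_of_central (hDZ : D ≤ Subgroup.center G) :
    D ⊔ Subgroup.centralizer (D : Set G) = ⊤ := by
  have : Subgroup.centralizer (D : Set G) = ⊤ := by
    rw [Subgroup.centralizer_eq_top_iff_subset]
    exact hDZ
  rw [this, sup_top_eq]

theorem normSq_central_mul {χ : G → ℂ} (hχ : IsIrrCharacter G χ) {z : G}
    (hz : z ∈ Subgroup.center G) (y : G) :
    Complex.normSq (χ (z * y)) = Complex.normSq (χ y) := by
  have h1 := Cfsg.Agent.Lib.Helper82.isIrr_central_mul hχ hz y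
  have h2 := Cfsg.Agent.Lib.Helper82.isIrr_central_mul_conj hχ hz
  have h10 := Cfsg.Agent.Lib.Helper81.irr_one_ne_zero hχ
  rw [Complex.mul_conj] at h2
  have h3 := congrArg Complex.normSq h1
  rw [map_mul, map_mul] at h3
  have h4 : Complex.normSq (χ z) = Complex.normSq (χ 1) := by
    have h5 := congrArg Complex.normSq h2
    rw [map_pow, Complex.normSq_ofReal, ← sq] at h5
    exact (pow_left_inj₀ (Complex.normSq_nonneg _) (Complex.normSq_nonneg _) two_ne_zero).1 h5
  rw [h4, mul_comm] at h3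
  exact mul_left_cancel₀ (fun h => h10 (Complex.normSq_eq_zero.1 h)) h3

/-- `|D| |G| m_{χχ}` is the sum of `|χ(g)|²` over the elements with `p`-part in `D`. -/
theorem card_mul_mC_self_central [Fintype D] (hD : IsPGroup p D) (hDZ : D ≤ Subgroup.center G)
    (χ : IrrCharacter G) [DecidablePred fun g : G => ∃ x ∈ D, IsPPart p g x] :
    (Nat.card D : ℂ) * ((Nat.card G : ℂ) * mC p (χ : G → ℂ) (χ : G → ℂ))
      = ((∑ g : G, if (∃ x ∈ D, IsPPart p g x) then Complex.normSq ((χ : G → ℂ) g) else 0 : ℝ) : ℂ) := by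
  classical
  have hp : p.Prime := Fact.out
  have hG := sup_centralizer_of_central hDZ
  have hGc : (Nat.card G : ℂ) ≠ 0 := card_ne_zero_complex
  have h1 := sum_sum_regular hp hD hG
    (fun g => ((if (∃ x ∈ D, IsPPart p g x) then Complex.normSq ((χ : G → ℂ) g) else 0 : ℝ) : ℂ))
    (fun g hg => by
      show (((if (∃ x ∈ D, IsPPart p g x) then Complex.normSq ((χ : G → ℂ) g) else 0 : ℝ)) : ℂ) = 0
      rw [if_neg hg]; rfl)
  rw [Complex.ofReal_sum, ← h1]
  have h2 : ∀ u : D, (∑ y : G, if IsPRegular p y then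
      ((if (∃ x ∈ D, IsPPart p ((u : G) * y) x) then Complex.normSq ((χ : G → ℂ) ((u : G) * y))
        else 0 : ℝ) : ℂ) else 0) = (Nat.card G : ℂ) * mC p (χ : G → ℂ) (χ : G → ℂ) := by
    intro u
    simp only [mC, classInner, pRegularPart_eq]
    rw [← mul_assoc, mul_inv_cancel₀ hGc, one_mul]
    apply Finset.sum_congr rfl
    intro y _
    by_cases hy : IsPRegular p y
    · rw [if_pos hy, if_pos hy, if_pos, normSq_central_mul χ.2 (hDZ u.2), Complex.mul_conj]
      refine ⟨u, u.2, isPPart_of_regular hp hD hG u.2 ?_⟩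
      rw [inv_mul_cancel_left]
      exact hy
    · rw [if_neg hy, if_neg hy, zero_mul]
  rw [Finset.sum_congr rfl (fun u _ => h2 u), Finset.sum_const, Finset.card_univ, nsmul_eq_mul,
    ← Nat.card_eq_fintype_card]

theorem sum_normSq_irr (χ : IrrCharacter G) :
    ∑ g : G, Complex.normSq ((χ : G → ℂ) g) = (Nat.card G : ℝ) := by
  have h1 := classInner_irr_self χ.2
  unfold classInner at h1
  have h0 : (Nat.card G : ℂ) ≠ 0 := card_ne_zero_complex
  have h2 : ∑ g : G, (χ : G → ℂ) g * conj ((χ : G → ℂ) g) = (Nat.card G : ℂ) := by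
    field_simp at h1
    exact h1
  simp only [Complex.mul_conj] at h2
  exact_mod_cast h2

/-- the key computation: `|D| m_{χχ} = 1`. -/
theorem central_defect_key [Fintype D] (hM : IsPModular p M) (hD : IsPGroup p D)
    (hDZ : D ≤ Subgroup.center G) (χ : IrrCharacter G)
    (hdeg : (charDegree (χ : G → ℂ)).factorization p = D.index.factorization p)
    [DecidablePred fun g : G => ∃ x ∈ D, IsPPart p g x] :
    nC p χ χ = ((p ^ nuDeg p χ : ℕ) : ℤ) ∧
    (∑ g : G, if (∃ x ∈ D, IsPPart p g x) then Complex.normSq ((χ : G → ℂ) g) else 0 : ℝ)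
      = (Nat.card G : ℝ) := by
  classical
  have hp : p.Prime := Fact.out
  have hi : D.index ≠ 0 := Subgroup.index_ne_zero_of_finite
  obtain ⟨δ, hδ⟩ := IsPGroup.iff_card.1 hD
  have d3 : (Nat.card G).factorization p = δ + nuDeg p χ := by
    rw [← D.card_mul_index, Nat.factorization_mul Nat.card_pos.ne' hi, hδ, hp.factorization_pow]
    simp only [Finsupp.coe_add, Pi.add_apply, Finsupp.single_eq_same, nuDeg, hdeg]
  obtain ⟨k, hk⟩ := pow_nuDeg_dvd_nC hM χ χ
  have h1 := nC_spec hp χ χ
  have hpc : (p : ℂ) ≠ 0 := by exact_mod_cast hp.ne_zero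
  have h2 : (Nat.card D : ℂ) * mC p (χ : G → ℂ) (χ : G → ℂ) = (k : ℂ) := by
    rw [hk, d3] at h1
    push_cast at h1
    rw [pow_add, mul_comm ((p : ℂ) ^ δ), mul_assoc] at h1
    rw [hδ]
    push_cast
    exact (mul_left_cancel₀ (pow_ne_zero _ hpc) h1).symm
  have h3 := card_mul_mC_self_central hD hDZ χ
  rw [mul_left_comm, h2] at h3
  set S : ℝ := ∑ g : G, if (∃ x ∈ D, IsPPart p g x) then Complex.normSq ((χ : G → ℂ) g) else 0
    with hS
  have h4 : (Nat.card G : ℝ) * (k : ℝ) = S := by exact_mod_cast h3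
  have hGpos : (0 : ℝ) < (Nat.card G : ℝ) := by exact_mod_cast Nat.card_pos
  have h5 : S ≤ (Nat.card G : ℝ) := by
    rw [← sum_normSq_irr χ, hS]
    apply Finset.sum_le_sum
    intro g _
    split_ifs
    · exact le_rfl
    · exact Complex.normSq_nonneg _
  have h6 : 0 < S := by
    rw [hS]
    apply Finset.sum_pos'
    · intro g _
      split_ifs
      · exact Complex.normSq_nonneg _
      · exact le_rfl
    · refine ⟨1, Finset.mem_univ _, ?_⟩
      rw [if_pos]
      · exact Complex.normSq_pos.2 (Cfsg.Agent.Lib.Helper81.irr_one_ne_zero χ.2)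
      · refine ⟨1, D.one_mem, 1, by simp, Commute.one_left _, ⟨0, by simp⟩, ?_⟩
        rw [orderOf_one]
        exact hp.one_lt.ne' ∘ Nat.dvd_one.1
  have h7 : (0 : ℝ) < (k : ℝ) := by
    by_contra hneg
    rw [not_lt] at hneg
    have := mul_nonpos_of_nonneg_of_nonpos hGpos.le hneg
    linarith
  have h8 : (k : ℝ) ≤ 1 := by
    by_contra hneg
    rw [not_le] at hneg
    have := mul_lt_mul_of_pos_left hneg hGpos
    linarith
  have h9 : k = 1 := by
    have a1 : 0 < k := by exact_mod_cast h7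
    have a2 : k ≤ 1 := by exact_mod_cast h8
    omega
  refine ⟨by rw [hk, h9, mul_one], ?_⟩
  rw [← h4, h9]
  simp

theorem central_defect_vanish (hM : IsPModular p M) (hD : IsPGroup p D)
    (hDZ : D ≤ Subgroup.center G) (χ : IrrCharacter G)
    (hdeg : (charDegree (χ : G → ℂ)).factorization p = D.index.factorization p)
    {g : G} (hg : ¬ ∃ x ∈ D, IsPPart p g x) : (χ : G → ℂ) g = 0 := by
  classical
  haveI : Fintype D := Fintype.ofFinite _
  have h1 := (central_defect_key hM hD hDZ χ hdeg).2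
  rw [← sum_normSq_irr χ] at h1
  have h2 : ∑ g : G, (Complex.normSq ((χ : G → ℂ) g)
      - if (∃ x ∈ D, IsPPart p g x) then Complex.normSq ((χ : G → ℂ) g) else 0) = 0 := by
    rw [Finset.sum_sub_distrib, h1, sub_self]
  have h3 := (Finset.sum_eq_zero_iff_of_nonneg (fun g _ => by
    split_ifs
    · rw [sub_self]
    · rw [sub_zero]; exact Complex.normSq_nonneg _)).1 h2 g (Finset.mem_univ _)
  rw [if_neg hg, sub_zero] at h3
  exact Complex.normSq_eq_zero.1 h3

theorem central_defect_isDefectGroup (hM : IsPModular p M) (hD : IsPGroup p D)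
    (hDZ : D ≤ Subgroup.center G) (χ : IrrCharacter G)
    (hdeg : (charDegree (χ : G → ℂ)).factorization p = D.index.factorization p) :
    IsDefectGroup p M (blockOf M (χ : G → ℂ)) D := by
  classical
  haveI : Fintype D := Fintype.ofFinite _
  have hp : p.Prime := Fact.out
  have hi : D.index ≠ 0 := Subgroup.index_ne_zero_of_finite
  have hB : IsPBlock M (blockOf M (χ : G → ℂ)) := ⟨χ, rfl⟩
  have hχ := mem_blockOf_self hM χ
  have h1 := (central_defect_key hM hD hDZ χ hdeg).1
  have h0 : blockHeight p (blockOf M (χ : G → ℂ)) (χ : G → ℂ) = 0 := by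
    by_contra hne
    have hn : nC p χ χ ≠ 0 := by
      rw [h1]
      exact_mod_cast (pow_pos hp.pos _).ne'
    have h2 := nC_of_height_pos hM hB hχ hχ hne hn
    rw [h1, Int.natAbs_natCast, hp.factorization_pow, Finsupp.single_eq_same] at h2
    exact lt_irrefl _ h2
  obtain ⟨δ, hδ⟩ := IsPGroup.iff_card.1 hD
  have d3 : (Nat.card G).factorization p = δ + nuDeg p χ := by
    rw [← D.card_mul_index, Nat.factorization_mul Nat.card_pos.ne' hi, hδ, hp.factorization_pow]
    simp only [Finsupp.coe_add, Pi.add_apply, Finsupp.single_eq_same, nuDeg, hdeg]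
  have d1 := blockDefect_add (p := p) (isPBlock_nonempty hM hB)
  have d2 := (blockHeight_eq_zero_iff (p := p) hχ).1 h0
  obtain ⟨Q, hQ⟩ := exists_isDefectGroup hM _ hB
  haveI : D.Normal := normal_of_sup_centralizer (sup_centralizer_of_central hDZ)
  have h3 := normal_pSubgroup_le_defectGroup hM _ hB Q hQ D hD
  have h4 : D = Q := by
    apply Subgroup.eq_of_le_of_card_ge h3
    rw [card_defectGroup hM _ hB Q hQ, hδ]
    apply Nat.pow_le_pow_right hp.pos
    omega
  rw [h4]
  exact hQ

end Cfsg.Agent.Lib.Helper20
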