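import Cfsg.Agent.Lib.Helper77.PResCong
import Cfsg.Agent.Lib.Helper21.PrincipalOver
import Cfsg.Agent.Lib.Helper53.Basic

set_option autoImplicit false
set_option linter.unusedSectionVars false
set_option linter.unusedVariables false
set_option linter.style.haveILetI false

open Cfsg

namespace Cfsg.Agent.Lib.Helper20.GF

/- RESID -/
theorem resid_facts {G : Type*} [Group G] [Finite G] (p : ℕ) [Fact p.Prime] (P : Sylow p G)
    (N : Subgroup G) (hNres : N = Cfsg.pResidual p G) :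
    (∃ a : ℕ, N.index = p ^ a) ∧ N ⊔ (P : Subgroup G) = ⊤ ∧
      ∀ g : G, Nat.Coprime (orderOf g) p → g ∈ N := by
  subst hNres
  haveI := Cfsg.Agent.Lib.Helper53.pResidual_normal p G
  refine ⟨?_, Cfsg.Agent.Lib.Helper53.pResidual_sup_sylow P,
    fun g hg => Cfsg.Agent.Lib.Helper53.mem_pResidual hg⟩
  have h := Cfsg.Agent.Lib.Helper53.isPGroup_quotient_pResidual (G := G) p
  obtain ⟨a, ha⟩ := IsPGroup.iff_card.1 h
  exact ⟨a, by rw [Subgroup.index_eq_card]; exact ha⟩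

/- KCOP -/
theorem k_facts {G : Type*} [Group G] [Finite G] (p : ℕ) [hp : Fact p.Prime] (N : Subgroup G)
    [N.Normal]
    (hreg : ∀ g : G, Nat.Coprime (orderOf g) p → g ∈ N) (k : ℕ)
    (hk₁ : ∀ g : G, (∃ j : ℕ, orderOf g = p ^ j) → g ^ k = g ^ (1 + p))
    (hk₂ : ∀ g : G, Nat.Coprime (orderOf g) p → g ^ k = g) :
    Nat.Coprime k (Nat.card G) ∧ ∀ g : G, (g ^ (1 + p))⁻¹ * g ^ k ∈ N := by
  constructor
  · apply Nat.Coprime.symm
    apply Nat.coprime_of_dvd
    intro q hq hqG hqk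
    haveI : Fact q.Prime := ⟨hq⟩
    obtain ⟨g, hg⟩ := exists_prime_orderOf_dvd_card' q hqG
    have hgk : g ^ k = 1 := by
      rw [← orderOf_dvd_iff_pow_eq_one, hg]; exact hqk
    have hg1 : g ≠ 1 := by
      intro h
      rw [h, orderOf_one] at hg
      exact hq.one_lt.ne hg
    by_cases hqp : q = p
    · have h1 := hk₁ g ⟨1, by rw [hg, hqp, pow_one]⟩
      rw [hgk, pow_add, pow_one] at h1
      have h2 : g ^ p = 1 := by
        rw [← hqp, ← hg]; exact pow_orderOf_eq_one g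
      rw [h2, mul_one] at h1
      exact hg1 h1.symm
    · have h1 := hk₂ g (by rw [hg]; exact (Nat.coprime_primes hq hp.out).2 hqp)
      rw [hgk] at h1
      exact hg1 h1.symm
  · intro g
    apply hreg
    set m := ordCompl[p] (orderOf g) with hm
    have ho : orderOf g ≠ 0 := (orderOf_pos g).ne'
    have hmc : m.Coprime p := (Nat.coprime_ordCompl hp.out ho).symm
    have hmd : m ∣ orderOf g := Nat.ordCompl_dvd _ _
    have hm0 : m ≠ 0 := fun h => by rw [h] at hmd; exact ho (Nat.eq_zero_of_zero_dvd hmd)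
    have h1 : orderOf (g ^ m) = p ^ (orderOf g).factorization p := by
      rw [orderOf_pow_of_dvd hm0 hmd]
      apply Nat.div_eq_of_eq_mul_left (Nat.pos_of_ne_zero hm0)
      exact (Nat.ordProj_mul_ordCompl_eq_self _ _).symm
    have h2 := hk₁ (g ^ m) ⟨_, h1⟩
    have h3 : ((g ^ (1 + p))⁻¹ * g ^ k) ^ m = 1 := by
      have hc : Commute (g ^ (1 + p))⁻¹ (g ^ k) :=
        ((Commute.refl g).pow_pow _ _).inv_left
      rw [hc.mul_pow, inv_pow, ← pow_mul, ← pow_mul, mul_comm (1 + p) m, mul_comm k m, pow_mul,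
        pow_mul g m k, h2, inv_mul_cancel]
    exact Nat.Coprime.coprime_dvd_left (orderOf_dvd_of_pow_eq_one h3) hmc

/- RES -/
theorem res_irr {G : Type*} [Group G] [Finite G] (p : ℕ) [hp : Fact p.Prime] (N : Subgroup G)
    [N.Normal]
    (hidx : ∃ a : ℕ, N.index = p ^ a) (χ : IrrCharacter G)
    (hdeg : ¬ p ∣ charDegree (χ : G → ℂ)) :
    ∃ θ : IrrCharacter N, ∀ n : N, (χ : G → ℂ) n = (θ : N → ℂ) n := by
  obtain ⟨a, ha⟩ := hidx
  exact ⟨⟨_, Cfsg.Agent.Lib.Helper77.isIrr_res_of_pow_index hp.out N a ha χ.2 hdeg⟩, fun n => rfl⟩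

/- BLK -/
theorem res_mem_principal {G : Type*} [Group G] [Finite G] (p : ℕ) [Fact p.Prime]
    (M : Ideal AlgInt) (hM : IsPModular p M) (N : Subgroup G) [hN : N.Normal] (χ : IrrCharacter G)
    (hχ : χ ∈ principalBlock M G) (θ : IrrCharacter N)
    (h : ∀ n : N, (χ : G → ℂ) n = (θ : N → ℂ) n) : θ ∈ principalBlock M N := by
  classical
  haveI := Fintype.ofFinite G
  have he : (fun n : N => (χ : G → ℂ) n) = (θ : N → ℂ) := funext h
  have hcon : classInner (fun n : N => (χ : G → ℂ) n) (θ : N → ℂ) ≠ 0 := by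
    rw [he, Cfsg.Agent.Lib.Helper20.classInner_irr_self θ.2]
    exact one_ne_zero
  have h1 := Cfsg.Agent.Lib.Helper21.mem_conjClosure_of_covers hM hN
    (Cfsg.Agent.Lib.Helper80.isPBlock_principal M) (Cfsg.Agent.Lib.Helper80.isPBlock_principal M)
    (Cfsg.Agent.Lib.Helper21.covers_principal hM N) hχ hcon
  rw [Cfsg.Agent.Lib.Helper21.mem_conjClosure] at h1
  obtain ⟨g, hg⟩ := h1
  have h2 : Cfsg.Agent.Lib.Helper21.cjIrr hN g θ = θ := by
    apply Subtype.ext
    rw [Cfsg.Agent.Lib.Helper21.cjIrr_coe, ← he]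
    exact Cfsg.Agent.Lib.Helper5.cjF_restrict hN
      (Cfsg.Agent.Lib.Helper20.isClassFunction_of_isCharacter
        (Cfsg.Agent.Lib.Helper20.isCharacter_of_isIrrCharacter χ.2)) g
  rw [h2] at hg
  exact hg

theorem ext_mem_principal {G : Type*} [Group G] [Finite G] (p : ℕ) [Fact p.Prime]
    (M : Ideal AlgInt) (hM : IsPModular p M) (N : Subgroup G) [hN : N.Normal]
    (hidx : ∃ a : ℕ, N.index = p ^ a) (χ : IrrCharacter G) (θ : IrrCharacter N)
    (hθ : θ ∈ principalBlock M N)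
    (h : ∀ n : N, (χ : G → ℂ) n = (θ : N → ℂ) n) : χ ∈ principalBlock M G := by
  classical
  haveI := Fintype.ofFinite G
  have he : (fun n : N => (χ : G → ℂ) n) = (θ : N → ℂ) := funext h
  have hcon : classInner (fun n : N => (χ : G → ℂ) n) (θ : N → ℂ) ≠ 0 := by
    rw [he, Cfsg.Agent.Lib.Helper20.classInner_irr_self θ.2]
    exact one_ne_zero
  have h1 : Cfsg.Agent.Lib.Helper21.Covers N (blockOf M (χ : G → ℂ)) (principalBlock M N) :=
    ⟨χ, Cfsg.Agent.Lib.Helper81.mem_blockOf_self hM χ, θ, hθ, hcon⟩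
  have h2 := Cfsg.Agent.Lib.Helper21.covers_unique_of_index_pow hM hN hidx ⟨χ, rfl⟩
    (Cfsg.Agent.Lib.Helper80.isPBlock_principal M) (Cfsg.Agent.Lib.Helper80.isPBlock_principal M)
    h1 (Cfsg.Agent.Lib.Helper21.covers_principal hM N)
  rw [← h2]
  exact Cfsg.Agent.Lib.Helper81.mem_blockOf_self hM χ

/- FIB : counting lemma -/
theorem card_eq_mul_of_fibers {α β : Type*} [Finite α] [Finite β] (f : α → β) (p : ℕ)
    (h : ∀ b : β, Nat.card {a : α // f a = b} = p) : Nat.card α = p * Nat.card β := by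
  classical
  haveI := Fintype.ofFinite β
  rw [← Nat.card_congr (Equiv.sigmaFiberEquiv f), Nat.card_sigma]
  simp only [h, Finset.sum_const, Finset.card_univ, smul_eq_mul, Nat.card_eq_fintype_card]
  ring

end Cfsg.Agent.Lib.Helper20.GF
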