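import Cfsg.Agent.Lib.Helper77.PResCong
import Cfsg.Agent.Lib.Helper77.GallRel
import Cfsg.Agent.Lib.Helper77.GlaubCore
import Cfsg.Agent.Lib.Helper79.LinTwist
import Cfsg.Agent.Lib.Helper79.GaloisChar
import Cfsg.Agent.Lib.Helper82.Linear

set_option autoImplicit false
set_option linter.unusedSectionVars false
set_option linter.unusedVariables false
set_option linter.style.haveILetI false

open Cfsg

namespace Cfsg.Agent.Lib.Helper20.GF

/- PAR : extensions of χc|N are exactly the twists χc * l, l trivial on N, l unique -/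
theorem ext_param {G : Type*} [Group G] [Finite G] (N : Subgroup G) [N.Normal]
    (hab : ∀ x y : G, x * y * x⁻¹ * y⁻¹ ∈ N)
    (χc : G → ℂ) (hχc : IsIrrCharacter G χc) (hres : IsIrrCharacter N (fun n : N => χc n)) :
    (∀ χ : G → ℂ, IsIrrCharacter G χ → (∀ n : N, χ n = χc n) →
      ∃ l : G →* ℂˣ, (∀ n ∈ N, l n = 1) ∧ ∀ g, χ g = χc g * (l g : ℂ)) ∧
    (∀ l l' : G →* ℂˣ, (∀ n ∈ N, l n = 1) → (∀ n ∈ N, l' n = 1) →
      (∀ g, χc g * (l g : ℂ) = χc g * (l' g : ℂ)) → l = l') := by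
  classical
  haveI := Fintype.ofFinite G
  constructor
  · intro χ hχ hN'
    have he : (fun n : N => χ n) = fun n : N => χc n := funext hN'
    obtain ⟨a, ha1, ha2⟩ := Cfsg.Agent.Lib.Helper79.exists_linear_twist N hab hχc hχ
      (by rw [he, Cfsg.Agent.Lib.Helper20.classInner_irr_self hres]; exact one_ne_zero)
    exact ⟨a, ha1, fun g => by rw [ha2, mul_comm]⟩
  · intro l l' hl hl' h
    let L : G ⧸ N →* ℂˣ := QuotientGroup.lift N l (fun n hn => hl n hn)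
    let L' : G ⧸ N →* ℂˣ := QuotientGroup.lift N l' (fun n hn => hl' n hn)
    have h1 := Cfsg.Agent.Lib.Helper77.gall_inj N hχc hres (QuotientGroup.mk' N)
      (QuotientGroup.mk'_surjective N) (fun t => QuotientGroup.eq_one_iff t)
      (β := Cfsg.Agent.Lib.Helper19.homFun L) (β' := Cfsg.Agent.Lib.Helper19.homFun L')
      (Cfsg.Agent.Lib.Helper82.isChar_linear_isIrr (Cfsg.Agent.Lib.Helper19.isCharacter_homFun L).1
        (Cfsg.Agent.Lib.Helper19.isCharacter_homFun L).2)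
      (Cfsg.Agent.Lib.Helper82.isChar_linear_isIrr (Cfsg.Agent.Lib.Helper19.isCharacter_homFun L').1
        (Cfsg.Agent.Lib.Helper19.isCharacter_homFun L').2)
      (funext fun t => h t)
    have hLL : L = L' := Cfsg.Agent.Lib.Helper19.homFun_injective h1
    apply MonoidHom.ext
    intro g
    have h2 := congrArg (fun f : G ⧸ N →* ℂˣ => f (g : G ⧸ N)) hLL
    exact h2

/- FIX : a Galois-fixed extension exists -/
theorem exists_fixed_ext {G : Type*} [Group G] [Finite G] (p : ℕ) [hp : Fact p.Prime]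
    (N : Subgroup G)
    [N.Normal] (hNres : N = Cfsg.pResidual p G) (hidx : ∃ a : ℕ, N.index = p ^ a)
    (hab : ∀ x y : G, x * y * x⁻¹ * y⁻¹ ∈ N) (k : ℕ) (hk : Nat.Coprime k (Nat.card G))
    (χ₀ : G → ℂ) (hχ₀ : IsIrrCharacter G χ₀) (hres : IsIrrCharacter N (fun n : N => χ₀ n))
    (hdeg : ¬ p ∣ charDegree χ₀) (hfix : ∀ n : N, χ₀ ((n : G) ^ k) = χ₀ n) :
    ∃ l : G →* ℂˣ, (∀ n ∈ N, l n = 1) ∧
      ∀ g : G, χ₀ (g ^ k) * (l (g ^ k) : ℂ) = χ₀ g * (l g : ℂ) := by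
  classical
  haveI := Fintype.ofFinite G
  have hχ₀c := Cfsg.Agent.Lib.Helper20.isCharacter_of_isIrrCharacter hχ₀
  obtain ⟨τ, hτ1, hτ2⟩ := Cfsg.Agent.Lib.Helper79.exists_galois (Nat.card G) k Nat.card_pos hk
  have hχ₁ : IsIrrCharacter G (fun g => χ₀ (g ^ k)) :=
    Cfsg.Agent.Lib.Helper79.IsIrrCharacter.pow_coprime hχ₀ k hk
  have hr : (fun n : N => χ₀ ((n : G) ^ k)) = fun n : N => χ₀ n := funext hfix
  obtain ⟨a, haN, ha⟩ := Cfsg.Agent.Lib.Helper79.exists_linear_twist N hab hχ₀ hχ₁ (by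
    show classInner (fun n : N => χ₀ ((n : G) ^ k)) (fun n : N => χ₀ n) ≠ 0
    rw [hr, Cfsg.Agent.Lib.Helper20.classInner_irr_self hres]; exact one_ne_zero)
  obtain ⟨δ, hδ⟩ := Cfsg.Agent.Lib.Helper19.exists_detChar_hom hχ₀c
  have hd : χ₀ 1 = (charDegree χ₀ : ℂ) := Cfsg.Agent.Lib.Helper82.isChar_one_eq hχ₀c
  set d := charDegree χ₀ with hddef
  have hdet : ∀ g, (δ g) ^ k = (a g) ^ d * δ g := by
    intro g
    have e1 : (fun g => χ₀ (g ^ k)) = fun g => (τ : ℂ →+* ℂ) (χ₀ g) :=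
      funext fun g => (hτ2 G χ₀ hχ₀c g pow_card_eq_one').symm
    have e2 : (fun g => χ₀ (g ^ k)) = Cfsg.Agent.Lib.Helper19.homFun a * χ₀ := funext fun g => ha g
    have h1 := Cfsg.Agent.Lib.Helper77.detChar_ringHom_comp (τ : ℂ →+* ℂ) hχ₀c
    rw [← e1, e2, Cfsg.Agent.Lib.Helper19.detChar_twist a hχ₀c d hd, hδ] at h1
    have h2 := congrFun h1 g
    simp only [Pi.mul_apply, Cfsg.Agent.Lib.Helper19.homFun_apply, MonoidHom.pow_apply] at h2
    have h3 : τ ((δ g : ℂˣ) : ℂ) = ((δ g : ℂˣ) : ℂ) ^ k := hτ1 _ (by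
      rw [← Units.val_pow_eq_pow_val, ← map_pow, pow_card_eq_one', map_one, Units.val_one])
    apply Units.ext
    push_cast
    rw [← h3]
    push_cast at h2
    exact h2.symm
  obtain ⟨A, hA⟩ := hidx
  set q := p ^ A with hqdef
  have hq0 : 0 < q := pow_pos hp.out.pos A
  have haq : ∀ g, (a g) ^ q = 1 := by
    intro g
    rw [← map_pow]
    apply haN
    rw [← hA]
    exact Subgroup.pow_index_mem N g
  have hm : ∃ m₀ : ℕ, m₀.Coprime p ∧ ∀ n ∈ N, (δ n) ^ m₀ = 1 := by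
    subst hNres
    have hc := Cfsg.Agent.Lib.Helper77.detOrder_coprime_pResidual hp.out
      (Cfsg.Agent.Lib.Helper20.isCharacter_of_isIrrCharacter hres)
    refine ⟨_, hc, ?_⟩
    intro n hn
    have h1 : detChar (fun n : pResidual p G => χ₀ n) ^ detOrder (fun n : pResidual p G => χ₀ n)
        = 1 := pow_orderOf_eq_one _
    rw [Cfsg.Agent.Lib.Helper19.detChar_restrict hχ₀c, hδ] at h1
    have h2 := congrFun h1 ⟨n, hn⟩
    simp only [Pi.pow_apply, Pi.one_apply, Cfsg.Agent.Lib.Helper19.homFun_apply] at h2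
    apply Units.ext
    push_cast
    exact h2
  obtain ⟨m₀, hm₀, hδN⟩ := hm
  have hcop1 : q.Coprime m₀ := Nat.Coprime.pow_left A hm₀.symm
  obtain ⟨e, he1, he0⟩ := Nat.chineseRemainder hcop1 1 0
  have hdq : d.Coprime q :=
    Nat.Coprime.pow_right A ((Nat.Prime.coprime_iff_not_dvd hp.out).2 hdeg).symm
  set d' := d ^ (Nat.totient q - 1) with hd'def
  have hdd' : d * d' ≡ 1 [MOD q] := by
    have h0 : d * d' = d ^ Nat.totient q := mul_pow_sub_one (Nat.totient_pos.2 hq0).ne' d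
    rw [h0]; exact Nat.ModEq.pow_totient hdq
  have hE : d * (e * d') ≡ 1 [MOD q] := by
    have h0 : d * (e * d') = e * (d * d') := by ring
    rw [h0]
    simpa using he1.mul hdd'
  have hpw : ∀ g, (a g) ^ (d * (e * d')) = a g := by
    intro g
    have h1 : (a g) ^ (d * (e * d')) = (a g) ^ 1 := by
      rw [pow_eq_pow_iff_modEq]
      exact hE.of_dvd (orderOf_dvd_of_pow_eq_one (haq g))
    rw [h1, pow_one]
  refine ⟨(δ ^ (e * d'))⁻¹, ?_, ?_⟩
  · intro n hn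
    rw [MonoidHom.inv_apply, MonoidHom.pow_apply, inv_eq_one]
    obtain ⟨c, hc⟩ := (Nat.modEq_zero_iff_dvd.1 he0)
    rw [hc, mul_assoc, pow_mul, hδN n hn, one_pow]
  · intro g
    have h1 : ((δ ^ (e * d'))⁻¹ : G →* ℂˣ) (g ^ k) =
        (a g)⁻¹ * ((δ ^ (e * d'))⁻¹ : G →* ℂˣ) g := by
      rw [MonoidHom.inv_apply, MonoidHom.inv_apply, MonoidHom.pow_apply, MonoidHom.pow_apply,
        map_pow, hdet g, mul_pow, ← pow_mul, hpw g, mul_inv]
    rw [ha g, h1, Units.val_mul]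
    have h2 : ((a g : ℂˣ) : ℂ) * (((a g)⁻¹ : ℂˣ) : ℂ) = 1 := Units.mul_inv _
    linear_combination (χ₀ g * ((((δ ^ (e * d'))⁻¹ : G →* ℂˣ) g : ℂˣ) : ℂ)) * h2

/- CNT : number of linear characters of the cyclic p-group G/N killed by p -/
theorem card_hom_pow_eq_one {G : Type*} [Group G] [Finite G] (p : ℕ) [hp : Fact p.Prime]
    (N : Subgroup G)
    [N.Normal] (hidx : ∃ a : ℕ, N.index = p ^ a) (hcyc : IsCyclic (G ⧸ N)) (hnt : N ≠ ⊤) :
    Nat.card {l : G →* ℂˣ // (∀ n ∈ N, l n = 1) ∧ l ^ p = 1} = p := by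
  classical
  haveI : NeZero p := ⟨hp.out.ne_zero⟩
  obtain ⟨q, hq⟩ := hcyc.exists_generator
  obtain ⟨g₀, rfl⟩ := QuotientGroup.mk_surjective q
  have hpo : p ∣ orderOf (g₀ : G ⧸ N) := by
    rw [orderOf_eq_card_of_forall_mem_zpowers hq, ← Subgroup.index_eq_card]
    obtain ⟨a, ha⟩ := hidx
    rw [ha]
    apply dvd_pow_self
    rintro rfl
    rw [pow_zero, Subgroup.index_eq_one] at ha
    exact hnt ha
  have hcard : Nat.card (rootsOfUnity p ℂ) = p := Complex.card_rootsOfUnity p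
  refine Eq.trans ?_ hcard
  refine Nat.card_eq_of_bijective
    (fun l => (⟨(l : G →* ℂˣ) g₀, ?_⟩ : rootsOfUnity p ℂ)) ⟨?_, ?_⟩
  · rw [mem_rootsOfUnity]
    have h0 := congrArg (fun f : G →* ℂˣ => f g₀) l.2.2
    simpa only [MonoidHom.pow_apply, MonoidHom.one_apply] using h0
  · intro l l' h
    have h0 : (l : G →* ℂˣ) g₀ = (l' : G →* ℂˣ) g₀ := congrArg Subtype.val h
    apply Subtype.ext
    apply MonoidHom.ext
    intro g
    obtain ⟨i, hi⟩ := Subgroup.mem_zpowers_iff.1 (hq (g : G ⧸ N))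
    rw [← QuotientGroup.mk_zpow, QuotientGroup.eq] at hi
    have e : g = g₀ ^ i * ((g₀ ^ i)⁻¹ * g) := by group
    have e1 : ∀ f : G →* ℂˣ, (∀ n ∈ N, f n = 1) → f g = (f g₀) ^ i := by
      intro f hf
      have h1 := hf _ hi
      rw [map_mul, map_inv, inv_mul_eq_one, map_zpow] at h1
      exact h1.symm
    rw [e1 _ l.2.1, e1 _ l'.2.1, h0]
  · rintro ⟨z, hz⟩
    rw [mem_rootsOfUnity] at hz
    have hzo : orderOf z ∣ orderOf (g₀ : G ⧸ N) := (orderOf_dvd_of_pow_eq_one hz).trans hpo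
    let L : G ⧸ N →* ℂˣ := monoidHomOfForallMemZpowers hq hzo
    have hL : L (g₀ : G ⧸ N) = z := monoidHomOfForallMemZpowers_apply_gen hq hzo
    refine ⟨⟨L.comp (QuotientGroup.mk' N), ?_, ?_⟩, ?_⟩
    · intro n hn
      rw [MonoidHom.comp_apply, QuotientGroup.mk'_apply, (QuotientGroup.eq_one_iff n).2 hn, map_one]
    · apply MonoidHom.ext
      intro g
      rw [MonoidHom.pow_apply, MonoidHom.one_apply, MonoidHom.comp_apply, QuotientGroup.mk'_apply]
      obtain ⟨i, hi⟩ := Subgroup.mem_zpowers_iff.1 (hq (g : G ⧸ N))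
      rw [← hi, map_zpow, hL, ← zpow_natCast, ← zpow_mul, mul_comm, zpow_mul, zpow_natCast, hz,
        one_zpow]
    · apply Subtype.ext
      exact hL

end Cfsg.Agent.Lib.Helper20.GF
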