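import Cfsg.Agent.Lib.Helper77.GallRel
import Cfsg.Agent.Lib.Helper77.GlaubCore
import Cfsg.Agent.Lib.Helper79.LinTwist
import Cfsg.Agent.Lib.Helper79.ExtCyclicChar
import Cfsg.Agent.Lib.Helper79.GaloisChar
import Cfsg.Agent.Lib.Helper21.PrincipalOver
import Cfsg.Agent.Lib.Helper82.Linear
import Cfsg.Agent.S0887
import Cfsg.Agent.Lib.Helper20.GFA
import Cfsg.Agent.Lib.Helper20.GFB

set_option autoImplicit false
set_option linter.unusedSectionVars false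
set_option linter.unusedVariables false
set_option linter.style.haveILetI false

open Cfsg

namespace Cfsg.Agent.Lib.Helper20.GF

/- ================= ASSEMBLY (helper20) ================= -/

theorem inv_of_sup {G : Type*} [Group G] (N Q : Subgroup G) [hN : N.Normal] (hsup : N ⊔ Q = ⊤)
    (θ : N → ℂ) (hcl : ∀ m n : N, θ (m * n * m⁻¹) = θ n)
    (hQ : ∀ x ∈ Q, ∀ n : N, θ ⟨x * n * x⁻¹, hN.conj_mem n n.2 x⟩ = θ n) :
    ∀ (x : G) (n : N), θ ⟨x * n * x⁻¹, hN.conj_mem n n.2 x⟩ = θ n := by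
  let S : Subgroup G :=
    { carrier := {x | ∀ n : N, θ ⟨x * n * x⁻¹, hN.conj_mem n n.2 x⟩ = θ n}
      one_mem' := by
        intro n
        congr 1
        ext
        simp
      mul_mem' := by
        intro a b ha hb n
        have h1 := ha ⟨b * n * b⁻¹, hN.conj_mem n n.2 b⟩
        rw [hb n] at h1
        rw [← h1]
        congr 1
        ext
        simp [mul_assoc]
      inv_mem' := by
        intro a ha n
        have h1 := ha ⟨a⁻¹ * n * a⁻¹⁻¹, hN.conj_mem n n.2 a⁻¹⟩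
        rw [← h1]
        congr 1
        ext
        simp [mul_assoc] }
  have h1 : N ≤ S := by
    intro m hm n
    exact hcl ⟨m, hm⟩ n
  have h2 : Q ≤ S := fun x hx => hQ x hx
  have h3 : S = ⊤ := top_le_iff.1 (hsup ▸ sup_le h1 h2)
  intro x
  have : x ∈ S := h3 ▸ Subgroup.mem_top x
  exact this

theorem charDegree_eq_of_res {G : Type*} [Group G] (N : Subgroup G) (χ : G → ℂ) (θ : N → ℂ)
    (h : ∀ n : N, χ n = θ n) : charDegree θ = charDegree χ := by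
  unfold charDegree
  rw [← h 1]
  rfl

theorem fiber_card {G : Type*} [Group G] [Finite G] (p : ℕ) [Fact p.Prime] (N : Subgroup G)
    [hN : N.Normal] (hNres : N = Cfsg.pResidual p G) (hidx : ∃ a : ℕ, N.index = p ^ a)
    (hcyc : IsCyclic (G ⧸ N)) (hnt : N ≠ ⊤) (k : ℕ) (hk : Nat.Coprime k (Nat.card G))
    (hkN : ∀ g : G, (g ^ (1 + p))⁻¹ * g ^ k ∈ N)
    (θ : IrrCharacter N) (hdeg : ¬ p ∣ charDegree (θ : N → ℂ))
    (hinv : ∀ (x : G) (n : N), (θ : N → ℂ) ⟨x * n * x⁻¹, hN.conj_mem n n.2 x⟩ = (θ : N → ℂ) n)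
    (hfix : ∀ n : N, (θ : N → ℂ) (n ^ k) = (θ : N → ℂ) n) :
    Nat.card {χ : IrrCharacter G // (∀ n : N, (χ : G → ℂ) n = (θ : N → ℂ) n) ∧
      ∀ g : G, (χ : G → ℂ) (g ^ k) = (χ : G → ℂ) g} = p := by
  classical
  have hab : ∀ x y : G, x * y * x⁻¹ * y⁻¹ ∈ N := by
    intro x y
    rw [← QuotientGroup.eq_one_iff]
    obtain ⟨g, hg⟩ := hcyc.exists_generator
    have hcomm : ∀ a b : G ⧸ N, a * b = b * a := by
      intro a b
      obtain ⟨i, rfl⟩ := Subgroup.mem_zpowers_iff.1 (hg a)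
      obtain ⟨j, rfl⟩ := Subgroup.mem_zpowers_iff.1 (hg b)
      rw [← zpow_add, ← zpow_add, add_comm]
    simp only [QuotientGroup.mk_mul, QuotientGroup.mk_inv]
    rw [hcomm (x : G ⧸ N) y]
    simp
  obtain ⟨χ₀, hχ₀, hχ₀N⟩ := Cfsg.Agent.Lib.Helper79.exists_irr_ext_of_cyclic N hcyc (θ : N → ℂ) θ.2 hinv
  have hres₀ : IsIrrCharacter N (fun n : N => χ₀ n) := by
    have : (fun n : N => χ₀ n) = (θ : N → ℂ) := funext hχ₀N
    rw [this]; exact θ.2
  obtain ⟨l₀, hl₀N, hl₀⟩ := exists_fixed_ext p N hNres hidx hab k hk χ₀ hχ₀ hres₀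
    (by rw [← charDegree_eq_of_res N χ₀ (θ : N → ℂ) hχ₀N]; exact hdeg)
    (by
      intro n
      have h1 := hχ₀N (n ^ k)
      rw [Subgroup.coe_pow] at h1
      rw [h1, hfix, hχ₀N])
  set χc : G → ℂ := fun g => χ₀ g * (l₀ g : ℂ) with hχcdef
  have htw : ∀ (E : G → ℂ), IsIrrCharacter G E → ∀ l : G →* ℂˣ,
      IsIrrCharacter G (fun g => E g * (l g : ℂ)) := by
    intro E hE l
    have := Cfsg.Agent.Lib.Helper82.isIrr_linear_mul (Cfsg.Agent.Lib.Helper19.isCharacter_homFun l).1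
      (Cfsg.Agent.Lib.Helper19.isCharacter_homFun l).2 hE
    have e : (fun g => E g * (l g : ℂ)) = Cfsg.Agent.Lib.Helper19.homFun l * E := by
      funext g
      simp [Cfsg.Agent.Lib.Helper19.homFun, mul_comm]
    rw [e]; exact this
  have hχc : IsIrrCharacter G χc := htw χ₀ hχ₀ l₀
  have hχcN : ∀ n : N, χc n = (θ : N → ℂ) n := by
    intro n
    rw [hχcdef]
    simp only
    rw [hl₀N n n.2, Units.val_one, mul_one, hχ₀N]
  have hχcfix : ∀ g, χc (g ^ k) = χc g := hl₀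
  have hresc : IsIrrCharacter N (fun n : N => χc n) := by
    have : (fun n : N => χc n) = (θ : N → ℂ) := funext hχcN
    rw [this]; exact θ.2
  obtain ⟨hpar1, hpar2⟩ := ext_param N hab χc hχc hresc
  have hlk : ∀ l : G →* ℂˣ, (∀ n ∈ N, l n = 1) → ∀ g, l (g ^ k) = (l ^ (1 + p)) g := by
    intro l hl g
    have h1 := hl _ (hkN g)
    rw [map_mul, map_inv, inv_mul_eq_one] at h1
    rw [← h1, map_pow]
    rfl
  rw [← card_hom_pow_eq_one p N hidx hcyc hnt]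
  symm
  refine Nat.card_eq_of_bijective (fun l => ⟨⟨fun g => χc g * ((l : G →* ℂˣ) g : ℂ), htw χc hχc l⟩, ?_, ?_⟩) ⟨?_, ?_⟩
  · intro n
    show χc n * (((l : G →* ℂˣ) n : ℂˣ) : ℂ) = _
    rw [l.2.1 n n.2, Units.val_one, mul_one, hχcN]
  · intro g
    show χc (g ^ k) * (((l : G →* ℂˣ) (g ^ k) : ℂˣ) : ℂ) = χc g * (((l : G →* ℂˣ) g : ℂˣ) : ℂ)
    have e : (l : G →* ℂˣ) ^ (1 + p) = (l : G →* ℂˣ) := by
      apply MonoidHom.ext
      intro g
      have h0 := congrArg (fun f : G →* ℂˣ => f g) l.2.2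
      simp only [MonoidHom.pow_apply, MonoidHom.one_apply] at h0
      rw [MonoidHom.pow_apply, pow_add, pow_one, h0, mul_one]
    rw [hχcfix, hlk l l.2.1, e]
  · intro l l' h
    apply Subtype.ext
    apply hpar2 l l' l.2.1 l'.2.1
    intro g
    have h1 := congrArg (fun a => ((a : {χ : IrrCharacter G // _}) : IrrCharacter G).1 g) h
    exact h1
  · rintro ⟨χ, hχN, hχfix⟩
    obtain ⟨l, hlN, hl⟩ := hpar1 (χ : G → ℂ) χ.2 (fun n => by rw [hχN, hχcN])
    have hlp : l ^ p = 1 := by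
      have h1 : l ^ (1 + p) = l := by
        apply hpar2 _ _ _ hlN
        · intro g
          rw [← hlk l hlN g, ← hχcfix g, ← hl (g ^ k), hχfix g, hl g, hχcfix g]
        · intro n hn
          rw [MonoidHom.pow_apply, hlN n hn, one_pow]
      apply MonoidHom.ext
      intro g
      have h0 := congrArg (fun f : G →* ℂˣ => f g) h1
      simp only [MonoidHom.pow_apply] at h0
      rw [pow_add, pow_one] at h0
      rw [MonoidHom.pow_apply, MonoidHom.one_apply]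
      exact mul_eq_left.1 h0
    refine ⟨⟨l, hlN, hlp⟩, ?_⟩
    apply Subtype.ext
    apply Subtype.ext
    funext g
    exact (hl g).symm

theorem main {G : Type*} [Group G] [Finite G] (p : ℕ) [Fact p.Prime] (M : Ideal Cfsg.AlgInt)
    (hM : Cfsg.IsPModular p M) (P : Sylow p G) (N : Subgroup G) [hN : N.Normal]
    (hNres : N = Cfsg.pResidual p G) (hcyc : IsCyclic (G ⧸ N)) (hnt : N ≠ ⊤) (k : ℕ)
    (hk₁ : ∀ g : G, (∃ j : ℕ, orderOf g = p ^ j) → g ^ k = g ^ (1 + p))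
    (hk₂ : ∀ g : G, Nat.Coprime (orderOf g) p → g ^ k = g) :
    Nat.card {χ : Cfsg.IrrCharacter G // χ ∈ Cfsg.principalBlock M G ∧
      ¬ p ∣ Cfsg.charDegree (χ : G → ℂ) ∧ ∀ g : G, (χ : G → ℂ) (g ^ k) = (χ : G → ℂ) g} =
    p * Nat.card {θ : Cfsg.IrrCharacter ↥N // θ ∈ Cfsg.principalBlock M ↥N ∧
      ¬ p ∣ Cfsg.charDegree (θ : ↥N → ℂ) ∧
      (∀ x ∈ (P : Subgroup G), ∀ n : ↥N,
        (θ : ↥N → ℂ) ⟨x * n * x⁻¹, hN.conj_mem n n.2 x⟩ = (θ : ↥N → ℂ) n) ∧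
      ∀ n : ↥N, (θ : ↥N → ℂ) (n ^ k) = (θ : ↥N → ℂ) n} := by
  classical
  obtain ⟨hidx, hsup, hreg⟩ := resid_facts p P N hNres
  obtain ⟨hk, hkN⟩ := k_facts p N hreg k hk₁ hk₂
  haveI : Finite (IrrCharacter G) := Cfsg.Agent.Lib.Helper20.finite_irrCharacter
  haveI : Finite (IrrCharacter N) := Cfsg.Agent.Lib.Helper20.finite_irrCharacter
  have hex : ∀ a : {χ : Cfsg.IrrCharacter G // χ ∈ Cfsg.principalBlock M G ∧
      ¬ p ∣ Cfsg.charDegree (χ : G → ℂ) ∧ ∀ g : G, (χ : G → ℂ) (g ^ k) = (χ : G → ℂ) g},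
      ∃ θ : IrrCharacter N, ∀ n : N, ((a : IrrCharacter G) : G → ℂ) n = (θ : N → ℂ) n :=
    fun a => res_irr p N hidx a a.2.2.1
  choose r hr using hex
  have hcls : ∀ (χ : IrrCharacter G) (x z : G), (χ : G → ℂ) (x * z * x⁻¹) = (χ : G → ℂ) z :=
    fun χ x z => Cfsg.Agent.Lib.Helper20.isClassFunction_of_isCharacter
      (Cfsg.Agent.Lib.Helper20.isCharacter_of_isIrrCharacter χ.2) z x
  have hclsN : ∀ (θ : IrrCharacter N) (x z : N), (θ : N → ℂ) (x * z * x⁻¹) = (θ : N → ℂ) z :=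
    fun χ x z => Cfsg.Agent.Lib.Helper20.isClassFunction_of_isCharacter
      (Cfsg.Agent.Lib.Helper20.isCharacter_of_isIrrCharacter χ.2) z x
  have hmem : ∀ a, r a ∈ Cfsg.principalBlock M ↥N ∧
      ¬ p ∣ Cfsg.charDegree (r a : ↥N → ℂ) ∧
      (∀ x ∈ (P : Subgroup G), ∀ n : ↥N,
        (r a : ↥N → ℂ) ⟨x * n * x⁻¹, hN.conj_mem n n.2 x⟩ = (r a : ↥N → ℂ) n) ∧
      ∀ n : ↥N, (r a : ↥N → ℂ) (n ^ k) = (r a : ↥N → ℂ) n := by
    intro a
    refine ⟨res_mem_principal p M hM N a a.2.1 (r a) (hr a), ?_, ?_, ?_⟩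
    · rw [charDegree_eq_of_res N _ _ (hr a)]
      exact a.2.2.1
    · intro x _ n
      rw [← hr a, ← hr a]
      exact hcls a x n
    · intro n
      rw [← hr a, ← hr a, Subgroup.coe_pow]
      exact a.2.2.2 n
  apply card_eq_mul_of_fibers (fun a => Subtype.mk (r a) (hmem a))
  rintro ⟨θ, hθB, hθdeg, hθP, hθk⟩
  refine Eq.trans ?_ (fiber_card p N hNres hidx hcyc hnt k hk hkN θ hθdeg
    (inv_of_sup N (P : Subgroup G) hsup (θ : N → ℂ) (hclsN θ) hθP) hθk)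
  refine Nat.card_congr
    { toFun := fun a => ⟨a.1.1, ?_, a.1.2.2.2⟩
      invFun := fun χ => ⟨⟨χ.1, ext_mem_principal p M hM N hidx χ.1 θ hθB χ.2.1, ?_, χ.2.2⟩, ?_⟩
      left_inv := fun a => rfl
      right_inv := fun χ => rfl }
  · intro n
    have h1 := congrArg Subtype.val a.2
    simp only at h1
    rw [hr a.1 n, h1]
  · rw [← charDegree_eq_of_res N _ _ χ.2.1]
    exact hθdeg
  · apply Subtype.ext
    apply Subtype.ext
    funext n
    show (r _ : N → ℂ) n = (θ : N → ℂ) n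
    rw [← hr, χ.2.1]

end Cfsg.Agent.Lib.Helper20.GF
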