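import Cfsg.Agent.Lib.Helper20.CentralDefect
import Cfsg.Agent.Lib.Helper21.Quot
import Cfsg.Agent.Lib.Helper80.GAFusT
import Cfsg.Agent.Lib.Helper80.GACentric
import Cfsg.Agent.Lib.Helper80.GAFMT
import Cfsg.Agent.Lib.Helper80.GANilB
import Cfsg.Agent.Lib.Helper80.GASplitK
import Cfsg.Agent.Lib.Helper80.GATrans2

set_option autoImplicit false
set_option linter.unusedSectionVars false
set_option linter.style.haveILetI false

/-!
# Maximal Brauer pairs and canonical characters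
-/

namespace Cfsg.Agent.Lib.Helper20

open Cfsg Cfsg.Agent.Lib.Helper81 Cfsg.Agent.Lib.Helper19 Cfsg.Agent.Lib.Helper21
open Cfsg.Agent.Lib.Helper80 Cfsg.Agent.Lib.Helper80.GA
open scoped ComplexConjugate

variable {G : Type*} [Group G] [Fintype G] {p : ℕ} [Fact p.Prime] {M : Ideal AlgInt}

/-- converse translation of maximal pairs. -/
theorem isMaximalBrauerPair_of_isMaxBP (hM : IsPModular p M) {B : Set (IrrCharacter G)}
    (hB : IsPBlock M B) {P : Subgroup G} {e : Set (IrrCharacter (Cn P))}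
    (he : IsBrauerPair p M P e) (h : IsMaxBP p (blkR hM B) P (bl hM (Cn P) e)) :
    IsMaximalBrauerPair p M B P e := by
  refine ⟨(isBrauerPairOf_iff hM).2 ⟨he, hB, h.1⟩, fun R g hg hle => ?_⟩
  have h1 := (isBrauerPairOf_iff hM).1 hg
  exact h.2 R _ h1.2.2 ((subpairLE_iff hM h1.1 he).1 hle)

/-- a maximal pair is centric. -/
theorem IsMaxBP.isDef_Cn_self {k : Type*} [Field k] [CharP k p] {b f : GA k G} {Q : Subgroup G}
    (h : IsMaxBP p b Q f) : IsDef p (Cn Q) f (Q ⊓ Cn Q) := by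
  apply (h.centric_iff (Relation.ReflTransGen.refl : BPLE p (Q, f) (Q, f))).1
  intro x hx
  have h1 : cS x Q = Q := Subgroup.eq_of_le_of_card_ge hx.le (by rw [card_cS])
  rw [h1]
  exact inf_le_left

/-- criterion for maximality. -/
theorem isDef_stabP_of_centric {k : Type*} [Field k] [CharP k p] {f : GA k G} {Q : Subgroup G}
    (hf : IsBP p Q f) (hdef : IsDef p (Cn Q) f (Q ⊓ Cn Q))
    (hp' : ∀ g ∈ stabP Q f, (∃ k : ℕ, orderOf g = p ^ k) → g ∈ Q ⊔ Cn Q) :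
    IsDef p (stabP Q f) f Q := by
  have h1 := hf.isDef_sup_of_centric hdef
  obtain ⟨D0, hD0⟩ := hf.isBlk_stabP.exists_isDef (p := p)
  have hbrQ : br Q f ≠ 0 := by rw [br_eq_self hf.2.inZ.1]; exact hf.2.ne_zero
  obtain ⟨t, ht, hle⟩ := hD0.zd.le_conj_of_br_ne (le_stabP hf.2.inZ) hf.1 hbrQ
  have hD := hD0.conj (fixBy_stabP Q f) ht
  have hN : Q ⊔ Cn Q ≤ stabP Q f := sup_le (le_stabP hf.2.inZ) (Cn_le_stabP hf.2.inZ)
  have hblk : IsBlk (Q ⊔ Cn Q) f :=
    hf.isBlk_of_fix le_sup_left le_sup_right (hN.trans (stabP_le_Nn Q f))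
      ((fixBy_stabP Q f).mono hN)
  have hnorm : stabP Q f ≤ Nn (Q ⊔ Cn Q) := by
    intro t ht
    have h1 : cS t (Q ⊔ Cn Q) = Q ⊔ Cn Q := by
      have e1 : cS t Q = Q := cS_eq_self_of_mem_Nn ht.1
      have e2 : cS t (Cn Q) = Cn Q := cS_Cn_of_mem_Nn ht.1
      calc cS t (Q ⊔ Cn Q) = cS t Q ⊔ cS t (Cn Q) := Subgroup.map_sup _ _ _
        _ = Q ⊔ Cn Q := by rw [e1, e2]
    rw [Subgroup.mem_normalizer_iff]
    intro g
    constructor
    · intro hg
      rw [← h1, mem_cS]; simpa [mul_assoc] using hg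
    · intro hg
      rw [← h1, mem_cS] at hg; simpa [mul_assoc] using hg
  have h2 := hD.inf_normal hblk hN hnorm
  have h3 : cS t D0 ≤ Q ⊔ Cn Q := by
    intro g hg
    apply hp' g (hD.le hg)
    obtain ⟨n, hn⟩ := hD.pgroup ⟨g, hg⟩
    have h4 : g ^ p ^ n = 1 := by simpa using congrArg Subtype.val hn
    obtain ⟨j, -, hj⟩ := (Nat.dvd_prime_pow (Fact.out : p.Prime)).1 (orderOf_dvd_of_pow_eq_one h4)
    exact ⟨j, hj⟩
  rw [inf_eq_left.2 h3] at h2
  have h5 : Q = cS t D0 := Subgroup.eq_of_le_of_card_ge hle (h1.card_eq h2).le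
  rw [← h5] at hD
  exact hD

end Cfsg.Agent.Lib.Helper20
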