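import Cfsg.Agent.Lib.Helper20.PGDefs

set_option autoImplicit false
set_option linter.unusedSectionVars false
set_option linter.unusedVariables false
set_option linter.style.haveILetI false

namespace Cfsg.Agent.Lib.Helper20.PG

theorem exists_zpow_prime_order {G : Type*} [Group G] [Finite G] (s : ℕ) (hs : s.Prime)
    (H : Subgroup G) (hH : IsPGroup s H) (g : G) (hg : g ∈ H) (hg1 : g ≠ 1) :
    ∃ k : ℤ, orderOf (g ^ k) = s := by
  haveI : Fact s.Prime := ⟨hs⟩
  obtain ⟨a, ha⟩ := (IsPGroup.iff_orderOf.1 hH) ⟨g, hg⟩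
  rw [Subgroup.orderOf_mk] at ha
  have ha0 : a ≠ 0 := by
    rintro rfl
    rw [pow_zero, orderOf_eq_one_iff] at ha
    exact hg1 ha
  have hdvd : s ∣ Nat.card (Subgroup.zpowers g) := by
    rw [Nat.card_zpowers, ha]
    exact dvd_pow_self s ha0
  obtain ⟨x, hx⟩ := exists_prime_orderOf_dvd_card' (G := Subgroup.zpowers g) s hdvd
  obtain ⟨k, hk⟩ := Subgroup.mem_zpowers_iff.1 x.2
  refine ⟨k, ?_⟩
  rw [hk, Subgroup.orderOf_coe, hx]

theorem act_edge {G : Type*} [Group G] [Finite G] (S T : Subgroup G)
    (hST : S ≤ Subgroup.normalizer (T : Set G)) (s r : ℕ) (hs : s.Prime) (hr : r.Prime)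
    (hsr : s ≠ r) (hS : IsPGroup s S) (hT : IsPGroup r T)
    (h : ¬ Nat.card S ∣ Nat.card T - 1) : Adj G s r := by
  classical
  by_contra hno
  apply h
  have hfree : ∀ g ∈ S, ∀ t ∈ T, t ≠ 1 → g * t = t * g → g = 1 := by
    intro g hg t ht ht1 hc
    by_contra hg1
    apply hno
    obtain ⟨k, hk⟩ := exists_zpow_prime_order s hs S hS g hg hg1
    obtain ⟨l, hl⟩ := exists_zpow_prime_order r hr T hT t ht ht1
    have hc' : Commute g t := hc
    exact adj_of_commute hs hr hsr hk hl ((hc'.zpow_left k).zpow_right l)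
  let φ : S →* MulAut T := T.normalizerMonoidHom.comp (Subgroup.inclusion hST)
  letI : MulAction S T := MulAction.compHom T φ
  have hsmul : ∀ (g : S) (t : T), ((g • t : T) : G) = (g : G) * t * (g : G)⁻¹ := by
    intro g t
    rfl
  haveI := Fintype.ofFinite S
  haveI := Fintype.ofFinite T
  haveI : Fintype (Quotient (MulAction.orbitRel S T)) := Fintype.ofFinite _
  have hsum := MulAction.card_eq_sum_card_group_div_card_stabilizer S T
  set ω0 : Quotient (MulAction.orbitRel S T) := Quotient.mk _ (1 : T) with hω0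
  have hone : ∀ g : S, g • (1 : T) = 1 := by
    intro g
    apply Subtype.ext
    rw [hsmul]
    simp
  have hout0 : ω0.out = 1 := by
    have h1 : (MulAction.orbitRel S T).r ω0.out 1 := Quotient.exact (Quotient.out_eq ω0)
    rw [MulAction.orbitRel_apply] at h1
    obtain ⟨g, hg⟩ := h1
    rw [← hg]
    exact hone g
  have hout : ∀ ω : Quotient (MulAction.orbitRel S T), ω ≠ ω0 → ω.out ≠ 1 := by
    intro ω hω h1
    apply hω
    rw [← Quotient.out_eq ω, h1]
  have ht0 : Fintype.card S / Fintype.card (MulAction.stabilizer S ω0.out) = 1 := by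
    have : MulAction.stabilizer S ω0.out = ⊤ := by
      rw [hout0]
      ext g
      simp [MulAction.mem_stabilizer_iff, hone g]
    have h2 : Fintype.card (MulAction.stabilizer S ω0.out) = Fintype.card S := by
      rw [← Nat.card_eq_fintype_card, ← Nat.card_eq_fintype_card, this, Subgroup.card_top]
    rw [h2]
    exact Nat.div_self Fintype.card_pos
  have ht : ∀ ω : Quotient (MulAction.orbitRel S T), ω ≠ ω0 →
      Fintype.card S / Fintype.card (MulAction.stabilizer S ω.out) = Fintype.card S := by
    intro ω hω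
    have : MulAction.stabilizer S ω.out = ⊥ := by
      rw [eq_bot_iff]
      intro g hg
      rw [MulAction.mem_stabilizer_iff] at hg
      have h1 := congrArg Subtype.val hg
      rw [hsmul] at h1
      have h2 : (g : G) * (ω.out : G) = (ω.out : G) * (g : G) := by
        calc (g : G) * (ω.out : G) = ((g : G) * (ω.out : G) * (g : G)⁻¹) * g := by group
          _ = (ω.out : G) * (g : G) := by rw [h1]
      have h3 := hfree g g.2 ω.out ω.out.2 (fun h => hout ω hω (Subtype.ext h)) h2
      rw [Subgroup.mem_bot]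
      exact Subtype.ext h3
    have h2 : Fintype.card (MulAction.stabilizer S ω.out) = 1 := by
      rw [← Nat.card_eq_fintype_card, this, Subgroup.card_bot]
    rw [h2, Nat.div_one]
  rw [← Finset.add_sum_erase _ _ (Finset.mem_univ ω0), ht0,
    Finset.sum_congr rfl (fun ω hω => ht ω (Finset.ne_of_mem_erase hω)), Finset.sum_const,
    smul_eq_mul] at hsum
  rw [Nat.card_eq_fintype_card, Nat.card_eq_fintype_card, hsum, Nat.add_sub_cancel_left]
  exact Dvd.intro_left _ rfl

end Cfsg.Agent.Lib.Helper20.PG
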