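import Cfsg.Agent.Lib.Helper20.PGDefs
import Cfsg.Agent.Lib.Helper20.M11Bridge
import Cfsg.Agent.Lib.Helper20.M11G45
import Cfsg.Agent.Lib.Helper20.M11G69
import Cfsg.Agent.Lib.Helper20.M11G12

set_option autoImplicit false
set_option linter.unusedSectionVars false
set_option linter.unusedVariables false
set_option linter.style.haveILetI false

open Cfsg Cfsg.Agent.Lib.Helper20.M11 Cfsg.Agent.Lib.Helper80 Cfsg.Agent.Lib.Helper82

namespace Cfsg.Agent.Lib.Helper20.PG

theorem linear_trivial_of_simple {G : Type*} [Group G] [Finite G] [IsSimpleGroup G]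
    (hnab : ¬ ∀ a b : G, a * b = b * a) (χ : IrrCharacter G)
    (hχ' : charDegree (χ : G → ℂ) = 1) : χ = Cfsg.Agent.Lib.Helper80.trivIrr G := by
  have h1 : (χ : G → ℂ) 1 = 1 := by
    rw [isChar_one_eq (isIrr_isChar χ.2), hχ']; simp
  have hmul := isChar_linear_mul (isIrr_isChar χ.2) h1
  let K : Subgroup G :=
    { carrier := {g | (χ : G → ℂ) g = 1}
      one_mem' := h1
      mul_mem' := by
        intro a b ha hb
        show (χ : G → ℂ) (a * b) = 1
        rw [hmul, ha, hb, one_mul]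
      inv_mem' := by
        intro a ha
        show (χ : G → ℂ) a⁻¹ = 1
        have := hmul a a⁻¹
        rw [mul_inv_cancel, h1, ha, one_mul] at this
        exact this.symm }
  have hKn : K.Normal := by
    constructor
    intro n hn g
    show (χ : G → ℂ) (g * n * g⁻¹) = 1
    have h2 : (χ : G → ℂ) n = 1 := hn
    have h3 := hmul g g⁻¹
    rw [mul_inv_cancel, h1] at h3
    rw [hmul, hmul, h2, mul_one, ← h3]
  have hcomm : ∀ a b : G, a * b * a⁻¹ * b⁻¹ ∈ K := by
    intro a b
    show (χ : G → ℂ) (a * b * a⁻¹ * b⁻¹) = 1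
    have h3 := hmul a a⁻¹
    rw [mul_inv_cancel, h1] at h3
    have h4 := hmul b b⁻¹
    rw [mul_inv_cancel, h1] at h4
    rw [hmul, hmul, hmul]
    calc (χ : G → ℂ) a * (χ : G → ℂ) b * (χ : G → ℂ) a⁻¹ * (χ : G → ℂ) b⁻¹
        = ((χ : G → ℂ) a * (χ : G → ℂ) a⁻¹) * ((χ : G → ℂ) b * (χ : G → ℂ) b⁻¹) := by ring
      _ = 1 := by rw [← h3, ← h4, one_mul]
  rcases hKn.eq_bot_or_eq_top with h | h
  · exfalso
    apply hnab
    intro a b
    have := hcomm a b
    rw [h, Subgroup.mem_bot] at this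
    calc a * b = (a * b * a⁻¹ * b⁻¹) * (b * a) := by group
      _ = b * a := by rw [this, one_mul]
  · apply Subtype.ext
    funext g
    have : g ∈ K := by rw [h]; trivial
    exact this

theorem blk_num (x y : ℕ) (s ε : ℤ) (hx : x ∣ 7920) (hy : y ∣ 7920) (hx1 : x ≠ 1)
    (hs : s = 1 ∨ s = -1) (hε : ε = 1 ∨ ε = -1) (cx : (x : ℤ) ≡ s [ZMOD 11])
    (cy : (y : ℤ) ≡ ε * 2 [ZMOD 11]) (hrel : ε * (y : ℤ) = 1 + s * (x : ℤ)) :
    x = 10 ∧ s = -1 := by
  have hx0 : 0 < x := Nat.pos_of_dvd_of_pos hx (by norm_num)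
  have hy0 : 0 < y := Nat.pos_of_dvd_of_pos hy (by norm_num)
  unfold Int.ModEq at cx cy
  rcases hs with rfl | rfl
  · exfalso
    have hyx : y = x + 1 := by
      rcases hε with rfl | rfl <;> omega
    subst hyx
    have hcop : Nat.Coprime x (x + 1) := by simp
    have hmul := Nat.Coprime.mul_dvd_of_dvd_of_dvd hcop hx hy
    have hle := Nat.le_of_dvd (by norm_num) hmul
    have hx88 : x ≤ 88 := by nlinarith
    clear hmul hle hcop hrel cy hε
    interval_cases x <;> omega
  · have hyx : x = y + 1 := by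
      rcases hε with rfl | rfl <;> omega
    subst hyx
    have hcop : Nat.Coprime y (y + 1) := by simp
    have hmul := Nat.Coprime.mul_dvd_of_dvd_of_dvd hcop hy hx
    have hle := Nat.le_of_dvd (by norm_num) hmul
    have hx88 : y ≤ 88 := by nlinarith
    clear hmul hle hcop hrel cy hε
    refine ⟨?_, rfl⟩
    interval_cases y <;> omega

theorem blk {E : Type*} [Group E] [Finite E] [IsSimpleGroup E] (hE : Nat.card E ∣ 7920)
    (P : Sylow 11 E) (hP : Nat.card P = 11)
    (he : (Subgroup.centralizer ((P : Subgroup E) : Set E)).relIndex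
      (Subgroup.normalizer ((P : Subgroup E) : Set E)) = 2) :
    Nat.card (Subgroup.centralizer ((P : Subgroup E) : Set E)) = 11 := by
  classical
  haveI := Fintype.ofFinite E
  haveI : Finite (IrrCharacter E) := Cfsg.Agent.Lib.Helper20.finite_irrCharacter
  haveI := Fintype.ofFinite (IrrCharacter E)
  haveI : Fact (Nat.Prime 11) := ⟨by norm_num⟩
  have hnab : ¬ ∀ a b : E, a * b = b * a := by
    intro hab
    have h1 : Subgroup.normalizer ((P : Subgroup E) : Set E) ≤
        Subgroup.centralizer ((P : Subgroup E) : Set E) := by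
      intro g _
      rw [Subgroup.mem_centralizer_iff]
      intro h _
      exact hab h g
    rw [Subgroup.relIndex_eq_one.2 h1] at he
    omega
  obtain ⟨M, hM⟩ := Cfsg.Agent.Lib.Helper78.exists_isPModular (p := 11) (by norm_num)
  obtain ⟨X, Y, s, ε, hB, hs, hval⟩ := bridge 11 M hM (by norm_num) P hP 2 he
  have h0 : Cfsg.Agent.Lib.Helper80.trivIrr E ∈ X ∪ Y :=
    (hB _).1 (trivIrr_mem_principalBlock hM)
  have hd0 : charDegree ((Cfsg.Agent.Lib.Helper80.trivIrr E : IrrCharacter E) : E → ℂ) = 1 := by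
    simp [charDegree, Cfsg.Agent.Lib.Helper80.trivIrr]
  have h0X : Cfsg.Agent.Lib.Helper80.trivIrr E ∈ X := by
    rcases Finset.mem_union.1 h0 with h | h
    · exact h
    · exfalso
      have h1 := hs.congY _ h
      rw [hd0] at h1
      rcases hs.eps with h2 | h2 <;> rw [h2] at h1 <;> revert h1 <;> decide
  have hs0 : s (Cfsg.Agent.Lib.Helper80.trivIrr E) = 1 := by
    have h1 := hs.congX _ h0X
    rw [hd0] at h1
    rcases hs.sgn _ h0X with h2 | h2
    · exact h2
    · exfalso; rw [h2] at h1; revert h1; decide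
  obtain ⟨χ, hχX, hχne⟩ : ∃ χ ∈ X, χ ≠ Cfsg.Agent.Lib.Helper80.trivIrr E :=
    Finset.exists_mem_ne (by rw [hs.cardX]; norm_num) _
  have hXeq : X = {Cfsg.Agent.Lib.Helper80.trivIrr E, χ} := by
    symm
    apply Finset.eq_of_subset_of_card_le
    · intro a ha
      rcases Finset.mem_insert.1 ha with rfl | ha
      · exact h0X
      · rw [Finset.mem_singleton.1 ha]; exact hχX
    · rw [hs.cardX, Finset.card_pair hχne.symm]
  obtain ⟨θ, hθ⟩ : Y.Nonempty := Finset.card_pos.1 (by rw [hs.cardY]; norm_num)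
  have hrel := hs.rel θ hθ
  rw [hXeq, Finset.sum_pair hχne.symm, hs0, hd0] at hrel
  have hdv : ∀ ψ : IrrCharacter E, charDegree (ψ : E → ℂ) ∣ 7920 := fun ψ => (isIrr_charDegree_dvd_card ψ.2).trans hE
  obtain ⟨hχ10, hsχ⟩ := blk_num (charDegree (χ : E → ℂ)) (charDegree (θ : E → ℂ)) (s χ) ε (hdv χ) (hdv θ)
    (fun h => hχne (linear_trivial_of_simple hnab χ h)) (hs.sgn χ hχX) hs.eps (hs.congX χ hχX)
    (hs.congY θ hθ) (by rw [hrel]; norm_num)
  apply card_centralizer_of_regular 11 P hP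
  intro y hy hyp
  have h3 := value_of_deg_pred 11 (P : Subgroup E) hP (χ : E → ℂ) (isIrr_isChar χ.2) hχ10
    (fun x hx hx1 y hy hyp => by rw [hval χ hχX x hx hx1 y hy hyp, hsχ]; norm_num) y hy hyp
  apply eq_one_of_norm_eq χ (by omega) y
  rw [h3]; simp

end Cfsg.Agent.Lib.Helper20.PG
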