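import Cfsg.Agent.Lib.Helper20.PGDefs

set_option autoImplicit false
set_option linter.unusedSectionVars false
set_option linter.unusedVariables false
set_option linter.style.haveILetI false

namespace Cfsg.Agent.Lib.Helper20.PG

theorem burnside_simple {X : Type*} [Group X] [Finite X] [IsSimpleGroup X] (p : ℕ) [Fact p.Prime]
    (P : Sylow p X)
    (h : Subgroup.normalizer ((P : Subgroup X) : Set X) ≤
      Subgroup.centralizer ((P : Subgroup X) : Set X)) :
    Nat.card X = Nat.card P ∨ Nat.card P = 1 := by
  have hc := MonoidHom.ker_transferSylow_isComplement' P h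
  have hcard := hc.card_mul_card
  rcases (MonoidHom.normal_ker (MonoidHom.transferSylow P h)).eq_bot_or_eq_top with h1 | h1
  · left
    rw [h1] at hcard
    simpa using hcard.symm
  · right
    rw [h1] at hcard
    have h2 : Nat.card (⊤ : Subgroup X) = Nat.card X := Subgroup.card_top
    rw [h2] at hcard
    have h3 : 0 < Nat.card X := Nat.card_pos
    have h4 : Nat.card X * Nat.card (P : Subgroup X) = Nat.card X * 1 := by rw [hcard, mul_one]
    exact Nat.eq_of_mul_eq_mul_left h3 h4

theorem not_simple_990 {X : Type*} [Group X] [Finite X] [IsSimpleGroup X] : Nat.card X ≠ 990 := by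
  intro hX
  haveI : Fact (Nat.Prime 2) := ⟨by norm_num⟩
  obtain ⟨P⟩ : Nonempty (Sylow 2 X) := inferInstance
  have hP : Nat.card P = 2 := by
    rw [Sylow.card_eq_multiplicity, hX]
    have : (990 : ℕ).factorization 2 = 1 := by
      have h990 : (990 : ℕ) = 2 * 495 := by norm_num
      rw [h990, Nat.factorization_mul (by norm_num) (by norm_num), Finsupp.add_apply,
        Nat.Prime.factorization_self (by norm_num),
        Nat.factorization_eq_zero_of_not_dvd (by norm_num)]
    rw [this, pow_one]
  have h : Subgroup.normalizer ((P : Subgroup X) : Set X) ≤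
      Subgroup.centralizer ((P : Subgroup X) : Set X) := by
    intro g hg
    rw [Subgroup.mem_centralizer_iff]
    intro t ht
    -- t ∈ P, g t g⁻¹ ∈ P
    by_cases ht1 : t = 1
    · subst ht1; simp
    have hgt : g * t * g⁻¹ ∈ (P : Subgroup X) := (Subgroup.mem_normalizer_iff.1 hg t).1 ht
    have hgt1 : g * t * g⁻¹ ≠ 1 := by
      intro h1
      apply ht1
      have : t = g⁻¹ * (g * t * g⁻¹) * g := by group
      rw [this, h1]; group
    -- P has two elements
    have hcard2 : ∀ a b : (P : Subgroup X), a ≠ 1 → b ≠ 1 → a = b := by
      intro a b ha hb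
      by_contra hab
      have h3 : 3 ≤ Nat.card (P : Subgroup X) := by
        haveI := Fintype.ofFinite (P : Subgroup X)
        classical
        rw [Nat.card_eq_fintype_card]
        have : ({1, a, b} : Finset (P : Subgroup X)).card = 3 := by
          rw [Finset.card_insert_of_notMem, Finset.card_insert_of_notMem, Finset.card_singleton]
          · simpa using hab
          · simp only [Finset.mem_insert, Finset.mem_singleton, not_or]
            exact ⟨fun h => ha h.symm, fun h => hb h.symm⟩
        rw [← this]
        exact Finset.card_le_univ _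
      have : Nat.card (P : Subgroup X) = 2 := hP
      omega
    have := hcard2 ⟨g * t * g⁻¹, hgt⟩ ⟨t, ht⟩ (fun h => hgt1 (congrArg Subtype.val h))
      (fun h => ht1 (congrArg Subtype.val h))
    have h5 : g * t * g⁻¹ = t := congrArg Subtype.val this
    calc t * g = (g * t * g⁻¹) * g := by rw [h5]
      _ = g * t := by group
  rcases burnside_simple 2 P h with h1 | h1
  · rw [hX, hP] at h1; omega
  · rw [hP] at h1; omega

end Cfsg.Agent.Lib.Helper20.PG
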