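import Mathlib

/-!
# Prime graph of a group of order 7920 (definitions for the ladder "PG", S2490)
-/

set_option autoImplicit false

namespace Cfsg.Agent.Lib.Helper20.PG

/-- `p` and `q` are joined in the prime graph. -/
def Adj (G : Type*) [Group G] (p q : ℕ) : Prop := ∃ g : G, orderOf g = p * q

theorem Adj.symm {G : Type*} [Group G] {p q : ℕ} (h : Adj G p q) : Adj G q p := by
  obtain ⟨g, hg⟩ := h
  exact ⟨g, by rw [hg, mul_comm]⟩

theorem adj_of_commute {G : Type*} [Group G] {a b : G} {p q : ℕ} (hp : p.Prime) (hq : q.Prime)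
    (hpq : p ≠ q) (ha : orderOf a = p) (hb : orderOf b = q) (h : Commute a b) : Adj G p q := by
  refine ⟨a * b, ?_⟩
  rw [h.orderOf_mul_eq_mul_orderOf_of_coprime (by rw [ha, hb]; exact (Nat.coprime_primes hp hq).2 hpq),
    ha, hb]

/-- the prime graph on `{2, 3, 5, 11}` is connected: every predicate which is constant along the
edges is constant. -/
def Conn (G : Type*) [Group G] : Prop :=
  ∀ A : ℕ → Prop,
    (∀ p q : ℕ, (p = 2 ∨ p = 3 ∨ p = 5 ∨ p = 11) → (q = 2 ∨ q = 3 ∨ q = 5 ∨ q = 11) →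
      Adj G p q → (A p ↔ A q)) →
    (A 2 ↔ A 11) ∧ (A 3 ↔ A 11) ∧ (A 5 ↔ A 11)

theorem prime_dvd_7920 {a : ℕ} (ha : a.Prime) (h : a ∣ 7920) : a = 2 ∨ a = 3 ∨ a = 5 ∨ a = 11 := by
  have h1 : (7920 : ℕ) = 2 ^ 4 * (3 ^ 2 * (5 * 11)) := by norm_num
  rw [h1] at h
  rcases (Nat.Prime.dvd_mul ha).1 h with h | h
  · left; exact (Nat.prime_dvd_prime_iff_eq ha (by norm_num)).1 (ha.dvd_of_dvd_pow h)
  rcases (Nat.Prime.dvd_mul ha).1 h with h | h
  · right; left; exact (Nat.prime_dvd_prime_iff_eq ha (by norm_num)).1 (ha.dvd_of_dvd_pow h)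
  rcases (Nat.Prime.dvd_mul ha).1 h with h | h
  · right; right; left; exact (Nat.prime_dvd_prime_iff_eq ha (by norm_num)).1 h
  · right; right; right; exact (Nat.prime_dvd_prime_iff_eq ha (by norm_num)).1 h

/-- `|G| = n_p * e * |C(P)|`. -/
theorem card_eq_sylow_mul {G : Type*} [Group G] [Finite G] (p : ℕ) [hp : Fact p.Prime]
    (P : Sylow p G) :
    Nat.card G = Nat.card (Sylow p G) * (Subgroup.centralizer ((P : Subgroup G) : Set G)).relIndex
        (Subgroup.normalizer ((P : Subgroup G) : Set G)) *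
        Nat.card (Subgroup.centralizer ((P : Subgroup G) : Set G)) := by
  rw [Sylow.card_eq_index_normalizer P]
  have h1 := Subgroup.relIndex_mul_index
    (Subgroup.centralizer_le_normalizer ((P : Subgroup G) : Set G))
  have h2 : (Subgroup.normalizer (P : Set G)).index
      = (Subgroup.normalizer ((P : Subgroup G) : Set G)).index := rfl
  rw [h2, mul_comm (Subgroup.index _), h1, mul_comm, Subgroup.card_mul_index]

end Cfsg.Agent.Lib.Helper20.PG
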