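import Cfsg.Agent.Lib.Helper20.PGAct

set_option autoImplicit false
set_option linter.unusedSectionVars false
set_option linter.unusedVariables false
set_option linter.style.haveILetI false

namespace Cfsg.Agent.Lib.Helper20.PG

theorem frat_normalizer {G : Type*} [Group G] [Finite G] (L : Subgroup G) [L.Normal] (r s : ℕ)
    [Fact r.Prime] [Fact s.Prime] (hsL : ¬ s ∣ Nat.card L) (T : Sylow r L) :
    ∃ S : Subgroup G,
      S ≤ Subgroup.normalizer (((T : Subgroup L).map L.subtype : Subgroup G) : Set G) ∧
      Nat.card S = s ^ (Nat.card G).factorization s := by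
  set N := Subgroup.normalizer (((T : Subgroup L).map L.subtype : Subgroup G) : Set G) with hN
  have h1 : N ⊔ L = ⊤ := Sylow.normalizer_sup_eq_top T
  have h2 : L.relIndex N = L.index := by
    rw [← Subgroup.relIndex_sup_right, h1, Subgroup.relIndex_top_right]
  have h3 : L.index ∣ Nat.card N := by
    rw [← h2]; exact Subgroup.index_dvd_card (L.subgroupOf N)
  have h4 : s ^ (Nat.card G).factorization s ∣ Nat.card G := Nat.ordProj_dvd _ _
  have h5 : s ^ (Nat.card G).factorization s ∣ L.index := by
    rw [← Subgroup.card_mul_index L] at h4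
    have hs : s.Prime := Fact.out
    have hc : Nat.Coprime (s ^ (Nat.card L * L.index).factorization s) (Nat.card L) :=
      Nat.Coprime.pow_left _ ((Nat.Prime.coprime_iff_not_dvd hs).2 hsL)
    rw [← Subgroup.card_mul_index L]
    exact hc.dvd_of_dvd_mul_left h4
  obtain ⟨K, hK⟩ := Sylow.exists_subgroup_card_pow_prime (G := N) s (h5.trans h3)
  refine ⟨K.map N.subtype, Subgroup.map_subtype_le K, ?_⟩
  rw [Subgroup.card_map_of_injective N.subtype_injective, hK]

theorem fact7920 : (7920 : ℕ).factorization 2 = 4 ∧ (7920 : ℕ).factorization 3 = 2 ∧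
    (7920 : ℕ).factorization 5 = 1 ∧ (7920 : ℕ).factorization 11 = 1 := by
  refine ⟨?_, ?_, ?_, ?_⟩
  · have h : (7920 : ℕ) = 2 ^ 4 * 495 := by norm_num
    rw [h, Nat.factorization_mul (by norm_num) (by norm_num), Finsupp.add_apply,
      Nat.factorization_pow, Finsupp.smul_apply, Nat.Prime.factorization_self (by norm_num),
      Nat.factorization_eq_zero_of_not_dvd (by norm_num)]
    norm_num
  · have h : (7920 : ℕ) = 3 ^ 2 * 880 := by norm_num
    rw [h, Nat.factorization_mul (by norm_num) (by norm_num), Finsupp.add_apply,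
      Nat.factorization_pow, Finsupp.smul_apply, Nat.Prime.factorization_self (by norm_num),
      Nat.factorization_eq_zero_of_not_dvd (by norm_num)]
    norm_num
  · have h : (7920 : ℕ) = 5 * 1584 := by norm_num
    rw [h, Nat.factorization_mul (by norm_num) (by norm_num), Finsupp.add_apply,
      Nat.Prime.factorization_self (by norm_num),
      Nat.factorization_eq_zero_of_not_dvd (by norm_num)]
  · have h : (7920 : ℕ) = 11 * 720 := by norm_num
    rw [h, Nat.factorization_mul (by norm_num) (by norm_num), Finsupp.add_apply,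
      Nat.Prime.factorization_self (by norm_num),
      Nat.factorization_eq_zero_of_not_dvd (by norm_num)]

theorem frat {G : Type*} [Group G] [Finite G] (hG : Nat.card G = 7920) (L : Subgroup G) [L.Normal]
    (r s : ℕ) (hr : r = 2 ∨ r = 3 ∨ r = 5 ∨ r = 11) (hs : s = 2 ∨ s = 3 ∨ s = 5 ∨ s = 11)
    (hrL : r ∣ Nat.card L) (hsL : ¬ s ∣ Nat.card L)
    (hex : ¬ (s = 5 ∧ (r = 11 ∨ (r = 2 ∧ 16 ∣ Nat.card L)))) : Adj G s r := by
  have hrp : r.Prime := by rcases hr with rfl | rfl | rfl | rfl <;> norm_num
  have hsp : s.Prime := by rcases hs with rfl | rfl | rfl | rfl <;> norm_num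
  haveI : Fact r.Prime := ⟨hrp⟩
  haveI : Fact s.Prime := ⟨hsp⟩
  have hsr : s ≠ r := by rintro rfl; exact hsL hrL
  obtain ⟨T⟩ : Nonempty (Sylow r L) := inferInstance
  obtain ⟨S, hSN, hScard⟩ := frat_normalizer L r s hsL T
  have hT'card : Nat.card ((T : Subgroup L).map L.subtype : Subgroup G) =
      r ^ (Nat.card L).factorization r := by
    rw [Subgroup.card_map_of_injective L.subtype_injective, Sylow.card_eq_multiplicity]
  apply act_edge S _ hSN s r hsp hrp hsr (IsPGroup.of_card hScard) (IsPGroup.of_card hT'card)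
  rw [hScard, hT'card, hG]
  have hdvd : Nat.card L ∣ 7920 := by rw [← hG]; exact Subgroup.card_subgroup_dvd_card L
  have hL0 : Nat.card L ≠ 0 := Nat.card_pos.ne'
  have hj1 : 1 ≤ (Nat.card L).factorization r := hrp.factorization_pos_of_dvd hL0 hrL
  have hj2 : (Nat.card L).factorization r ≤ (7920 : ℕ).factorization r :=
    (Nat.factorization_le_iff_dvd hL0 (by norm_num)).2 hdvd r
  have hj3 : r ^ (Nat.card L).factorization r ∣ Nat.card L := Nat.ordProj_dvd _ _
  obtain ⟨f2, f3, f5, f11⟩ := fact7920
  generalize (Nat.card L).factorization r = j at *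
  rcases hr with rfl | rfl | rfl | rfl
  · rw [f2] at hj2
    rcases hs with rfl | rfl | rfl | rfl
    · exact absurd rfl hsr
    · rw [f3]; interval_cases j <;> norm_num
    · rw [f5]
      interval_cases j
      · norm_num
      · norm_num
      · norm_num
      · exfalso; exact hex ⟨rfl, Or.inr ⟨rfl, by simpa using hj3⟩⟩
    · rw [f11]; interval_cases j <;> norm_num
  · rw [f3] at hj2
    rcases hs with rfl | rfl | rfl | rfl
    · rw [f2]; interval_cases j <;> norm_num
    · exact absurd rfl hsr
    · rw [f5]; interval_cases j <;> norm_num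
    · rw [f11]; interval_cases j <;> norm_num
  · rw [f5] at hj2
    rcases hs with rfl | rfl | rfl | rfl
    · rw [f2]; interval_cases j <;> norm_num
    · rw [f3]; interval_cases j <;> norm_num
    · exact absurd rfl hsr
    · rw [f11]; interval_cases j <;> norm_num
  · rw [f11] at hj2
    rcases hs with rfl | rfl | rfl | rfl
    · rw [f2]; interval_cases j <;> norm_num
    · rw [f3]; interval_cases j <;> norm_num
    · exfalso; exact hex ⟨rfl, Or.inl rfl⟩
    · exact absurd rfl hsr

end Cfsg.Agent.Lib.Helper20.PG
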