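import Cfsg.Agent.Lib.Helper20.PGFrat
import Cfsg.Agent.Lib.Helper20.M11G3

set_option autoImplicit false
set_option linter.unusedSectionVars false
set_option linter.unusedVariables false
set_option linter.style.haveILetI false

namespace Cfsg.Agent.Lib.Helper20.PG

theorem perm12 {G : Type*} [Group G] [Finite G] (hG : Nat.card G = 7920)
    (h12 : Nat.card (Sylow 11 G) = 12) :
    ∃ L : Subgroup G, L.Normal ∧ L ≠ ⊥ ∧ ¬ 11 ∣ Nat.card L := by
  classical
  haveI : Fact (Nat.Prime 11) := ⟨by norm_num⟩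
  haveI : Fact (Nat.Prime 2) := ⟨by norm_num⟩
  obtain ⟨P⟩ : Nonempty (Sylow 11 G) := inferInstance
  have hall : ∀ Q : Sylow 11 G, Nat.card (Q : Subgroup G) = 11 := by
    intro Q
    rw [Sylow.card_eq_multiplicity, hG, fact7920.2.2.2, pow_one]
  have hP11 := hall P
  have hfix : ∀ (v : G) (Q : Sylow 11 G), orderOf v = 11 → v • Q = Q →
      (Q : Subgroup G) = Subgroup.zpowers v := by
    intro v Q hv hvQ
    have h1 : v ∈ Subgroup.normalizer ((Q : Subgroup G) : Set G) :=
      Sylow.smul_eq_iff_mem_normalizer.1 hvQ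
    have hpg : IsPGroup 11 (Subgroup.zpowers v) :=
      IsPGroup.of_card (n := 1) (by rw [Nat.card_zpowers, hv, pow_one])
    have h2 : Subgroup.zpowers v ≤ (Q : Subgroup G) := by
      have h3 := hpg.inf_normalizer_sylow Q
      have h4 : Subgroup.zpowers v ≤ Subgroup.normalizer ((Q : Subgroup G) : Set G) :=
        Subgroup.zpowers_le.2 h1
      have h5 : Subgroup.zpowers v ⊓ Subgroup.normalizer ((Q : Subgroup G) : Set G) =
          Subgroup.zpowers v := inf_eq_left.2 h4
      have h6 : Subgroup.zpowers v ⊓ (Q : Subgroup G) = Subgroup.zpowers v := by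
        rw [← h3]; exact h5
      exact inf_eq_left.1 h6
    symm
    apply Subgroup.eq_of_le_of_card_ge h2
    rw [hall Q, Nat.card_zpowers, hv]
  obtain ⟨z, hz⟩ := exists_prime_orderOf_dvd_card' (G := (P : Subgroup G)) 11 (by rw [hP11])
  obtain ⟨Z, hZmem⟩ := z
  have hZ : orderOf Z = 11 := by rw [← hz, Subgroup.orderOf_mk]
  have hZP : Z • P = P := Sylow.smul_eq_iff_mem_normalizer.2 (Subgroup.le_normalizer hZmem)
  have hPZ := hfix Z P hZ hZP
  have hZfix : ∀ Q : Sylow 11 G, Z • Q = Q → Q = P := fun Q h =>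
    Sylow.ext (by rw [hfix Z Q hZ h, hPZ])
  have hc := card_eq_sylow_mul 11 P
  rw [hG, h12] at hc
  have he := (Cfsg.Agent.Lib.Helper20.M11.sylow_arith 11 P hP11).1
  have h2c : 2 ∣ Nat.card (Subgroup.centralizer ((P : Subgroup G) : Set G)) := by
    generalize Nat.card (Subgroup.centralizer ((P : Subgroup G) : Set G)) = c at *
    generalize (Subgroup.centralizer ((P : Subgroup G) : Set G)).relIndex
      (Subgroup.normalizer ((P : Subgroup G) : Set G)) = e at *
    have he10 : e ≤ 10 := Nat.le_of_dvd (by norm_num) he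
    clear hfix hZfix hall
    interval_cases e <;> omega
  obtain ⟨w, hw⟩ := exists_prime_orderOf_dvd_card'
    (G := Subgroup.centralizer ((P : Subgroup G) : Set G)) 2 h2c
  obtain ⟨W, hWmem⟩ := w
  have hW : orderOf W = 2 := by rw [← hw, Subgroup.orderOf_mk]
  have hWZ : Commute W Z := (Subgroup.mem_centralizer_iff.1 hWmem Z hZmem).symm
  have hWP : W • P = P :=
    Sylow.smul_eq_iff_mem_normalizer.2 (Subgroup.centralizer_le_normalizer _ hWmem)
  obtain ⟨Q0, hQ0⟩ : ∃ Q0 : Sylow 11 G, Q0 ≠ P := by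
    by_contra h
    push Not at h
    haveI : Subsingleton (Sylow 11 G) := ⟨fun a b => by rw [h a, h b]⟩
    have := Finite.card_le_one_iff_subsingleton.2 this
    omega
  -- the orbit of Q0 under <Z>
  have horb : ∀ Q : Sylow 11 G, Q ≠ P → ∃ k : ℤ, Q = Z ^ k • Q0 := by
    have hst : MulAction.stabilizer (Subgroup.zpowers Z) Q0 = ⊥ := by
      have hcard : Nat.card (Subgroup.zpowers Z) = 11 := by rw [Nat.card_zpowers, hZ]
      haveI : Fact (Nat.card (Subgroup.zpowers Z)).Prime := ⟨by rw [hcard]; norm_num⟩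
      rcases Subgroup.eq_bot_or_eq_top_of_prime_card
        (MulAction.stabilizer (Subgroup.zpowers Z) Q0) with h | h
      · exact h
      · exfalso
        have h1 : (⟨Z, Subgroup.mem_zpowers Z⟩ : Subgroup.zpowers Z) ∈
            MulAction.stabilizer (Subgroup.zpowers Z) Q0 := by rw [h]; trivial
        exact hQ0 (hZfix Q0 (MulAction.mem_stabilizer_iff.1 h1))
    have hn : (MulAction.orbit (Subgroup.zpowers Z) Q0).ncard = 11 := by
      rw [← MulAction.index_stabilizer, hst, Subgroup.index_bot, Nat.card_zpowers, hZ]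
    have hsub : MulAction.orbit (Subgroup.zpowers Z) Q0 ⊆ ({P}ᶜ : Set (Sylow 11 G)) := by
      rintro Q ⟨h, rfl⟩ hQP
      obtain ⟨h, hh⟩ := h
      obtain ⟨k, rfl⟩ := Subgroup.mem_zpowers_iff.1 hh
      have h1 : Z ^ k • Q0 = P := hQP
      apply hQ0
      have h2 : Z ^ k • P = P := by
        apply Sylow.smul_eq_iff_mem_normalizer.2
        exact Subgroup.le_normalizer (Subgroup.zpow_mem _ hZmem k)
      have h3 : Z ^ k • Q0 = Z ^ k • P := by rw [h1, h2]
      exact smul_left_cancel _ h3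
    have hcompl : ({P}ᶜ : Set (Sylow 11 G)).ncard = 11 := by
      rw [Set.ncard_compl, Set.ncard_singleton, h12]
    have heq := Set.eq_of_subset_of_ncard_le hsub (by rw [hn, hcompl]) (Set.toFinite _)
    intro Q hQ
    have h1 : Q ∈ MulAction.orbit (Subgroup.zpowers Z) Q0 := by
      rw [heq]; exact hQ
    obtain ⟨⟨h, hh⟩, rfl⟩ := h1
    obtain ⟨k, rfl⟩ := Subgroup.mem_zpowers_iff.1 hh
    exact ⟨k, rfl⟩
  have hWQ0 : W • Q0 ≠ P := by
    intro h
    apply hQ0
    have : W • Q0 = W • P := by rw [h, hWP]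
    exact smul_left_cancel _ this
  obtain ⟨i, hi⟩ := horb _ hWQ0
  set u : G := Z ^ (-i) * W with hu
  have huZ : ∀ k : ℤ, u * Z ^ k = Z ^ k * u := by
    intro k
    have h1 : Commute u (Z ^ k) := by
      apply Commute.mul_left
      · exact ((Commute.refl Z).zpow_left (-i)).zpow_right k
      · exact hWZ.zpow_right k
    exact h1
  have huQ0 : u • Q0 = Q0 := by
    rw [hu, mul_smul, hi, ← mul_smul, ← zpow_add]
    simp
  have huP : u • P = P := by
    rw [hu, mul_smul, hWP]
    apply Sylow.smul_eq_iff_mem_normalizer.2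
    exact Subgroup.le_normalizer (Subgroup.zpow_mem _ hZmem _)
  have huall : ∀ Q : Sylow 11 G, u • Q = Q := by
    intro Q
    by_cases hQ : Q = P
    · rw [hQ]; exact huP
    · obtain ⟨k, rfl⟩ := horb Q hQ
      rw [← mul_smul, huZ k, mul_smul, huQ0]
  have hu11 : u ^ 11 = W := by
    have h1 : Commute (Z ^ (-i)) W := (hWZ.symm).zpow_left (-i)
    rw [hu, h1.mul_pow]
    have h2 : (Z ^ (-i)) ^ 11 = 1 := by
      rw [← zpow_natCast, ← zpow_mul, mul_comm, zpow_mul, zpow_natCast, ← hZ, pow_orderOf_eq_one,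
        one_zpow]
    have h3 : W ^ 11 = W := by
      have h4 : W ^ 2 = 1 := by rw [← hW]; exact pow_orderOf_eq_one W
      calc W ^ 11 = (W ^ 2) ^ 5 * W := by group
        _ = W := by rw [h4]; simp
    rw [h2, h3, one_mul]
  have hWall : ∀ Q : Sylow 11 G, W • Q = Q := by
    intro Q
    rw [← hu11]
    have : ∀ n : ℕ, u ^ n • Q = Q := by
      intro n
      induction n with
      | zero => simp
      | succ n ih => rw [pow_succ, mul_smul, huall, ih]
    exact this 11
  refine ⟨(MulAction.toPermHom G (Sylow 11 G)).ker, MonoidHom.normal_ker _, ?_, ?_⟩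
  · intro hbot
    have h1 : W ∈ (MulAction.toPermHom G (Sylow 11 G)).ker := by
      rw [MonoidHom.mem_ker]
      ext Q
      simp [hWall Q]
    rw [hbot, Subgroup.mem_bot] at h1
    rw [h1, orderOf_one] at hW
    omega
  · intro hdvd
    obtain ⟨v, hv⟩ := exists_prime_orderOf_dvd_card'
      (G := (MulAction.toPermHom G (Sylow 11 G)).ker) 11 hdvd
    obtain ⟨V, hVmem⟩ := v
    have hV : orderOf V = 11 := by rw [← hv, Subgroup.orderOf_mk]
    have hVall : ∀ Q : Sylow 11 G, V • Q = Q := by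
      intro Q
      rw [MonoidHom.mem_ker] at hVmem
      have := congrArg (fun f : Equiv.Perm (Sylow 11 G) => f Q) hVmem
      simpa using this
    apply hQ0
    exact Sylow.ext (by rw [hfix V Q0 hV (hVall Q0), hfix V P hV (hVall P)])

end Cfsg.Agent.Lib.Helper20.PG
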