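import Cfsg.Agent.Lib.Helper20.PGFrat
import Cfsg.Agent.Lib.Helper20.M11G3

set_option autoImplicit false
set_option linter.unusedSectionVars false
set_option linter.unusedVariables false
set_option linter.style.haveILetI false

namespace Cfsg.Agent.Lib.Helper20.PG

theorem adj_495 {H : Type*} [Group H] [Finite H] (hH : Nat.card H = 495) : Adj H 3 5 := by
  haveI : Fact (Nat.Prime 5) := ⟨by norm_num⟩
  haveI : Fact (Nat.Prime 3) := ⟨by norm_num⟩
  obtain ⟨P⟩ : Nonempty (Sylow 5 H) := inferInstance
  have hP : Nat.card P = 5 := by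
    rw [Sylow.card_eq_multiplicity, hH]
    have : (495 : ℕ).factorization 5 = 1 := by
      have h : (495 : ℕ) = 5 * 99 := by norm_num
      rw [h, Nat.factorization_mul (by norm_num) (by norm_num), Finsupp.add_apply,
        Nat.Prime.factorization_self (by norm_num),
        Nat.factorization_eq_zero_of_not_dvd (by norm_num)]
    rw [this, pow_one]
  have h1 := card_sylow_modEq_one 5 H
  have h2 := Sylow.card_dvd_index P
  have h3 := Subgroup.card_mul_index (P : Subgroup H)
  rw [show Nat.card (P : Subgroup H) = 5 from hP, hH] at h3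
  have h4 : (P : Subgroup H).index = 99 := by omega
  rw [h4] at h2
  have h5 := Sylow.card_eq_index_normalizer P
  have h6 := Subgroup.card_mul_index (Subgroup.normalizer ((P : Subgroup H) : Set H))
  have h7 : (Subgroup.normalizer (P : Set H)).index
      = (Subgroup.normalizer ((P : Subgroup H) : Set H)).index := rfl
  rw [h7] at h5
  rw [← h5, hH] at h6
  have h8 : 3 ∣ Nat.card (Subgroup.normalizer ((P : Subgroup H) : Set H)) := by
    generalize Nat.card (Subgroup.normalizer ((P : Subgroup H) : Set H)) = m at *
    generalize Nat.card (Sylow 5 H) = n at *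
    have hn5 : n % 5 = 1 := h1
    have hn99 : n ≤ 99 := Nat.le_of_dvd (by norm_num) h2
    clear h1 h3 h4 h5 h7
    have hn : n = 1 ∨ n = 11 := by
      interval_cases n <;> omega
    rcases hn with rfl | rfl <;> omega
  obtain ⟨y, hy⟩ := exists_prime_orderOf_dvd_card'
    (G := Subgroup.normalizer ((P : Subgroup H) : Set H)) 3 h8
  have hy' : orderOf (y : H) = 3 := by rw [Subgroup.orderOf_coe, hy]
  apply act_edge (Subgroup.zpowers (y : H)) (P : Subgroup H) _ 3 5 (by norm_num) (by norm_num)
    (by norm_num) (IsPGroup.of_card (n := 1) (by rw [Nat.card_zpowers, hy', pow_one])) P.2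
  · rw [Nat.card_zpowers, hy', show Nat.card (P : Subgroup H) = 5 from hP]
    norm_num
  · rw [Subgroup.zpowers_le]
    exact y.2

theorem star {G : Type*} [Group G] [Finite G] (hG : Nat.card G = 7920) (L : Subgroup G) [L.Normal]
    (hL : Nat.card L = 16) : Adj G 5 3 := by
  have hidx : L.index = 495 := by
    have := Subgroup.card_mul_index L
    rw [hL, hG] at this
    omega
  obtain ⟨H, hH⟩ := Subgroup.exists_right_complement'_of_coprime (N := L)
    (by rw [hL, hidx]; norm_num)
  have hc := hH.card_mul_card
  rw [hL, hG] at hc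
  have hH495 : Nat.card H = 495 := by omega
  obtain ⟨h, hh⟩ := adj_495 hH495
  exact Adj.symm ⟨(h : G), by rw [Subgroup.orderOf_coe, hh]⟩

theorem caseN1 {G : Type*} [Group G] [Finite G] (hG : Nat.card G = 7920) (P : Sylow 11 G)
    (hP : (P : Subgroup G).Normal) : Conn G := by
  haveI : Fact (Nat.Prime 11) := ⟨by norm_num⟩
  haveI : Fact (Nat.Prime 5) := ⟨by norm_num⟩
  haveI := hP
  have hP11 : Nat.card (P : Subgroup G) = 11 := by
    rw [Sylow.card_eq_multiplicity, hG, fact7920.2.2.2, pow_one]
  have e2 := frat hG (P : Subgroup G) 11 2 (by simp) (by simp) (by rw [hP11]) (by rw [hP11]; norm_num)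
    (by simp)
  have e3 := frat hG (P : Subgroup G) 11 3 (by simp) (by simp) (by rw [hP11]) (by rw [hP11]; norm_num)
    (by simp)
  have hidx := (Cfsg.Agent.Lib.Helper20.M11.sylow_arith 11 P hP11).1
  rw [Subgroup.normalizer_eq_top, Subgroup.relIndex_top_right] at hidx
  have hcm := Subgroup.card_mul_index (Subgroup.centralizer ((P : Subgroup G) : Set G))
  rw [hG] at hcm
  have e5 : Adj G 5 11 ∨ Adj G 5 3 := by
    by_cases h5 : 5 ∣ Nat.card (Subgroup.centralizer ((P : Subgroup G) : Set G))
    · left
      obtain ⟨x, hx⟩ := exists_prime_orderOf_dvd_card'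
        (G := Subgroup.centralizer ((P : Subgroup G) : Set G)) 5 h5
      obtain ⟨z, hz⟩ := exists_prime_orderOf_dvd_card' (G := (P : Subgroup G)) 11 (by rw [hP11])
      have hx' : orderOf (x : G) = 5 := by rw [Subgroup.orderOf_coe, hx]
      have hz' : orderOf (z : G) = 11 := by rw [Subgroup.orderOf_coe, hz]
      have hc : Commute (x : G) (z : G) := by
        have := Subgroup.mem_centralizer_iff.1 x.2 (z : G) z.2
        exact this.symm
      exact adj_of_commute (by norm_num) (by norm_num) (by norm_num) hx' hz' hc
    · right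
      apply frat hG (Subgroup.centralizer ((P : Subgroup G) : Set G)) 3 5 (by simp) (by simp) _ h5
        (by simp)
      generalize Nat.card (Subgroup.centralizer ((P : Subgroup G) : Set G)) = c at *
      generalize (Subgroup.centralizer ((P : Subgroup G) : Set G)).index = i at *
      have hi : i ≤ 10 := Nat.le_of_dvd (by norm_num) hidx
      clear h5 e2 e3
      interval_cases i <;> omega
  intro A hA
  have a2 := hA _ _ (by simp) (by simp) e2
  have a3 := hA _ _ (by simp) (by simp) e3
  rcases e5 with e5 | e5
  · have a5 := hA _ _ (by simp) (by simp) e5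
    tauto
  · have a5 := hA _ _ (by simp) (by simp) e5
    tauto

end Cfsg.Agent.Lib.Helper20.PG
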