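import Cfsg.Agent.Lib.Helper20.PGDefs
import Cfsg.Agent.Lib.Helper20.M11G3
import Cfsg.Agent.Lib.Helper20.PGBlk
import Cfsg.Agent.Lib.Helper20.PGBurn
import Cfsg.Agent.Lib.Helper20.PGStar
import Cfsg.Agent.Lib.Helper20.PGPerm
import Cfsg.Agent.Lib.Helper58.PGSYLE
import Cfsg.Agent.Lib.Helper58.PGESIMPLE

set_option autoImplicit false
set_option linter.unusedSectionVars false
set_option linter.unusedVariables false
set_option linter.style.haveILetI false

open Cfsg
open Cfsg.Agent.Lib.Helper58.PG

namespace Cfsg.Agent.Lib.Helper20.PG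

/- ================= ASSEMBLY (helper20) ================= -/

theorem caseA {G : Type*} [Group G] [Finite G] (hG : Nat.card G = 7920) (L : Subgroup G) [L.Normal]
    (hL : L ≠ ⊥) (h11 : ¬ 11 ∣ Nat.card L) : Conn G := by
  have hdvd : Nat.card L ∣ 7920 := by rw [← hG]; exact Subgroup.card_subgroup_dvd_card L
  have hne1 : Nat.card L ≠ 1 := by
    intro h
    exact hL (Subgroup.card_eq_one.1 h)
  have e11 : ∀ r : ℕ, (r = 2 ∨ r = 3 ∨ r = 5 ∨ r = 11) → r ∣ Nat.card L → Adj G 11 r :=
    fun r hr hrL => frat hG L r 11 hr (by simp) hrL h11 (by simp)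
  have hex : 2 ∣ Nat.card L ∨ 3 ∣ Nat.card L ∨ 5 ∣ Nat.card L := by
    obtain ⟨a, ha, haL⟩ := Nat.exists_prime_and_dvd hne1
    rcases prime_dvd_7920 ha (haL.trans hdvd) with rfl | rfl | rfl | rfl
    · exact Or.inl haL
    · exact Or.inr (Or.inl haL)
    · exact Or.inr (Or.inr haL)
    · exact absurd haL h11
  intro A hA
  by_cases h2 : 2 ∣ Nat.card L <;> by_cases h3 : 3 ∣ Nat.card L <;> by_cases h5 : 5 ∣ Nat.card L
  · have a1 := hA _ _ (by simp) (by simp) (e11 2 (by simp) h2)
    have a2 := hA _ _ (by simp) (by simp) (e11 3 (by simp) h3)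
    have a3 := hA _ _ (by simp) (by simp) (e11 5 (by simp) h5)
    tauto
  · have a1 := hA _ _ (by simp) (by simp) (e11 2 (by simp) h2)
    have a2 := hA _ _ (by simp) (by simp) (e11 3 (by simp) h3)
    have a3 := hA _ _ (by simp) (by simp) (frat hG L 3 5 (by simp) (by simp) h3 h5 (by simp))
    tauto
  · have a1 := hA _ _ (by simp) (by simp) (e11 2 (by simp) h2)
    have a2 := hA _ _ (by simp) (by simp) (e11 5 (by simp) h5)
    have a3 := hA _ _ (by simp) (by simp) (frat hG L 2 3 (by simp) (by simp) h2 h3 (by simp))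
    tauto
  · have a1 := hA _ _ (by simp) (by simp) (e11 2 (by simp) h2)
    have a3 := hA _ _ (by simp) (by simp) (frat hG L 2 3 (by simp) (by simp) h2 h3 (by simp))
    by_cases h16 : 16 ∣ Nat.card L
    · have hc : Nat.card L = 16 := by
        obtain ⟨k, hk⟩ := h16
        rw [hk] at hdvd h3 h5 h11
        have hk495 : k ∣ 495 := by
          have : 16 * k ∣ 16 * 495 := by norm_num; exact hdvd
          exact Nat.dvd_of_mul_dvd_mul_left (by norm_num) this
        have hk1 : k = 1 := by
          by_contra hk1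
          obtain ⟨a, ha, hak⟩ := Nat.exists_prime_and_dvd hk1
          have h7 : a ∣ 7920 := hak.trans (hk495.trans (by norm_num))
          rcases prime_dvd_7920 ha h7 with rfl | rfl | rfl | rfl
          · have := hak.trans hk495
            norm_num at this
          · exact h3 (Dvd.dvd.mul_left hak 16)
          · exact h5 (Dvd.dvd.mul_left hak 16)
          · exact h11 (Dvd.dvd.mul_left hak 16)
        rw [hk, hk1]
      have a4 := hA _ _ (by simp) (by simp) (star hG L hc)
      tauto
    · have a4 := hA _ _ (by simp) (by simp) (frat hG L 2 5 (by simp) (by simp) h2 h5 (by simp [h16]))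
      tauto
  · have a1 := hA _ _ (by simp) (by simp) (e11 3 (by simp) h3)
    have a2 := hA _ _ (by simp) (by simp) (e11 5 (by simp) h5)
    have a3 := hA _ _ (by simp) (by simp) (frat hG L 3 2 (by simp) (by simp) h3 h2 (by simp))
    tauto
  · have a1 := hA _ _ (by simp) (by simp) (e11 3 (by simp) h3)
    have a2 := hA _ _ (by simp) (by simp) (frat hG L 3 5 (by simp) (by simp) h3 h5 (by simp))
    have a3 := hA _ _ (by simp) (by simp) (frat hG L 3 2 (by simp) (by simp) h3 h2 (by simp))
    tauto
  · have a1 := hA _ _ (by simp) (by simp) (e11 5 (by simp) h5)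
    have a2 := hA _ _ (by simp) (by simp) (frat hG L 5 3 (by simp) (by simp) h5 h3 (by simp))
    have a3 := hA _ _ (by simp) (by simp) (frat hG L 5 2 (by simp) (by simp) h5 h2 (by simp))
    tauto
  · tauto

theorem card_sylow11 {G : Type*} [Group G] [Finite G] (hG : Nat.card G = 7920) (P : Sylow 11 G) :
    Nat.card P = 11 := by
  haveI : Fact (Nat.Prime 11) := ⟨by norm_num⟩
  rw [Sylow.card_eq_multiplicity, hG]
  have : (7920 : ℕ).factorization 11 = 1 := by
    have h7920 : (7920 : ℕ) = 11 * 720 := by norm_num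
    rw [h7920, Nat.factorization_mul (by norm_num) (by norm_num), Finsupp.add_apply,
      Nat.Prime.factorization_self (by norm_num),
      Nat.factorization_eq_zero_of_not_dvd (by norm_num)]
  rw [this, pow_one]

theorem nG_cases {G : Type*} [Group G] [Finite G] (hG : Nat.card G = 7920) :
    Nat.card (Sylow 11 G) = 1 ∨ Nat.card (Sylow 11 G) = 12 ∨ Nat.card (Sylow 11 G) = 45 ∨
      Nat.card (Sylow 11 G) = 144 := by
  haveI : Fact (Nat.Prime 11) := ⟨by norm_num⟩
  obtain ⟨P⟩ : Nonempty (Sylow 11 G) := inferInstance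
  have h1 := card_sylow_modEq_one 11 G
  have h2 := Sylow.card_dvd_index P
  have h3 := Subgroup.card_mul_index (P : Subgroup G)
  rw [show Nat.card (P : Subgroup G) = 11 from card_sylow11 hG P, hG] at h3
  have h4 : (P : Subgroup G).index = 720 := by omega
  rw [h4] at h2
  generalize Nat.card (Sylow 11 G) = n at *
  have h5 : n % 11 = 1 := h1
  have h6 : n ≤ 720 := Nat.le_of_dvd (by norm_num) h2
  obtain ⟨j, hj⟩ : ∃ j, n = 11 * j + 1 := ⟨n / 11, by omega⟩
  subst hj
  have hj65 : j ≤ 65 := by omega
  clear h1 h5 h6 h3 h4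
  interval_cases j <;> omega

theorem conn_of_not_simple {G : Type*} [Group G] [Finite G] (hG : Nat.card G = 7920)
    (hns : ¬ IsSimpleGroup G) : Conn G := by
  classical
  haveI : Fact (Nat.Prime 11) := ⟨by norm_num⟩
  by_cases hK : ∀ L : Subgroup G, L.Normal → ¬ 11 ∣ Nat.card L → L = ⊥
  swap
  · push Not at hK
    obtain ⟨L, hLn, h11, hL⟩ := hK
    haveI := hLn
    exact caseA hG L hL h11
  obtain ⟨P⟩ : Nonempty (Sylow 11 G) := inferInstance
  have hmain : ∀ n : ℕ, Nat.card (Sylow 11 G) = n → (n = 45 ∨ n = 144) → False := by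
    intro n hn hn2
    haveI := closure_simple hG hK P
    obtain ⟨hnE, hQ⟩ := sylow_closure hG P
    set E := Subgroup.normalClosure ((P : Subgroup G) : Set G) with hE
    obtain ⟨Q⟩ : Nonempty (Sylow 11 E) := inferInstance
    have hc := card_eq_sylow_mul 11 Q
    rw [hnE, hn] at hc
    have he := (Cfsg.Agent.Lib.Helper20.M11.sylow_arith 11 Q (hQ Q)).1
    have hEd : Nat.card E ∣ 7920 := by rw [← hG]; exact Subgroup.card_subgroup_dvd_card E
    have h11c : 11 ∣ Nat.card (Subgroup.centralizer ((Q : Subgroup E) : Set E)) := by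
      have h1 : (Q : Subgroup E) ≤ Subgroup.centralizer ((Q : Subgroup E) : Set E) := by
        rw [Subgroup.le_centralizer_iff_isMulCommutative]
        haveI : IsCyclic (Q : Subgroup E) := isCyclic_of_prime_card (hQ Q)
        exact ⟨⟨fun a b => IsCyclic.commGroup.mul_comm a b⟩⟩
      have h2 := Subgroup.card_dvd_of_le h1
      rwa [hQ Q] at h2
    have hb := fun h => burnside_simple 11 Q (Subgroup.relIndex_eq_one.1 h)
    have hblk := blk hEd Q (hQ Q)
    have h990 := not_simple_990 (X := E)
    have htop : Nat.card E = 7920 → False := by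
      intro h
      have h1 : E = ⊤ := Subgroup.eq_top_of_card_eq E (by rw [h, hG])
      apply hns
      have e1 : E ≃* G := (MulEquiv.subgroupCongr h1).trans Subgroup.topEquiv
      haveI : Nontrivial G := by
        rw [← Finite.one_lt_card_iff_nontrivial, hG]; norm_num
      exact IsSimpleGroup.isSimpleGroup_of_surjective e1.toMonoidHom e1.surjective
    rw [hQ Q] at hb
    generalize (Subgroup.centralizer ((Q : Subgroup E) : Set E)).relIndex
      (Subgroup.normalizer ((Q : Subgroup E) : Set E)) = e at *
    generalize Nat.card (Subgroup.centralizer ((Q : Subgroup E) : Set E)) = c at *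
    generalize Nat.card E = m at *
    obtain ⟨c', rfl⟩ := h11c
    have he10 : e ≤ 10 := Nat.le_of_dvd (by norm_num) he
    rcases hn2 with rfl | rfl
    · -- 45
      subst hc
      have h16 : e * c' ∣ 16 := by
        have : 495 * (e * c') ∣ 495 * 16 := by
          have h2 : 495 * (e * c') = 45 * e * (11 * c') := by ring
          rw [h2]; norm_num; exact hEd
        exact Nat.dvd_of_mul_dvd_mul_left (by norm_num) this
      have he16 : e ∣ 16 := (Dvd.intro _ rfl).trans h16
      have he12 : e = 1 ∨ e = 2 := by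
        clear * - he he16 he10
        interval_cases e <;> omega
      rcases he12 with rfl | rfl
      · rcases hb rfl with h | h
        · have : 0 < c' := by
            rcases Nat.eq_zero_or_pos c' with h0 | h0
            · subst h0; simp at h
            · exact h0
          nlinarith
        · omega
      · have := hblk rfl
        have hc1 : c' = 1 := by omega
        subst hc1
        exact h990 (by norm_num)
    · -- 144
      subst hc
      have h5 : e * c' ∣ 5 := by
        have : 1584 * (e * c') ∣ 1584 * 5 := by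
          have h2 : 1584 * (e * c') = 144 * e * (11 * c') := by ring
          rw [h2]; norm_num; exact hEd
        exact Nat.dvd_of_mul_dvd_mul_left (by norm_num) this
      have h5' : e * c' = 1 ∨ e * c' = 5 := (Nat.dvd_prime (by norm_num)).1 h5
      rcases h5' with h | h
      · have he1 : e = 1 := Nat.eq_one_of_mul_eq_one_right h
        subst he1
        rcases hb rfl with h' | h'
        · have hc1 : c' = 1 := by omega
          subst hc1
          omega
        · omega
      · apply htop
        have : 144 * e * (11 * c') = 1584 * (e * c') := by ring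
        rw [this, h]
  rcases nG_cases hG with h | h | h | h
  · haveI : Subsingleton (Sylow 11 G) := by
      rw [← Finite.card_le_one_iff_subsingleton, h]
    exact caseN1 hG P (Sylow.normal_of_subsingleton P)
  · obtain ⟨L, hLn, hL, h11⟩ := perm12 hG h
    exact absurd (hK L hLn h11) hL
  · exact (hmain 45 h (Or.inl rfl)).elim
  · exact (hmain 144 h (Or.inr rfl)).elim

theorem main {G : Type*} [Group G] [Finite G] (hord : Nat.card G = 7920)
    (hdisc : (∃ A : Set ℕ, (∃ a ∈ A, a.Prime ∧ a ∣ Nat.card G) ∧ (∃ b ∉ A, b.Prime ∧ b ∣ Nat.card G) ∧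
      ∀ a ∈ A, ∀ b ∉ A, a.Prime → b.Prime → a ∣ Nat.card G → b ∣ Nat.card G → ¬ ∃ g : G, orderOf g = a * b)) :
    IsSimpleGroup G := by
  by_contra hns
  have hc := conn_of_not_simple hord hns
  obtain ⟨A, ⟨a, haA, hap, had⟩, ⟨b, hbA, hbp, hbd⟩, hno⟩ := hdisc
  rw [hord] at had hbd hno
  have hpr : ∀ p : ℕ, (p = 2 ∨ p = 3 ∨ p = 5 ∨ p = 11) → p.Prime ∧ p ∣ 7920 := by
    rintro p (rfl | rfl | rfl | rfl) <;> norm_num
  have key := hc (fun n => n ∈ A) (by
    intro p q hp hq hadj
    constructor
    · intro hpA
      by_contra hqA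
      exact hno p hpA q hqA (hpr p hp).1 (hpr q hq).1 (hpr p hp).2 (hpr q hq).2 hadj
    · intro hqA
      by_contra hpA
      exact hno q hqA p hpA (hpr q hq).1 (hpr p hp).1 (hpr q hq).2 (hpr p hp).2 hadj.symm)
  rcases prime_dvd_7920 hap had with rfl | rfl | rfl | rfl <;>
    rcases prime_dvd_7920 hbp hbd with rfl | rfl | rfl | rfl <;> tauto

end Cfsg.Agent.Lib.Helper20.PG
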