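import Cfsg.Agent.Lib.Helper81.LocalRing

/-!
# Relative central characters (definitions)

`N` a subgroup of `G`.  `nsz N g` is the size of the `N`-conjugacy class of `g : G`,
`omN N χ g = |g^N| χ(g) / χ(1)` the relative central character and `cnt N x y z` the number of
pairs `(a, b)` in `x^N × y^N` with `a * b = z`.
-/

set_option autoImplicit false

namespace Cfsg.Agent.Lib.Helper20.RC

open Cfsg

/-- `z` lies in the `N`-class of `g`. -/
def NConj {G : Type*} [Group G] (N : Subgroup G) (g z : G) : Prop := ∃ n ∈ N, n * g * n⁻¹ = z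

/-- size of the `N`-class of `g`. -/
noncomputable def nsz {G : Type*} [Group G] (N : Subgroup G) (g : G) : ℕ :=
  Nat.card {z : G // NConj N g z}

/-- relative central character. -/
noncomputable def omN {G : Type*} [Group G] (N : Subgroup G) (χ : G → ℂ) (g : G) : ℂ :=
  (nsz N g : ℂ) * χ g / χ 1

/-- structure constants of `N`-class sums. -/
noncomputable def cnt {G : Type*} [Group G] (N : Subgroup G) (x y z : G) : ℕ :=
  Nat.card {ab : G × G // NConj N x ab.1 ∧ NConj N y ab.2 ∧ ab.1 * ab.2 = z}

end Cfsg.Agent.Lib.Helper20.RC
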