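import Cfsg.Agent.Lib.Helper20.RCDefs
import Cfsg.Agent.Lib.Helper98.RCNSZ
import Cfsg.Agent.Lib.Helper82.ClassSum
import Cfsg.Agent.Lib.Helper20.CharOrth
import Cfsg.Agent.Lib.Helper81.ClassAlg

set_option autoImplicit false
set_option linter.unusedSectionVars false
set_option linter.unusedVariables false
set_option linter.style.haveILetI false

open Cfsg Cfsg.Agent.Lib.Helper81 Cfsg.Agent.Lib.Helper98.RC
open scoped ComplexConjugate

namespace Cfsg.Agent.Lib.Helper20.RC

section schur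

variable {G : Type*} [Group G] [Fintype G] {V : Type*} [AddCommGroup V] [Module ℂ V]
  [FiniteDimensional ℂ V]

/-- relative Schur lemma: an endomorphism commuting with `ρ N` is a scalar when the restriction of
the character to `N` is irreducible. -/
theorem rel_schur (N : Subgroup G) (ρ : Representation ℂ G V)
    (h1 : IsIrrCharacter N (fun n : N => ρ.character n))
    (T : V →ₗ[ℂ] V) (hT : ∀ n : N, T ∘ₗ ρ n = ρ n ∘ₗ T) : ∃ c : ℂ, T = c • LinearMap.id := by
  classical
  let σ : Representation ℂ N V := MonoidHom.comp ρ N.subtype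
  have hσ : σ.character = fun n : N => ρ.character n := rfl
  haveI : Invertible (Nat.card N : ℂ) :=
    invertibleOfNonzero (by exact_mod_cast (Nat.card_pos (α := N)).ne')
  have h2 := Representation.card_inv_mul_sum_char_mul_char_eq_finrank σ σ
  have h3 : (Nat.card N : ℂ)⁻¹ * ∑ g : N, σ.character g * σ.character g⁻¹ = 1 := by
    have h0 := Cfsg.Agent.Lib.Helper20.classInner_irr_self h1
    unfold classInner at h0
    rw [← h0]
    congr 1
    apply Finset.sum_congr rfl
    intro n _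
    rw [hσ]
    simp only
    rw [← Cfsg.Agent.Lib.Helper20.isCharacter_inv
      (Cfsg.Agent.Lib.Helper20.isCharacter_of_isIrrCharacter h1) n]
  rw [h3] at h2
  have h4 : Module.finrank ℂ (Representation.IntertwiningMap σ σ) = 1 := by exact_mod_cast h2.symm
  have hV : (Representation.IntertwiningMap.id σ) ≠ 0 := by
    intro h0
    have h5 : (fun n : N => ρ.character n) 1 ≠ 0 :=
      Cfsg.Agent.Lib.Helper81.irr_one_ne_zero (G := N) h1
    apply h5
    show ρ.character ((1 : N) : G) = 0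
    rw [Subgroup.coe_one, Representation.char_one]
    have h6 : (LinearMap.id : V →ₗ[ℂ] V) = 0 :=
      congrArg Representation.IntertwiningMap.toLinearMap h0
    have h7 : Subsingleton V := ⟨fun a b => by
      have ha := LinearMap.congr_fun h6 a
      have hb := LinearMap.congr_fun h6 b
      simp only [LinearMap.id_coe, id_eq, LinearMap.zero_apply] at ha hb
      rw [ha, hb]⟩
    rw [Module.finrank_zero_of_subsingleton]
    simp
  obtain ⟨c, hc⟩ := (finrank_eq_one_iff_of_nonzero' _ hV).1 h4 ⟨T, hT⟩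
  refine ⟨c, ?_⟩
  have h8 := congrArg Representation.IntertwiningMap.toLinearMap hc
  exact h8.symm

theorem sum_conj_rep_rel (N : Subgroup G) [Fintype N] (ρ : Representation ℂ G V)
    (h1 : IsIrrCharacter N (fun n : N => ρ.character n)) (x : G) :
    ∑ a : N, ρ ((a : G) * x * (a : G)⁻¹) =
      ((Nat.card N : ℂ) * ρ.character x / ρ.character 1) • LinearMap.id := by
  classical
  have hcomm : ∀ g : N, (∑ a : N, ρ ((a : G) * x * (a : G)⁻¹)) ∘ₗ ρ g =
      ρ g ∘ₗ (∑ a : N, ρ ((a : G) * x * (a : G)⁻¹)) := by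
    intro g
    have e1 : (∑ a : N, ρ ((a : G) * x * (a : G)⁻¹)) * ρ g =
        ∑ a : N, ρ ((a : G) * x * (a : G)⁻¹ * g) := by
      rw [Finset.sum_mul]
      exact Finset.sum_congr rfl fun a _ => (map_mul ρ _ _).symm
    have e2 : ρ g * (∑ a : N, ρ ((a : G) * x * (a : G)⁻¹)) =
        ∑ a : N, ρ (g * ((a : G) * x * (a : G)⁻¹)) := by
      rw [Finset.mul_sum]
      exact Finset.sum_congr rfl fun a _ => (map_mul ρ _ _).symm
    show (∑ a : N, ρ ((a : G) * x * (a : G)⁻¹)) * ρ g = ρ g * (∑ a : N, ρ ((a : G) * x * (a : G)⁻¹))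
    rw [e1, e2]
    refine (Fintype.sum_equiv (Equiv.mulLeft g) _ _ ?_).symm
    intro a
    simp only [Equiv.coe_mulLeft, Subgroup.coe_mul]
    congr 1
    group
  obtain ⟨c, hc⟩ := rel_schur N ρ h1 _ hcomm
  have htr : LinearMap.trace ℂ V (∑ a : N, ρ ((a : G) * x * (a : G)⁻¹)) =
      (Nat.card N : ℂ) * ρ.character x := by
    rw [map_sum]
    have h0 : ∀ a : N, LinearMap.trace ℂ V (ρ ((a : G) * x * (a : G)⁻¹)) = ρ.character x :=
      fun a => ρ.char_conj x a
    simp only [h0, Finset.sum_const, Finset.card_univ, nsmul_eq_mul, Nat.card_eq_fintype_card]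
  have hne : ρ.character 1 ≠ 0 := Cfsg.Agent.Lib.Helper81.irr_one_ne_zero (G := N) h1
  rw [hc] at htr ⊢
  rw [map_smul, smul_eq_mul] at htr
  have e3 : LinearMap.trace ℂ V LinearMap.id = ρ.character 1 := by
    rw [Representation.char_one]; exact LinearMap.trace_id ℂ V
  rw [e3] at htr
  congr 1
  field_simp
  exact htr

theorem sum_char_conj_mul_rel (N : Subgroup G) [Fintype N] (ρ : Representation ℂ G V)
    (h1 : IsIrrCharacter N (fun n : N => ρ.character n)) (x y : G) :
    ∑ a : N, ρ.character ((a : G) * x * (a : G)⁻¹ * y) =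
      (Nat.card N : ℂ) * ρ.character x * ρ.character y / ρ.character 1 := by
  have e1 : ∑ a : N, ρ.character ((a : G) * x * (a : G)⁻¹ * y) =
      LinearMap.trace ℂ V ((∑ a : N, ρ ((a : G) * x * (a : G)⁻¹)) * ρ y) := by
    rw [Finset.sum_mul, map_sum]
    exact Finset.sum_congr rfl fun a _ => by rw [← map_mul]; rfl
  rw [e1, sum_conj_rep_rel N ρ h1]
  rw [smul_mul_assoc, map_smul, smul_eq_mul]
  have e2 : (LinearMap.id : V →ₗ[ℂ] V) * ρ y = ρ y := rfl
  rw [e2]
  show _ * ρ.character y = _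
  ring

end schur

theorem isIrr_sum_conj_mul_rel {G : Type*} [Group G] [Fintype G] (N : Subgroup G) [Fintype N] {χ : G → ℂ}
    (hχ : IsIrrCharacter G χ) (hres : IsIrrCharacter N (fun n : N => χ n)) (x y : G) :
    ∑ a : N, χ ((a : G) * x * (a : G)⁻¹ * y) = (Nat.card N : ℂ) * χ x * χ y / χ 1 := by
  obtain ⟨n, ρ, hρ, rfl⟩ := hχ
  exact sum_char_conj_mul_rel N ρ hres x y

theorem sum_comp_of_fibers {α β : Type*} [Fintype α] [Fintype β] (φ : α → β) (s : ℕ)
    (h : ∀ b, Nat.card {a // φ a = b} = s) (g : β → ℂ) :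
    ∑ a, g (φ a) = s * ∑ b, g b := by
  classical
  rw [← (Equiv.sigmaFiberEquiv φ).sum_comp, Fintype.sum_sigma, Finset.mul_sum]
  apply Finset.sum_congr rfl
  intro b _
  have h0 : ∀ a : {a // φ a = b}, g (φ ((Equiv.sigmaFiberEquiv φ) ⟨b, a⟩)) = g b := by
    intro a
    show g (φ a.1) = g b
    rw [a.2]
  rw [Finset.sum_congr rfl (fun a _ => h0 a), Finset.sum_const, Finset.card_univ,
    ← Nat.card_eq_fintype_card, h, nsmul_eq_mul]

theorem sum_conj_eq {G : Type*} [Group G] [Fintype G] (N : Subgroup G) [Fintype N] (x : G) (f : G → ℂ)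
    [Fintype {a : G // NConj N x a}] :
    (nsz N x : ℂ) * ∑ n : N, f ((n : G) * x * (n : G)⁻¹) =
      (Nat.card N : ℂ) * ∑ a : {a : G // NConj N x a}, f a := by
  classical
  let φ : N → {a : G // NConj N x a} := fun n => ⟨(n : G) * x * (n : G)⁻¹, n, n.2, rfl⟩
  set s := Nat.card {n : N // φ n = ⟨x, nconj_refl N x⟩} with hs
  have hfib : ∀ b, Nat.card {n : N // φ n = b} = s := by
    rintro ⟨b, m, hm, rfl⟩
    apply Nat.card_congr
    refine
      { toFun := fun n => ⟨⟨m, hm⟩⁻¹ * n.1, ?_⟩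
        invFun := fun n => ⟨⟨m, hm⟩ * n.1, ?_⟩
        left_inv := fun n => by simp
        right_inv := fun n => by simp }
    · have h1 := congrArg Subtype.val n.2
      apply Subtype.ext
      show ((⟨m, hm⟩⁻¹ * n.1 : N) : G) * x * ((⟨m, hm⟩⁻¹ * n.1 : N) : G)⁻¹ = x
      have h2 : ((n.1 : N) : G) * x * ((n.1 : N) : G)⁻¹ = m * x * m⁻¹ := h1
      simp only [Subgroup.coe_mul, Subgroup.coe_inv, mul_inv_rev, inv_inv]
      calc m⁻¹ * (n.1 : G) * x * ((n.1 : G)⁻¹ * m) = m⁻¹ * ((n.1 : G) * x * (n.1 : G)⁻¹) * m := by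
            group
        _ = x := by rw [h2]; group
    · have h1 := congrArg Subtype.val n.2
      apply Subtype.ext
      show ((⟨m, hm⟩ * n.1 : N) : G) * x * ((⟨m, hm⟩ * n.1 : N) : G)⁻¹ = m * x * m⁻¹
      have h2 : ((n.1 : N) : G) * x * ((n.1 : N) : G)⁻¹ = x := h1
      simp only [Subgroup.coe_mul, mul_inv_rev]
      calc m * (n.1 : G) * x * ((n.1 : G)⁻¹ * m⁻¹) = m * ((n.1 : G) * x * (n.1 : G)⁻¹) * m⁻¹ := by
            group
        _ = m * x * m⁻¹ := by rw [h2]
  have h1 := sum_comp_of_fibers φ s hfib (fun a => f a)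
  have h2 := sum_comp_of_fibers φ s hfib (fun _ => (1 : ℂ))
  simp only [Finset.sum_const, Finset.card_univ, nsmul_eq_mul, mul_one] at h2
  have h3 : (Nat.card N : ℂ) = s * nsz N x := by
    rw [Nat.card_eq_fintype_card, h2]
    unfold nsz
    rw [Nat.card_eq_fintype_card]
  have h4 : ∑ n : N, f ((n : G) * x * (n : G)⁻¹) = s * ∑ a : {a : G // NConj N x a}, f a := h1
  rw [h4, h3]
  ring

theorem sum_cnt_mul {G : Type*} [Group G] [Fintype G] (N : Subgroup G) (x y : G) (F : G → ℂ)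
    [Fintype {a : G // NConj N x a}] [Fintype {a : G // NConj N y a}] :
    ∑ z : G, (cnt N x y z : ℂ) * F z =
      ∑ a : {a : G // NConj N x a}, ∑ b : {a : G // NConj N y a}, F ((a : G) * (b : G)) := by
  classical
  have h1 : ∀ z : G, (cnt N x y z : ℂ) * F z =
      ∑ _s : {ab : G × G // NConj N x ab.1 ∧ NConj N y ab.2 ∧ ab.1 * ab.2 = z}, F z := by
    intro z
    rw [Finset.sum_const, Finset.card_univ, nsmul_eq_mul]
    unfold cnt
    rw [Nat.card_eq_fintype_card]
  simp_rw [h1]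
  rw [← Fintype.sum_sigma', ← Fintype.sum_prod_type']
  apply Fintype.sum_equiv
    { toFun := fun s => ((⟨s.2.1.1, s.2.2.1⟩ : {a : G // NConj N x a}),
        (⟨s.2.1.2, s.2.2.2.1⟩ : {a : G // NConj N y a}))
      invFun := fun ab => ⟨ab.1.1 * ab.2.1, ⟨(ab.1.1, ab.2.1), ab.1.2, ab.2.2, rfl⟩⟩
      left_inv := by
        rintro ⟨z, ⟨⟨a, b⟩, h1, h2, h3⟩⟩
        dsimp only at h3
        subst h3
        rfl
      right_inv := by
        rintro ⟨⟨a, ha⟩, ⟨b, hb⟩⟩
        rfl }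
  rintro ⟨z, ⟨⟨a, b⟩, h1, h2, h3⟩⟩
  dsimp only at h3
  subst h3
  rfl

/- PROD -/
theorem omN_mul {G : Type*} [Group G] [Fintype G] (N : Subgroup G) [N.Normal] (χ : G → ℂ)
    (hχ : IsIrrCharacter G χ) (hres : IsIrrCharacter N (fun n : N => χ n)) (x y : G) :
    omN N χ x * omN N χ y = ∑ z : G, (cnt N x y z : ℂ) * (χ z / χ 1) := by
  classical
  have hcl : ∀ g z : G, χ (g * z * g⁻¹) = χ z := fun g z =>
    Cfsg.Agent.Lib.Helper20.isClassFunction_of_isCharacter
      (Cfsg.Agent.Lib.Helper20.isCharacter_of_isIrrCharacter hχ) z g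
  have hne : χ 1 ≠ 0 := Cfsg.Agent.Lib.Helper81.irr_one_ne_zero hχ
  have hN0 : (Nat.card N : ℂ) ≠ 0 := by exact_mod_cast (Nat.card_pos (α := N)).ne'
  rw [sum_cnt_mul N x y (fun z => χ z / χ 1)]
  rw [Finset.sum_comm]
  have h1 : ∀ b : {a : G // NConj N y a},
      ∑ a : {a : G // NConj N x a}, χ ((a : G) * (b : G)) / χ 1 =
        (nsz N x : ℂ) * χ x * χ y / χ 1 / χ 1 := by
    rintro ⟨b, m, hm, rfl⟩
    have h2 := sum_conj_eq N x (fun a => χ (a * (m * y * m⁻¹)) / χ 1)
    show ∑ a : {a : G // NConj N x a}, χ ((a : G) * (m * y * m⁻¹)) / χ 1 = _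
    have h3 := isIrr_sum_conj_mul_rel N hχ hres x (m * y * m⁻¹)
    rw [hcl] at h3
    rw [← Finset.sum_div, h3] at h2
    have h4 : (Nat.card N : ℂ) * (∑ a : {a : G // NConj N x a}, χ ((a : G) * (m * y * m⁻¹)) / χ 1) =
        (Nat.card N : ℂ) * ((nsz N x : ℂ) * χ x * χ y / χ 1 / χ 1) := by
      rw [← h2]; ring
    exact mul_left_cancel₀ hN0 h4
  rw [Finset.sum_congr rfl (fun b _ => h1 b), Finset.sum_const, Finset.card_univ, nsmul_eq_mul]
  have h5 : (Fintype.card {a : G // NConj N y a} : ℂ) = nsz N y := by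
    unfold nsz
    rw [Nat.card_eq_fintype_card]
  rw [h5]
  unfold omN
  ring

end Cfsg.Agent.Lib.Helper20.RC
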