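import Cfsg.Agent.Lib.Helper20.RCDefs
import Cfsg.Agent.Lib.Helper77.GallRel
import Cfsg.Agent.Lib.Helper82.Linear
import Cfsg.Agent.Lib.Helper19.LinChar
import Cfsg.Agent.Lib.Helper21.Cover2
import Cfsg.Agent.Lib.Helper20.RCProd
import Cfsg.Agent.Lib.Helper98.RCNSZ
import Cfsg.Agent.Lib.Helper98.RCCNT
import Cfsg.Agent.Lib.Helper98.RCORB
import Cfsg.Agent.Lib.Helper98.RCB0N
import Cfsg.Agent.Lib.Helper98.RCFIN
import Cfsg.Agent.Lib.Helper98.RCINT
import Cfsg.Agent.Lib.Helper98.RCLIFT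

set_option autoImplicit false
set_option linter.unusedSectionVars false
set_option linter.unusedVariables false
set_option linter.style.haveILetI false

open Cfsg Cfsg.Agent.Lib.Helper81 Cfsg.Agent.Lib.Helper98.RC

namespace Cfsg.Agent.Lib.Helper20.RC

variable {p : ℕ} {M : Ideal AlgInt}

/- ================= KEY (helper20) ================= -/

section key

variable {G : Type*} [Group G] [Fintype G] (hM : IsPModular p M) (N : Subgroup G) [N.Normal]
  (ψ : G → ℂ) (hψ : IsIrrCharacter G ψ) (hres : IsIrrCharacter N (fun n : N => ψ n))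
  (hB : SameBlock M (fun _ : N => (1 : ℂ)) (fun n : N => ψ n))

include hψ in
theorem psi_cl (g z : G) : ψ (g * z * g⁻¹) = ψ z :=
  Cfsg.Agent.Lib.Helper20.isClassFunction_of_isCharacter
    (Cfsg.Agent.Lib.Helper20.isCharacter_of_isIrrCharacter hψ) z g

include hM hψ hres in
theorem omN_loc (g : G) : MemLocalRing M (omN N ψ g) :=
  memLocalRing_of_isIntegral hM (omN_isIntegral N ψ hψ hres g)

/-- general comparison: if `omN z ≡ nsz z * m` for all `z` in the coset `x y N`, then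
`omN x * omN y ≡ nsz x * nsz y * m`. -/
theorem r0 (hM : IsPModular p M) (hψ : IsIrrCharacter G ψ)
    (hres : IsIrrCharacter N (fun n : N => ψ n)) (x y : G) (m : ℂ)
    (h : ∀ z : G, (x * y)⁻¹ * z ∈ N → MemLocalIdeal M (omN N ψ z - (nsz N z : ℂ) * m)) :
    MemLocalIdeal M (omN N ψ x * omN N ψ y - (nsz N x : ℂ) * nsz N y * m) := by
  have h1 := omN_mul N ψ hψ hres x y
  have h2 : ((nsz N x : ℂ) * nsz N y) = ∑ z : G, (cnt N x y z : ℂ) := by
    rw [← Nat.cast_mul, ← sum_cnt N x y]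
    push_cast
    rfl
  rw [h1, h2, Finset.sum_mul, ← Finset.sum_sub_distrib]
  have h3 : ∀ z, (cnt N x y z : ℂ) * (ψ z / ψ 1) - (cnt N x y z : ℂ) * m
      = (cnt N x y z : ℂ) * (ψ z / ψ 1 - m) := by
    intro z; ring
  simp_rw [h3]
  apply orb_sum hM N (cnt N x y) (fun z => ψ z / ψ 1 - m)
  · intro n hn z
    exact cnt_conj N x y z hn
  · intro n hn z
    simp only [psi_cl ψ hψ n z]
  · intro z hz
    have := h z (mem_of_cnt_ne_zero N x y z hz)
    have e : (nsz N z : ℂ) * (ψ z / ψ 1 - m) = omN N ψ z - (nsz N z : ℂ) * m := by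
      unfold omN; ring
    rw [e]
    exact this

include hM hψ hres hB in
theorem r4 (x y : G) (hxy : x * y ∈ N) :
    MemLocalIdeal M (omN N ψ x * omN N ψ y - (nsz N x : ℂ) * nsz N y) := by
  have := r0 N ψ hM hψ hres x y 1 (by
    intro z hz
    have hzN : z ∈ N := by
      have := N.mul_mem hxy hz
      rwa [mul_inv_cancel_left] at this
    simpa using omN_sub_nsz_of_mem N ψ hB z hzN)
  simpa using this

/-- `c` is good: the `N`-classes of `c` and `c⁻¹` have size prime to `p`. -/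
def Good (p : ℕ) (N : Subgroup G) (c : G) : Prop := ¬ p ∣ nsz N c ∧ ¬ p ∣ nsz N c⁻¹

include hM in
theorem nsz_unit {c : G} (h : ¬ p ∣ nsz N c) : ¬ MemLocalIdeal M (nsz N c : ℂ) := by
  rw [memLocalIdeal_natCast_iff hM]
  exact h

include hM hψ hres hB in
theorem omN_unit {c : G} (hc : Good p N c) : ¬ MemLocalIdeal M (omN N ψ c⁻¹) := by
  intro hcon
  have h1 := r4 hM N ψ hψ hres hB c c⁻¹ (by simp)
  have h2 : MemLocalIdeal M (omN N ψ c * omN N ψ c⁻¹) :=
    memLocalIdeal_mul_left hM (omN_loc hM N ψ hψ hres c) hcon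
  have h3 := memLocalIdeal_sub hM h2 h1
  rw [sub_sub_cancel] at h3
  exact not_memLocalIdeal_mul hM (memLocalRing_natCast hM _) (memLocalRing_natCast hM _)
    (nsz_unit hM N hc.1) (nsz_unit hM N hc.2) h3

include hM hψ hres hB in
theorem r5 {c : G} (hc : Good p N c) (x : G) (hx : c⁻¹ * x ∈ N) :
    MemLocalIdeal M (omN N ψ x - (nsz N x : ℂ) * (omN N ψ c / nsz N c)) := by
  have hxc : x * c⁻¹ ∈ N := by
    have h := (inferInstance : N.Normal).conj_mem _ hx c
    simpa [mul_assoc] using h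
  have h1 := r4 hM N ψ hψ hres hB x c⁻¹ hxc
  have h2 := r4 hM N ψ hψ hres hB c c⁻¹ (by simp)
  have hu := nsz_unit hM N hc.1
  have hne : (nsz N c : ℂ) ≠ 0 := ne_zero_of_not_memLocalIdeal hM hu
  -- (omN x * nsz c - nsz x * omN c) * omN c⁻¹ ∈ I
  have h3 : MemLocalIdeal M ((omN N ψ x * nsz N c - (nsz N x : ℂ) * omN N ψ c) * omN N ψ c⁻¹) := by
    have a1 := memLocalIdeal_mul_left hM (memLocalRing_natCast hM (nsz N c)) h1
    have a2 := memLocalIdeal_mul_left hM (memLocalRing_natCast hM (nsz N x)) h2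
    have a3 := memLocalIdeal_sub hM a1 a2
    have e : (nsz N c : ℂ) * (omN N ψ x * omN N ψ c⁻¹ - (nsz N x : ℂ) * nsz N c⁻¹) -
        (nsz N x : ℂ) * (omN N ψ c * omN N ψ c⁻¹ - (nsz N c : ℂ) * nsz N c⁻¹) =
        (omN N ψ x * nsz N c - (nsz N x : ℂ) * omN N ψ c) * omN N ψ c⁻¹ := by ring
    rw [e] at a3
    exact a3
  have hl : MemLocalRing M (omN N ψ x * nsz N c - (nsz N x : ℂ) * omN N ψ c) :=
    memLocalRing_sub hM (memLocalRing_mul hM (omN_loc hM N ψ hψ hres x) (memLocalRing_natCast hM _))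
      (memLocalRing_mul hM (memLocalRing_natCast hM _) (omN_loc hM N ψ hψ hres c))
  have h4 := ((memLocalIdeal_mul_iff hM hl (omN_loc hM N ψ hψ hres c⁻¹)).1 h3).resolve_right
    (omN_unit hM N ψ hψ hres hB hc)
  have h5 := memLocalIdeal_div hM h4 (memLocalRing_natCast hM (nsz N c)) hu
  have e : (omN N ψ x * nsz N c - (nsz N x : ℂ) * omN N ψ c) / nsz N c =
      omN N ψ x - (nsz N x : ℂ) * (omN N ψ c / nsz N c) := by
    field_simp
  rw [e] at h5
  exact h5

include hM hψ hres hB in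
theorem r6 {c d e : G} (hc : Good p N c) (hd : Good p N d) (he : Good p N e)
    (hcde : e⁻¹ * (c * d) ∈ N) :
    MemLocalIdeal M (omN N ψ c / nsz N c * (omN N ψ d / nsz N d) - omN N ψ e / nsz N e) := by
  have h1 := r0 N ψ hM hψ hres c d (omN N ψ e / nsz N e) (by
    intro z hz
    apply r5 hM N ψ hψ hres hB he z
    have := N.mul_mem hcde hz
    simpa [mul_assoc] using this)
  have huc := nsz_unit hM N hc.1
  have hud := nsz_unit hM N hd.1
  have hnc : (nsz N c : ℂ) ≠ 0 := ne_zero_of_not_memLocalIdeal hM huc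
  have hnd : (nsz N d : ℂ) ≠ 0 := ne_zero_of_not_memLocalIdeal hM hud
  have h2 := memLocalIdeal_div hM (memLocalIdeal_div hM h1 (memLocalRing_natCast hM (nsz N c)) huc)
    (memLocalRing_natCast hM (nsz N d)) hud
  have e1 : (omN N ψ c * omN N ψ d - (nsz N c : ℂ) * nsz N d * (omN N ψ e / nsz N e)) / nsz N c /
      nsz N d = omN N ψ c / nsz N c * (omN N ψ d / nsz N d) - omN N ψ e / nsz N e := by
    field_simp
  rw [e1] at h2
  exact h2

end key

theorem main {G : Type*} [Group G] [Finite G] (p : ℕ) [Fact p.Prime] (M : Ideal Cfsg.AlgInt)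
    (hM : Cfsg.IsPModular p M) (N : Subgroup G) [hNn : N.Normal] (P : Sylow p ↥N)
    (hcov : N ⊔ Subgroup.centralizer (((P : Subgroup ↥N).map N.subtype : Subgroup G) : Set G) = ⊤)
    (θ : Cfsg.IrrCharacter ↥N) (hθ : θ ∈ Cfsg.principalBlock M ↥N)
    (hext : ∃ ψ : Cfsg.IrrCharacter G, ∀ x : ↥N, (ψ : G → ℂ) x = (θ : ↥N → ℂ) x) :
    ∃ χ : Cfsg.IrrCharacter G, χ ∈ Cfsg.principalBlock M G ∧
      (∀ x : ↥N, (χ : G → ℂ) x = (θ : ↥N → ℂ) x) ∧
      ∀ J : Subgroup G, N ≤ J → ∃ ξ : Cfsg.IrrCharacter ↥J, ξ ∈ Cfsg.principalBlock M ↥J ∧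
        ∀ y : ↥J, (ξ : ↥J → ℂ) y = (χ : G → ℂ) y := by
  classical
  haveI := Fintype.ofFinite G
  obtain ⟨ψ', hψ'⟩ := hext
  set ψ : G → ℂ := (ψ' : G → ℂ) with hψdef
  have hψ : IsIrrCharacter G ψ := ψ'.2
  have hresEq : (fun n : N => ψ n) = (θ : N → ℂ) := funext hψ'
  have hres : IsIrrCharacter N (fun n : N => ψ n) := by rw [hresEq]; exact θ.2
  have hB : SameBlock M (fun _ : N => (1 : ℂ)) (fun n : N => ψ n) := by rw [hresEq]; exact hθ
  -- good representatives
  have hrep : ∀ q : G ⧸ N, ∃ c : G, (c : G ⧸ N) = q ∧ Good p N c := by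
    intro q
    obtain ⟨g, rfl⟩ := QuotientGroup.mk_surjective q
    have hg : g ∈ ((N ⊔ Subgroup.centralizer
        (((P : Subgroup ↥N).map N.subtype : Subgroup G) : Set G) : Subgroup G) : Set G) := by
      rw [hcov]; trivial
    rw [Subgroup.normal_mul] at hg
    obtain ⟨n, hn, c, hc, rfl⟩ := Set.mem_mul.1 hg
    refine ⟨c, ?_, not_dvd_nsz p N P c hc, not_dvd_nsz p N P c⁻¹ (inv_mem hc)⟩
    rw [QuotientGroup.eq]
    have h1 := hNn.conj_mem n hn c⁻¹
    simpa [mul_assoc] using h1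
  choose c hc1 hc2 using hrep
  set μ : G ⧸ N → ℂ := fun q => omN N ψ (c q) / nsz N (c q) with hμdef
  have hμ : ∀ q, MemLocalRing M (μ q) := fun q =>
    memLocalRing_div hM (omN_loc hM N ψ hψ hres _) (memLocalRing_natCast hM _)
      (nsz_unit hM N (hc2 q).1)
  have hmul : ∀ a b, MemLocalIdeal M (μ a * μ b - μ (a * b)) := by
    intro a b
    apply r6 hM N ψ hψ hres hB (hc2 a) (hc2 b) (hc2 (a * b))
    rw [← QuotientGroup.eq, hc1, QuotientGroup.mk_mul, hc1, hc1]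
  have hone : MemLocalIdeal M (μ 1 - 1) := by
    have h1 : c 1 ∈ N := by
      rw [← QuotientGroup.eq_one_iff, hc1]
    have h2 := omN_sub_nsz_of_mem N ψ hB (c 1) h1
    have hu := nsz_unit hM N (hc2 1).1
    have hne : (nsz N (c 1) : ℂ) ≠ 0 := ne_zero_of_not_memLocalIdeal hM hu
    have h3 := memLocalIdeal_div hM h2 (memLocalRing_natCast hM _) hu
    have e : (omN N ψ (c 1) - (nsz N (c 1) : ℂ)) / nsz N (c 1) = μ 1 - 1 := by
      rw [hμdef]; field_simp
    rw [e] at h3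
    exact h3
  obtain ⟨l, hl⟩ := lift_hom hM μ hμ hmul hone
  set L : G →* ℂˣ := l.comp (QuotientGroup.mk' N) with hLdef
  have hLN : ∀ n ∈ N, L n = 1 := by
    intro n hn
    rw [hLdef, MonoidHom.comp_apply, QuotientGroup.mk'_apply, (QuotientGroup.eq_one_iff n).2 hn,
      map_one]
  have hLloc : ∀ g : G, MemLocalRing M ((L g : ℂˣ) : ℂ) := by
    intro g
    apply memLocalRing_of_isIntegral hM
    have h1 : ((L g : ℂˣ) : ℂ) ^ Nat.card G = 1 := by
      rw [← Units.val_pow_eq_pow_val, ← map_pow, pow_card_eq_one', map_one, Units.val_one]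
    exact IsIntegral.of_pow Nat.card_pos (h1 ▸ isIntegral_one)
  set χf : G → ℂ := Cfsg.Agent.Lib.Helper19.homFun L * ψ with hχfdef
  have hχf : IsIrrCharacter G χf :=
    Cfsg.Agent.Lib.Helper82.isIrr_linear_mul (Cfsg.Agent.Lib.Helper19.isCharacter_homFun L).1
      (Cfsg.Agent.Lib.Helper19.isCharacter_homFun L).2 hψ
  have hχfapp : ∀ g, χf g = ((L g : ℂˣ) : ℂ) * ψ g := fun g => rfl
  have hχfN : ∀ n : N, χf n = (θ : N → ℂ) n := by
    intro n
    rw [hχfapp, hLN n n.2, Units.val_one, one_mul, hψ']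
  have hom : ∀ z : G, MemLocalIdeal M (omN N χf z - nsz N z) := by
    intro z
    have h1 := r5 hM N ψ hψ hres hB (hc2 (z : G ⧸ N)) z (by rw [← QuotientGroup.eq, hc1])
    have h2 := hl (z : G ⧸ N)
    have e : omN N χf z - nsz N z = ((L z : ℂˣ) : ℂ) *
        (omN N ψ z - (nsz N z : ℂ) * (omN N ψ (c (z : G ⧸ N)) / nsz N (c (z : G ⧸ N)))) +
        (nsz N z : ℂ) * (((l (z : G ⧸ N) : ℂˣ) : ℂ) * μ (z : G ⧸ N) - 1) := by
      have e1 : omN N χf z = ((L z : ℂˣ) : ℂ) * omN N ψ z := by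
        unfold omN
        rw [hχfapp, hχfapp, map_one, Units.val_one, one_mul]
        ring
      have e2 : ((L z : ℂˣ) : ℂ) = ((l (z : G ⧸ N) : ℂˣ) : ℂ) := rfl
      rw [e1, e2, hμdef]
      ring
    rw [e]
    exact memLocalIdeal_add hM (memLocalIdeal_mul_left hM (hLloc z) h1)
      (memLocalIdeal_mul_left hM (memLocalRing_natCast hM _) h2)
  have hcl : ∀ g z : G, χf (g * z * g⁻¹) = χf z := psi_cl χf hχf
  have hJ : ∀ J : Subgroup G, N ≤ J → ∃ ξ : Cfsg.IrrCharacter ↥J, ξ ∈ Cfsg.principalBlock M ↥J ∧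
      ∀ y : ↥J, (ξ : ↥J → ℂ) y = χf y := by
    intro J hNJ
    have hirr : IsIrrCharacter J (fun j : J => χf j) := by
      apply Cfsg.Agent.Lib.Helper77.isIrr_of_comp_irr (Subgroup.inclusion hNJ)
        (Cfsg.Agent.Lib.Helper20.isCharacter_comp_hom
          (Cfsg.Agent.Lib.Helper20.isCharacter_of_isIrrCharacter hχf) J.subtype)
      have : (χf ∘ J.subtype) ∘ (Subgroup.inclusion hNJ) = (θ : N → ℂ) := by
        funext n
        exact hχfN n
      rw [this]
      exact θ.2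
    exact ⟨⟨_, hirr⟩, sameBlock_of_omN hM N J hNJ χf hcl hom, fun y => rfl⟩
  refine ⟨⟨χf, hχf⟩, ?_, hχfN, hJ⟩
  have h1 := sameBlock_of_omN hM N ⊤ le_top χf hcl hom
  intro g
  have h2 := h1 (Subgroup.topEquiv.symm g)
  have e1 := Cfsg.Agent.Lib.Helper21.centralChar_comp_equiv (Subgroup.topEquiv (G := G)) χf
    (Subgroup.topEquiv.symm g)
  have e2 := Cfsg.Agent.Lib.Helper21.centralChar_comp_equiv (Subgroup.topEquiv (G := G))
    (fun _ : G => (1 : ℂ)) (Subgroup.topEquiv.symm g)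
  rw [MulEquiv.apply_symm_apply] at e1 e2
  rw [← e1, ← e2]
  exact h2

end Cfsg.Agent.Lib.Helper20.RC
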