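import Cfsg.Agent.Lib.Helper20.CharOrth
import Cfsg.Agent.Lib.Helper82.Basic

set_option autoImplicit false
set_option linter.unusedSectionVars false
set_option linter.unusedVariables false
set_option linter.style.haveILetI false

open Cfsg Cfsg.Agent.Lib.Helper82
open scoped ComplexConjugate

namespace Cfsg.Agent.Lib.Helper20.SH3

/-- A "Steinberg-like" character: degree `q`, zero on elements of even order, of absolute value
one on the nonidentity elements of odd order.  Then there are `q ^ 2 - 1` elements of even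
order. -/
theorem card_even_of_steinberg {G : Type*} [Group G] [Finite G] (q : ℕ) (χ : IrrCharacter G)
    (hdeg : charDegree (χ : G → ℂ) = q)
    (h0 : ∀ g : G, 2 ∣ orderOf g → (χ : G → ℂ) g = 0)
    (h1 : ∀ g : G, g ≠ 1 → ¬ 2 ∣ orderOf g → ‖(χ : G → ℂ) g‖ = 1) :
    Nat.card {g : G // 2 ∣ orderOf g} = q ^ 2 - 1 := by
  classical
  haveI := Fintype.ofFinite G
  have hinner := Cfsg.Agent.Lib.Helper20.classInner_irr_self χ.2
  unfold classInner at hinner
  have hcard : (Nat.card G : ℂ) ≠ 0 := Nat.cast_ne_zero.2 Nat.card_pos.ne'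
  have hsum : ∑ g : G, (χ : G → ℂ) g * conj ((χ : G → ℂ) g) = (Nat.card G : ℂ) := by
    field_simp at hinner
    exact hinner
  have hterm : ∀ g : G, (χ : G → ℂ) g * conj ((χ : G → ℂ) g) =
      if g = 1 then ((q ^ 2 : ℕ) : ℂ) else if 2 ∣ orderOf g then 0 else 1 := by
    intro g
    split_ifs with hg1 hg2
    · rw [hg1, isChar_one_eq (isIrr_isChar χ.2), hdeg]
      simp [pow_two]
    · rw [h0 g hg2, zero_mul]
    · rw [Complex.mul_conj, Complex.normSq_eq_norm_sq, h1 g hg1 hg2]; simp
  rw [Finset.sum_congr rfl (fun g _ => hterm g)] at hsum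
  -- count
  have h2 : ∑ g : G, (if g = 1 then ((q ^ 2 : ℕ) : ℂ) else if 2 ∣ orderOf g then 0 else 1)
      = ((q ^ 2 + (Finset.univ.filter (fun g : G => g ≠ 1 ∧ ¬ 2 ∣ orderOf g)).card : ℕ) : ℂ) := by
    rw [← Finset.add_sum_erase Finset.univ _ (Finset.mem_univ (1 : G)), if_pos rfl]
    push_cast
    congr 1
    rw [Finset.card_filter]
    push_cast
    rw [← Finset.add_sum_erase Finset.univ (fun g : G => if g ≠ 1 ∧ ¬ 2 ∣ orderOf g then (1 : ℂ) else 0)
      (Finset.mem_univ (1 : G))]
    simp only [ne_eq, not_true_eq_false, false_and, if_false, zero_add]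
    apply Finset.sum_congr rfl
    intro g hg
    have hg1 : g ≠ 1 := Finset.ne_of_mem_erase hg
    simp only [hg1, if_false, not_false_eq_true, true_and]
    split_ifs <;> rfl
  rw [h2] at hsum
  have h3 : q ^ 2 + (Finset.univ.filter (fun g : G => g ≠ 1 ∧ ¬ 2 ∣ orderOf g)).card
      = Nat.card G := by exact_mod_cast hsum
  -- partition of G
  have h4 : Nat.card G = 1 + (Finset.univ.filter (fun g : G => 2 ∣ orderOf g)).card
      + (Finset.univ.filter (fun g : G => g ≠ 1 ∧ ¬ 2 ∣ orderOf g)).card := by
    rw [Nat.card_eq_fintype_card, ← Finset.card_univ]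
    have hdisj1 : Disjoint ({1} : Finset G) (Finset.univ.filter (fun g : G => 2 ∣ orderOf g)) := by
      rw [Finset.disjoint_singleton_left]
      simp
    have hdisj2 : Disjoint (({1} : Finset G) ∪ Finset.univ.filter (fun g : G => 2 ∣ orderOf g))
        (Finset.univ.filter (fun g : G => g ≠ 1 ∧ ¬ 2 ∣ orderOf g)) := by
      rw [Finset.disjoint_left]
      intro g hg hg'
      simp only [Finset.mem_union, Finset.mem_singleton, Finset.mem_filter, Finset.mem_univ,
        true_and] at hg hg'
      rcases hg with h | h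
      · exact hg'.1 h
      · exact hg'.2 h
    have huniv : (Finset.univ : Finset G) = (({1} : Finset G) ∪
        Finset.univ.filter (fun g : G => 2 ∣ orderOf g)) ∪
        (Finset.univ.filter (fun g : G => g ≠ 1 ∧ ¬ 2 ∣ orderOf g)) := by
      ext g
      simp only [Finset.mem_univ, Finset.mem_union, Finset.mem_singleton, Finset.mem_filter,
        true_and, true_iff]
      tauto
    calc (Finset.univ : Finset G).card = ((({1} : Finset G) ∪
        Finset.univ.filter (fun g : G => 2 ∣ orderOf g)) ∪
        (Finset.univ.filter (fun g : G => g ≠ 1 ∧ ¬ 2 ∣ orderOf g))).card := congrArg _ huniv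
      _ = _ := by
        rw [Finset.card_union_of_disjoint hdisj2, Finset.card_union_of_disjoint hdisj1,
          Finset.card_singleton]
  rw [Nat.card_eq_fintype_card, Fintype.card_subtype]
  omega

end Cfsg.Agent.Lib.Helper20.SH3
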