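import Cfsg.Agent.Lib.Helper20.SH3Num
import Cfsg.Agent.Lib.Helper20.SH3Count
import Cfsg.Agent.Lib.Helper20.M11G3
import Cfsg.Agent.Lib.Helper20.M11G45
import Cfsg.Agent.Lib.Helper20.M11G69
import Cfsg.Agent.Lib.Helper12.S3TMain
import Cfsg.Agent.Lib.Helper6.SLEquiv
import Cfsg.Agent.Lib.Helper78.DefectZero
import Cfsg.Agent.Lib.Helper66.SH3A
import Cfsg.Agent.Lib.Helper66.SH3B

set_option autoImplicit false
set_option linter.unusedSectionVars false
set_option linter.unusedVariables false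
set_option linter.style.haveILetI false

open Cfsg Cfsg.Agent.Lib.Helper20.M11 Cfsg.Agent.Lib.Helper20.BlkKit Cfsg.Agent.Lib.Helper82 Cfsg.Agent.Lib.Helper66.SH3

namespace Cfsg.Agent.Lib.Helper20.SH3

theorem psl_of_steinberg {G : Type*} [Group G] [Finite G] (f : ℕ) (hf : 1 ≤ f)
    (hG : Nat.card G = 2 ^ f * (2 ^ f - 1) * (2 ^ f + 1)) (χ : IrrCharacter G)
    (hdeg : charDegree (χ : G → ℂ) = 2 ^ f)
    (h0 : ∀ g : G, 2 ∣ orderOf g → (χ : G → ℂ) g = 0)
    (h1 : ∀ g : G, (∃ r : ℕ, r.Prime ∧ r ≠ 2 ∧ r ∣ orderOf g) → ‖(χ : G → ℂ) g‖ = 1)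
    {F : Type*} [Field F] [Fintype F] (hF : Fintype.card F = 2 ^ f) :
    Nonempty (G ≃* Matrix.ProjectiveSpecialLinearGroup (Fin 2) F) := by
  have hmix : ∀ g : G, 2 ∣ orderOf g → ∃ k : ℕ, orderOf g = 2 ^ k := by
    intro g hg
    by_contra hcon
    have hex : ∃ r : ℕ, r.Prime ∧ r ≠ 2 ∧ r ∣ orderOf g := by
      by_contra hno
      push Not at hno
      apply hcon
      refine ⟨(orderOf g).primeFactorsList.length, ?_⟩
      apply Nat.eq_prime_pow_of_unique_prime_dvd (orderOf_pos g).ne'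
      intro d hd hdvd
      by_contra hd2
      exact hno d hd hd2 hdvd
    have h2 := h1 g hex
    rw [h0 g hg] at h2
    simp at h2
  have hcnt : Nat.card {g : G // 2 ∣ orderOf g} = (2 ^ f) ^ 2 - 1 := by
    apply card_even_of_steinberg _ χ hdeg h0
    intro g hg1 hg2
    apply h1
    have hne : orderOf g ≠ 1 := fun h => hg1 (orderOf_eq_one_iff.1 h)
    refine ⟨(orderOf g).minFac, Nat.minFac_prime hne, ?_, Nat.minFac_dvd _⟩
    intro h
    exact hg2 (h ▸ Nat.minFac_dvd _)
  obtain ⟨hC, hn⟩ := ti_of_two_elements f hf hG hmix hcnt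
  have hS := sharp3_of_ti f hf hG hC hn
  have h2f : 2 ≤ 2 ^ f := by
    calc 2 = 2 ^ 1 := (pow_one 2).symm
      _ ≤ 2 ^ f := Nat.pow_le_pow_right (by norm_num) hf
  have hev : Even (2 ^ f) := (Nat.even_pow.2 ⟨even_two, by omega⟩)
  obtain ⟨F', iF, iFt, hch, hcard, ⟨hE⟩, -⟩ := hS.main (by rw [hn]; exact hev.add_one)
    (by rw [hn]; omega)
  rw [hn] at hcard
  have hcF : Fintype.card F' = Fintype.card F := by rw [hF]; omega
  exact ⟨hE.trans (Cfsg.Agent.Lib.Helper6.pslEquiv (FiniteField.ringEquivOfCardEq hcF))⟩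

theorem card_sylow_of_factorization {G : Type*} [Group G] [Finite G] (p : ℕ) [Fact p.Prime]
    (P : Sylow p G) (m : ℕ) (hG : Nat.card G = p * m) (hm : ¬ p ∣ m) : Nat.card P = p := by
  have hp : p.Prime := Fact.out
  have hm0 : m ≠ 0 := by rintro rfl; exact hm (dvd_zero _)
  rw [Sylow.card_eq_multiplicity, hG, Nat.factorization_mul hp.ne_zero hm0, Finsupp.add_apply,
    hp.factorization_self, Nat.factorization_eq_zero_of_not_dvd hm, pow_one]

theorem main504 {G : Type*} [Group G] [Finite G] [IsSimpleGroup G] (h : Nat.card G = 504)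
    {F : Type*} [Field F] [Fintype F] (hF : Fintype.card F = 8) :
    Nonempty (G ≃* Matrix.ProjectiveSpecialLinearGroup (Fin 2) F) := by
  classical
  haveI := Fintype.ofFinite G
  haveI := Fintype.ofFinite (IrrCharacter G)
  haveI : Fact (Nat.Prime 7) := ⟨by norm_num⟩
  set d : IrrCharacter G → ℕ := fun χ => charDegree (χ : G → ℂ) with hd
  have hb : BaseN 504 d (Cfsg.Agent.Lib.Helper80.trivIrr G) := by
    have := baseN_of_simple (G := G) (by rw [h]; norm_num)
    rwa [h] at this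
  obtain ⟨M, hM⟩ := Cfsg.Agent.Lib.Helper78.exists_isPModular (p := 7) (by norm_num)
  obtain ⟨P⟩ : Nonempty (Sylow 7 G) := inferInstance
  have hP : Nat.card P = 7 := card_sylow_of_factorization 7 P 72 (by rw [h]) (by norm_num)
  obtain ⟨X, Y, s, ε, hB, hs, hval, hsing, hrel⟩ := bridge2 7 M hM (by norm_num) P hP _ rfl
  obtain ⟨he, n, hn, hcard⟩ := sylow_arith 7 P hP
  set e := (Subgroup.centralizer ((P : Subgroup G) : Set G)).relIndex
      (Subgroup.normalizer ((P : Subgroup G) : Set G)) with hedef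
  have h0 : Cfsg.Agent.Lib.Helper80.trivIrr G ∈ X ∪ Y :=
    (hB _).1 (Cfsg.Agent.Lib.Helper80.trivIrr_mem_principalBlock hM)
  have key : (∃ i ∈ X, d i = 6) → e = 2 := by
    rintro ⟨χ, hχX, hχ⟩
    have hsχ : s χ = -1 := by
      have h1 := hs.congX χ hχX
      have h2 := hs.sgn χ hχX
      rcases h2 with h2 | h2
      · rw [h2] at h1
        have : (d χ : ℤ) = 6 := by exact_mod_cast hχ
        rw [this] at h1
        exact absurd h1 (by decide)
      · exact h2
    have hreg : ∀ y : G, y ∈ Subgroup.centralizer ((P : Subgroup G) : Set G) →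
        ¬ 7 ∣ orderOf y → y = 1 := by
      intro y hy hyp
      have h3 := value_of_deg_pred 7 (P : Subgroup G) hP (χ : G → ℂ) (isIrr_isChar χ.2) hχ
        (fun x hx hx1 y hy hyp => by rw [hval χ hχX x hx hx1 y hy hyp, hsχ]; norm_num) y hy hyp
      apply eq_one_of_norm_eq χ (by show d χ ≠ 1; omega) y
      rw [h3]; simp
    have hc := card_centralizer_of_regular 7 P hP hreg
    rw [hc, h] at hcard
    have he' : e ∣ 6 := he
    have : e ≤ 6 := Nat.le_of_dvd (by norm_num) he'
    interval_cases e <;> omega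
  obtain ⟨χ, θ, hX, hne, hs0, hχ8, hsχ, hθY, hθ9, hε⟩ := num504 hb hs he h0 key
  have hχX : χ ∈ X := by rw [hX]; simp
  apply psl_of_steinberg 3 (by norm_num) (by rw [h]; norm_num) χ hχ8 _ _ (by rw [hF]; norm_num)
  · intro g hg
    exact Cfsg.Agent.Lib.Helper78.vanish_of_defect_zero (p := 2) (by norm_num) χ (m := 63)
      (by rw [h]; show 504 = d χ * 63; rw [hχ8]) (by norm_num) hg
  · rintro g ⟨r, hr, hr2, hrg⟩
    by_cases h7 : 7 ∣ orderOf g
    · rw [hsing χ hχX g h7, hsχ]; simp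
    · have hr504 : r ∣ 504 := by rw [← h]; exact hrg.trans (orderOf_dvd_natCard g)
      have hr3 : r = 3 := by
        have h1 : r ∣ 2 ^ 3 * 3 ^ 2 * 7 := by norm_num; exact hr504
        rcases (Nat.Prime.dvd_mul hr).1 h1 with h2 | h2
        · rcases (Nat.Prime.dvd_mul hr).1 h2 with h3 | h3
          · exact absurd ((Nat.prime_dvd_prime_iff_eq hr (by norm_num)).1 (hr.dvd_of_dvd_pow h3)) hr2
          · exact (Nat.prime_dvd_prime_iff_eq hr (by norm_num)).1 (hr.dvd_of_dvd_pow h3)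
        · have := (Nat.prime_dvd_prime_iff_eq hr (by norm_num)).1 h2
          exact absurd (this ▸ hrg) h7
      have hθ0 : (θ : G → ℂ) g = 0 :=
        Cfsg.Agent.Lib.Helper78.vanish_of_defect_zero (p := 3) (by norm_num) θ (m := 56)
          (by rw [h]; show 504 = d θ * 56; rw [hθ9]) (by norm_num) (hr3 ▸ hrg)
      have h2 := hrel θ hθY g h7
      rw [hθ0, mul_zero, hX, Finset.sum_pair hne.symm, hs0, hsχ] at h2
      have h3 : ((Cfsg.Agent.Lib.Helper80.trivIrr G : IrrCharacter G) : G → ℂ) g = 1 := rfl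
      rw [h3] at h2
      have h4 : (χ : G → ℂ) g = -1 := by
        push_cast at h2
        linear_combination -h2
      rw [h4]; simp

theorem main4080 {G : Type*} [Group G] [Finite G] [IsSimpleGroup G] (h : Nat.card G = 4080)
    {F : Type*} [Field F] [Fintype F] (hF : Fintype.card F = 16) :
    Nonempty (G ≃* Matrix.ProjectiveSpecialLinearGroup (Fin 2) F) := by
  classical
  haveI := Fintype.ofFinite G
  haveI := Fintype.ofFinite (IrrCharacter G)
  haveI : Fact (Nat.Prime 17) := ⟨by norm_num⟩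
  set d : IrrCharacter G → ℕ := fun χ => charDegree (χ : G → ℂ) with hd
  have hb : BaseN 4080 d (Cfsg.Agent.Lib.Helper80.trivIrr G) := by
    have := baseN_of_simple (G := G) (by rw [h]; norm_num)
    rwa [h] at this
  obtain ⟨M, hM⟩ := Cfsg.Agent.Lib.Helper78.exists_isPModular (p := 17) (by norm_num)
  obtain ⟨P⟩ : Nonempty (Sylow 17 G) := inferInstance
  have hP : Nat.card P = 17 := card_sylow_of_factorization 17 P 240 (by rw [h]) (by norm_num)
  obtain ⟨X, Y, s, ε, hB, hs, hval, hsing, hrel⟩ := bridge2 17 M hM (by norm_num) P hP _ rfl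
  obtain ⟨he, n, hn, hcard⟩ := sylow_arith 17 P hP
  have h0 : Cfsg.Agent.Lib.Helper80.trivIrr G ∈ X ∪ Y :=
    (hB _).1 (Cfsg.Agent.Lib.Helper80.trivIrr_mem_principalBlock hM)
  obtain ⟨χ, θ, hX, hne, hs0, hχ8, hsχ, hθY, hθ9, hε⟩ := num4080 hb hs he h0
  have hχX : χ ∈ X := by rw [hX]; simp
  apply psl_of_steinberg 4 (by norm_num) (by rw [h]; norm_num) χ hχ8 _ _ (by rw [hF]; norm_num)
  · intro g hg
    exact Cfsg.Agent.Lib.Helper78.vanish_of_defect_zero (p := 2) (by norm_num) χ (m := 255)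
      (by rw [h]; show 4080 = d χ * 255; rw [hχ8]) (by norm_num) hg
  · rintro g ⟨r, hr, hr2, hrg⟩
    by_cases h7 : 17 ∣ orderOf g
    · rw [hsing χ hχX g h7, hsχ]; simp
    · have hr504 : r ∣ 4080 := by rw [← h]; exact hrg.trans (orderOf_dvd_natCard g)
      have hr3 : r = 3 ∨ r = 5 := by
        have h1 : r ∣ 2 ^ 4 * 3 * 5 * 17 := by norm_num; exact hr504
        rcases (Nat.Prime.dvd_mul hr).1 h1 with h2 | h2
        · rcases (Nat.Prime.dvd_mul hr).1 h2 with h3 | h3
          · rcases (Nat.Prime.dvd_mul hr).1 h3 with h4 | h4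
            · exact absurd ((Nat.prime_dvd_prime_iff_eq hr (by norm_num)).1
                (hr.dvd_of_dvd_pow h4)) hr2
            · exact Or.inl ((Nat.prime_dvd_prime_iff_eq hr (by norm_num)).1 h4)
          · exact Or.inr ((Nat.prime_dvd_prime_iff_eq hr (by norm_num)).1 h3)
        · have := (Nat.prime_dvd_prime_iff_eq hr (by norm_num)).1 h2
          exact absurd (this ▸ hrg) h7
      have hθ0 : (θ : G → ℂ) g = 0 := by
        rcases hr3 with hr3 | hr3
        · exact Cfsg.Agent.Lib.Helper78.vanish_of_defect_zero (p := 3) (by norm_num) θ (m := 272)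
            (by rw [h]; show 4080 = d θ * 272; rw [hθ9]) (by norm_num) (hr3 ▸ hrg)
        · exact Cfsg.Agent.Lib.Helper78.vanish_of_defect_zero (p := 5) (by norm_num) θ (m := 272)
            (by rw [h]; show 4080 = d θ * 272; rw [hθ9]) (by norm_num) (hr3 ▸ hrg)
      have h2 := hrel θ hθY g h7
      rw [hθ0, mul_zero, hX, Finset.sum_pair hne.symm, hs0, hsχ] at h2
      have h3 : ((Cfsg.Agent.Lib.Helper80.trivIrr G : IrrCharacter G) : G → ℂ) g = 1 := rfl
      rw [h3] at h2
      have h4 : (χ : G → ℂ) g = 1 := by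
        push_cast at h2
        linear_combination h2
      rw [h4]; simp

end Cfsg.Agent.Lib.Helper20.SH3
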