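import Cfsg.Agent.Lib.Helper20.BlkKit

set_option autoImplicit false
set_option linter.unusedSectionVars false
set_option linter.unusedVariables false
set_option linter.style.haveILetI false

open Cfsg.Agent.Lib.Helper20.M11 Cfsg.Agent.Lib.Helper9.M11 Cfsg.Agent.Lib.Helper20.BlkKit

namespace Cfsg.Agent.Lib.Helper20.SH3

theorem vals7 (n : ℕ) (hd : n ∣ 504) (hle : n ≤ 22) (σ : ℤ) (hσ : σ = 1 ∨ σ = -1)
    (hc : (n : ℤ) ≡ σ [ZMOD ((7 : ℕ) : ℤ)]) :
    (n = 1 ∧ σ = 1) ∨ (n = 8 ∧ σ = 1) ∨ (n = 6 ∧ σ = -1) := by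
  unfold Int.ModEq at hc
  rcases hσ with rfl | rfl <;> interval_cases n <;> omega

theorem core504 (e u a c y : ℕ) (ε : ℤ) (H1 : e ∣ 6) (H2 : u + a + c = e)
    (H3 : ε = 1 ∨ ε = -1) (H4 : ε * (y : ℤ) = (u : ℤ) + 8 * a - 6 * c)
    (H6 : y ∣ 504) (H6' : y ≤ 22) (H8 : u ≤ 1)
    (H9 : y = 1 → u = 0 ∧ 6 / e = 1) (H10 : u = 1 ∨ y = 1) (H11 : 1 ≤ c → e = 2) :
    e = 2 ∧ u = 1 ∧ a = 1 ∧ c = 0 ∧ y = 9 ∧ ε = 1 := by
  have he : e = 1 ∨ e = 2 ∨ e = 3 ∨ e = 6 := by
    have : e ≤ 6 := Nat.le_of_dvd (by norm_num) H1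
    interval_cases e <;> omega
  rcases he with rfl | rfl | rfl | rfl
  · exfalso
    rcases H3 with rfl | rfl <;> omega
  · have hu : u = 1 := by omega
    subst hu
    have hc : c = 0 ∨ c = 1 := by omega
    rcases hc with rfl | rfl
    · rcases H3 with rfl | rfl <;> omega
    · exfalso
      have hy : y = 5 := by rcases H3 with rfl | rfl <;> omega
      subst hy
      norm_num at H6
  · exfalso
    have hc : c = 0 := by omega
    have hu : u = 1 := by omega
    subst hc hu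
    have hy : y = 17 := by rcases H3 with rfl | rfl <;> omega
    subst hy
    norm_num at H6
  · exfalso
    have hc : c = 0 := by omega
    rcases H3 with rfl | rfl <;> omega

theorem num504 {ι : Type*} [Fintype ι] [DecidableEq ι] {d : ι → ℕ} {i₀ : ι}
    (hb : BaseN 504 d i₀)
    {e : ℕ} {X Y : Finset ι} {s : ι → ℤ} {ε : ℤ} (hs : Shadow d 7 e X Y s ε) (he : e ∣ 6)
    (h0 : i₀ ∈ X ∪ Y) (key : (∃ i ∈ X, d i = 6) → e = 2) :
    ∃ χ θ : ι, X = {i₀, χ} ∧ χ ≠ i₀ ∧ s i₀ = 1 ∧ d χ = 8 ∧ s χ = 1 ∧ θ ∈ Y ∧ d θ = 9 ∧ ε = 1 := by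
  have hle : ∀ i, d i ≤ 22 := by
    intro i
    have := BaseN.sq_le hb i
    nlinarith
  have he0 : 0 < e := Nat.pos_of_dvd_of_pos he (by norm_num)
  have he6 : e ≤ 6 := Nat.le_of_dvd (by norm_num) he
  have hYcard : Y.card = 6 / e := hs.cardY
  have hYpos : 0 < Y.card := by
    rw [hYcard]; exact Nat.div_pos he6 he0
  obtain ⟨θ, hθ⟩ := Finset.card_pos.mp hYpos
  set y := d θ with hy
  have hYy : ∀ i ∈ Y, d i = y := fun i hi => hs.eqY i hi θ hθ
  have hX : ∀ i ∈ X, (d i = 1 ∧ s i = 1) ∨ (d i = 8 ∧ s i = 1) ∨ (d i = 6 ∧ s i = -1) :=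
    fun i hi => vals7 (d i) (hb.dvd i) (hle i) (s i) (hs.sgn i hi) (hs.congX i hi)
  have hXt : ∀ i ∈ X, d i ∈ ({1, 8, 6} : Finset ℕ) := by
    intro i hi
    rcases hX i hi with h | h | h <;> simp [h.1]
  set u := cnt d X 1 with hu
  set a := cnt d X 8 with ha
  set c := cnt d X 6 with hc
  have H2 : u + a + c = e := by
    rw [← hs.cardX, card_eq d X _ hXt]
    simp [Finset.sum_insert]
    ring
  have H4 : ε * (y : ℤ) = (u : ℤ) + 8 * a - 6 * c := by
    rw [hs.rel θ hθ]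
    have h1 : ∑ j ∈ X, s j * (d j : ℤ)
        = ∑ j ∈ X, (fun n : ℕ => if n = 6 then (-6 : ℤ) else n) (d j) := by
      apply Finset.sum_congr rfl
      intro j hj
      rcases hX j hj with h | h | h <;> simp [h.1, h.2]
    rw [h1, sum_eq d X _ hXt (fun n : ℕ => if n = 6 then (-6 : ℤ) else n)]
    simp [Finset.sum_insert]
    ring
  have H9 : y = 1 → u = 0 ∧ 6 / e = 1 := by
    intro hy1
    have hθ0 : θ = i₀ := hb.uniq θ hy1
    constructor
    · apply cnt_eq_zero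
      intro i hi h1
      have : i = i₀ := hb.uniq i h1
      rw [this, ← hθ0] at hi
      exact (Finset.disjoint_left.mp hs.disj hi) hθ
    · rw [← hYcard]
      apply le_antisymm _ hYpos
      calc Y.card ≤ ({i₀} : Finset ι).card := by
            apply Finset.card_le_card
            intro i hi
            rw [Finset.mem_singleton]
            exact hb.uniq i ((hYy i hi).trans hy1)
        _ = 1 := Finset.card_singleton _
  have H8 : u ≤ 1 := BaseN.cnt_one_le hb X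
  have H10 : u = 1 ∨ y = 1 := by
    rcases Finset.mem_union.mp h0 with h | h
    · left
      exact le_antisymm H8 (cnt_pos d h hb.one)
    · right
      rw [← hYy i₀ h]; exact hb.one
  have H11 : 1 ≤ c → e = 2 := fun h => key (exists_of_cnt_pos d h)
  obtain ⟨he2, hu1, ha1, hc0, hy9, hε⟩ :=
    core504 e u a c y ε he H2 hs.eps H4 (hb.dvd θ) (hle θ) H8 H9 H10 H11
  obtain ⟨χ, hχX, hχ8⟩ := exists_of_cnt_pos d (S := X) (n := 8) (by omega)
  obtain ⟨j, hjX, hj1⟩ := exists_of_cnt_pos d (S := X) (n := 1) (by omega)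
  have hj : j = i₀ := hb.uniq j hj1
  rw [hj] at hjX
  have hne : χ ≠ i₀ := by
    intro h
    rw [h, hb.one] at hχ8
    omega
  refine ⟨χ, θ, ?_, hne, ?_, hχ8, ?_, hθ, hy9, hε⟩
  · symm
    apply Finset.eq_of_subset_of_card_le
    · intro i hi
      simp only [Finset.mem_insert, Finset.mem_singleton] at hi
      rcases hi with rfl | rfl <;> assumption
    · rw [hs.cardX, he2, Finset.card_pair hne.symm]
  · rcases hX i₀ hjX with h | h | h
    · exact h.2
    · have := hb.one; omega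
    · have := hb.one; omega
  · rcases hX χ hχX with h | h | h
    · omega
    · exact h.2
    · omega

theorem vals17 (n : ℕ) (hd : n ∣ 4080) (hle : n ≤ 63) (σ : ℤ) (hσ : σ = 1 ∨ σ = -1)
    (hc : (n : ℤ) ≡ σ [ZMOD ((17 : ℕ) : ℤ)]) :
    (n = 1 ∧ σ = 1) ∨ (n = 16 ∧ σ = -1) := by
  unfold Int.ModEq at hc
  rcases hσ with rfl | rfl <;> interval_cases n <;> omega

theorem core4080 (e u c y : ℕ) (ε : ℤ) (H1 : e ∣ 16) (H2 : u + c = e)
    (H3 : ε = 1 ∨ ε = -1) (H4 : ε * (y : ℤ) = (u : ℤ) - 16 * c)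
    (H6 : y ∣ 4080) (H6' : y ≤ 63) (H8 : u ≤ 1)
    (H9 : y = 1 → u = 0 ∧ 16 / e = 1) (H10 : u = 1 ∨ y = 1) :
    e = 2 ∧ u = 1 ∧ c = 1 ∧ y = 15 ∧ ε = -1 := by
  have he : e = 1 ∨ e = 2 ∨ e = 4 ∨ e = 8 ∨ e = 16 := by
    have : e ≤ 16 := Nat.le_of_dvd (by norm_num) H1
    interval_cases e <;> omega
  rcases he with rfl | rfl | rfl | rfl | rfl
  · exfalso
    rcases H3 with rfl | rfl <;> omega
  · rcases H3 with rfl | rfl <;> omega
  · exfalso
    have hu : u = 1 := by omega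
    subst hu
    have hy : y = 47 := by rcases H3 with rfl | rfl <;> omega
    subst hy
    norm_num at H6
  · exfalso
    rcases H3 with rfl | rfl <;> omega
  · exfalso
    rcases H3 with rfl | rfl <;> omega

theorem num4080 {ι : Type*} [Fintype ι] [DecidableEq ι] {d : ι → ℕ} {i₀ : ι}
    (hb : BaseN 4080 d i₀)
    {e : ℕ} {X Y : Finset ι} {s : ι → ℤ} {ε : ℤ} (hs : Shadow d 17 e X Y s ε) (he : e ∣ 16)
    (h0 : i₀ ∈ X ∪ Y) :
    ∃ χ θ : ι, X = {i₀, χ} ∧ χ ≠ i₀ ∧ s i₀ = 1 ∧ d χ = 16 ∧ s χ = -1 ∧ θ ∈ Y ∧ d θ = 15 ∧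
      ε = -1 := by
  have hle : ∀ i, d i ≤ 63 := by
    intro i
    have := BaseN.sq_le hb i
    nlinarith
  have he0 : 0 < e := Nat.pos_of_dvd_of_pos he (by norm_num)
  have he6 : e ≤ 16 := Nat.le_of_dvd (by norm_num) he
  have hYcard : Y.card = 16 / e := hs.cardY
  have hYpos : 0 < Y.card := by
    rw [hYcard]; exact Nat.div_pos he6 he0
  obtain ⟨θ, hθ⟩ := Finset.card_pos.mp hYpos
  set y := d θ with hy
  have hYy : ∀ i ∈ Y, d i = y := fun i hi => hs.eqY i hi θ hθ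
  have hX : ∀ i ∈ X, (d i = 1 ∧ s i = 1) ∨ (d i = 16 ∧ s i = -1) :=
    fun i hi => vals17 (d i) (hb.dvd i) (hle i) (s i) (hs.sgn i hi) (hs.congX i hi)
  have hXt : ∀ i ∈ X, d i ∈ ({1, 16} : Finset ℕ) := by
    intro i hi
    rcases hX i hi with h | h <;> simp [h.1]
  set u := cnt d X 1 with hu
  set c := cnt d X 16 with hc
  have H2 : u + c = e := by
    rw [← hs.cardX, card_eq d X _ hXt]
    simp [Finset.sum_insert]
    rfl
  have H4 : ε * (y : ℤ) = (u : ℤ) - 16 * c := by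
    rw [hs.rel θ hθ]
    have h1 : ∑ j ∈ X, s j * (d j : ℤ)
        = ∑ j ∈ X, (fun n : ℕ => if n = 16 then (-16 : ℤ) else n) (d j) := by
      apply Finset.sum_congr rfl
      intro j hj
      rcases hX j hj with h | h <;> simp [h.1, h.2]
    rw [h1, sum_eq d X _ hXt (fun n : ℕ => if n = 16 then (-16 : ℤ) else n)]
    simp [Finset.sum_insert]
    ring
  have H9 : y = 1 → u = 0 ∧ 16 / e = 1 := by
    intro hy1
    have hθ0 : θ = i₀ := hb.uniq θ hy1
    constructor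
    · apply cnt_eq_zero
      intro i hi h1
      have : i = i₀ := hb.uniq i h1
      rw [this, ← hθ0] at hi
      exact (Finset.disjoint_left.mp hs.disj hi) hθ
    · rw [← hYcard]
      apply le_antisymm _ hYpos
      calc Y.card ≤ ({i₀} : Finset ι).card := by
            apply Finset.card_le_card
            intro i hi
            rw [Finset.mem_singleton]
            exact hb.uniq i ((hYy i hi).trans hy1)
        _ = 1 := Finset.card_singleton _
  have H8 : u ≤ 1 := BaseN.cnt_one_le hb X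
  have H10 : u = 1 ∨ y = 1 := by
    rcases Finset.mem_union.mp h0 with h | h
    · left
      exact le_antisymm H8 (cnt_pos d h hb.one)
    · right
      rw [← hYy i₀ h]; exact hb.one
  obtain ⟨he2, hu1, hc1, hy15, hε⟩ :=
    core4080 e u c y ε he H2 hs.eps H4 (hb.dvd θ) (hle θ) H8 H9 H10
  obtain ⟨χ, hχX, hχ8⟩ := exists_of_cnt_pos d (S := X) (n := 16) (by omega)
  obtain ⟨j, hjX, hj1⟩ := exists_of_cnt_pos d (S := X) (n := 1) (by omega)
  have hj : j = i₀ := hb.uniq j hj1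
  rw [hj] at hjX
  have hne : χ ≠ i₀ := by
    intro h
    rw [h, hb.one] at hχ8
    omega
  refine ⟨χ, θ, ?_, hne, ?_, hχ8, ?_, hθ, hy15, hε⟩
  · symm
    apply Finset.eq_of_subset_of_card_le
    · intro i hi
      simp only [Finset.mem_insert, Finset.mem_singleton] at hi
      rcases hi with rfl | rfl <;> assumption
    · rw [hs.cardX, he2, Finset.card_pair hne.symm]
  · rcases hX i₀ hjX with h | h
    · exact h.2
    · have := hb.one; omega
  · rcases hX χ hχX with h | h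
    · omega
    · exact h.2

end Cfsg.Agent.Lib.Helper20.SH3
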